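import Cfsg.Agent.Lib.FP.Base

/-! Row A: no element of `X` is transitive on the nontrivial elements of `[V, x]`. -/

open Subgroup
open scoped commutatorElement

set_option linter.unusedSectionVars false

namespace Cfsg.Agent.FP

open FT Tr

universe u

variable {G : Type u} [Group G] [Finite G] {p r : ℕ} {V X U : Subgroup G} {a x g v w : G}

/-- The hypotheses of row A. -/
structure AC (p r : ℕ) (V X : Subgroup G) (a x : G) : Prop where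
  p2 : p ≠ 2
  rp : r.Prime
  ab : Abelem p V
  XV : X ≤ 𝐍(V)
  aV : a ∈ 𝐍(V)
  aX : a ∈ 𝐍(X)
  ar : a ^ r = 1
  rX : ¬ r ∣ #|X|
  faith : X ⊓ 𝐂(V) = ⊥
  fpf : V ⊓ 𝐂[a] = ⊥
  pX : ¬ p ∣ #|X|
  xX : x ∈ X
  x1 : x ≠ 1
  tr : ∀ u ∈ ⁅V, zpowers x⁆, ∀ v ∈ ⁅V, zpowers x⁆, u ≠ 1 → v ≠ 1 →
    ∃ n : ℕ, x ^ n * u * (x ^ n)⁻¹ = v

/-- The elements of the abelian group `V` inverted by `w`. -/
def invSub (V : Subgroup G) (hV : ∀ u ∈ V, ∀ v ∈ V, u * v = v * u) (w : G) : Subgroup G where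
  carrier := {v | v ∈ V ∧ w * v * w⁻¹ = v⁻¹}
  one_mem' := ⟨one_mem _, by simp⟩
  inv_mem' := fun {v} h => ⟨inv_mem h.1, by rw [← conj_inv, h.2]⟩
  mul_mem' := fun {u v} hu hv => ⟨mul_mem hu.1 hv.1, by
    rw [← conj_mul, hu.2, hv.2, ← mul_inv_rev, hV _ hv.1 _ hu.1]⟩

namespace AC

variable [hp : Fact p.Prime] (h : AC p r V X a x)
include h

theorem conj (hg : g ∈ X) : AC p r V X (g * a * g⁻¹) x :=
  { h with
    aV := mul_mem (mul_mem (h.XV hg) h.aV) (inv_mem (h.XV hg))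
    aX := mul_mem (mul_mem (le_normalizer hg) h.aX) (inv_mem (le_normalizer hg))
    ar := by rw [conj_pow, h.ar]; simp
    fpf := by rw [cent1J, ← cj_eq_of_mem_normalizer (h.XV hg), ← cj_inf, h.fpf, cj_bot] }

theorem comm : ∀ u ∈ V, ∀ v ∈ V, u * v = v * u := fun _ hu _ hv =>
  congrArg Subtype.val (h.ab.1.1.1 ⟨_, hu⟩ ⟨_, hv⟩)

theorem sq (hv : v ∈ V) (e : v * v = 1) : v = 1 := by
  obtain ⟨k, hk⟩ := hp.out.odd_of_ne_two h.p2
  have h1 := h.ab.2 v hv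
  rwa [hk, pow_succ, pow_mul, _root_.sq, e, one_pow, one_mul] at h1

theorem cop (hU : U ≤ V) : (#|U|).Coprime #|zpowers x| := by
  obtain ⟨n, hn⟩ := card_pgroup (pgroup_sub hU (abelem_pgroup h.ab))
  rw [hn]
  exact Nat.Coprime.pow_left _ ((Nat.Prime.coprime_iff_not_dvd hp.out).2 fun e =>
    h.pX (e.trans (cardSg (zpowers_le_of_mem h.xX))))

theorem Y_le : ⁅V, zpowers x⁆ ≤ V := comm_le (h.XV h.xX)

theorem dec (hU : U ≤ V) (hx : x ∈ 𝐍(U)) (hv : v ∈ U) :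
    ∃ y ∈ ⁅V, zpowers x⁆, ∃ c ∈ U, Commute c x ∧ y * c = v := by
  obtain ⟨y, hy, c, hc, e⟩ :=
    (coprime_cent_prod (norms_cycle.2 hx) (h.cop hU) (zsol _ _)).exists hv
  rw [cent_cycle] at hc
  exact ⟨y, commutator_mono hU le_rfl hy, c, hc.1, mem_cent1'.1 hc.2, e⟩

theorem Y_TI : ⁅V, zpowers x⁆ ⊓ 𝐂[x] = ⊥ :=
  cent_cycle x ▸ coprime_abel_cent_TI (norms_cycle.2 (h.XV h.xX)) (h.cop le_rfl) h.ab.1

theorem eq_one (hg : g ∈ X) (e : ∀ v ∈ V, Commute v g) : g = 1 :=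
  mem_bot.1 (h.faith ▸ ⟨hg, e⟩)

theorem Y_ne : ⁅V, zpowers x⁆ ≠ ⊥ := fun e =>
  h.x1 (h.eq_one h.xX fun _ hv => mem_cent1'.1 (comm_bot.1 e hv))

theorem reg (hg : g ∈ zpowers x) (hv : v ∈ ⁅V, zpowers x⁆) (h1 : v ≠ 1) (e : Commute v g) :
    g = 1 := by
  obtain ⟨i, rfl⟩ := hg
  refine h.eq_one (zpow_mem h.xX i) fun u hu => ?_
  obtain ⟨y, hy, c, -, hc, rfl⟩ := h.dec le_rfl (h.XV h.xX) hu
  refine Commute.mul_left ?_ (hc.zpow_right i)
  by_cases hy1 : y = 1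
  · rw [hy1]; exact Commute.one_left _
  obtain ⟨n, rfl⟩ := h.tr v hv y hy h1 hy1
  have := ((Commute.refl x).pow_left n).zpow_right i
  exact (this.mul_left e).mul_left this.inv_left

theorem fixC (hg : g ∈ zpowers x) (h1 : g ≠ 1) (hv : v ∈ V) (e : Commute v g) : Commute v x := by
  obtain ⟨y, hy, c, -, hc, rfl⟩ := h.dec le_rfl (h.XV h.xX) hv
  have h2 : y = 1 := by
    by_contra hy1
    refine h1 (h.reg hg hy hy1 ?_)
    obtain ⟨i, rfl⟩ := hg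
    simpa using e.mul_left (hc.zpow_right i).inv_left
  rwa [h2, one_mul]

theorem memY (hg : g ∈ zpowers x) (hv : v ∈ V) (e : g * v * g⁻¹ = v⁻¹) : v ∈ ⁅V, zpowers x⁆ := by
  obtain ⟨y, hy, c, hcV, hc, rfl⟩ := h.dec le_rfl (h.XV h.xX) hv
  have h1 : g * y * g⁻¹ ∈ ⁅V, zpowers x⁆ := (memJ_norm (commg_normr _ _ hg)).2 hy
  have h2 : Commute c g := by
    obtain ⟨i, rfl⟩ := hg
    exact hc.zpow_right i
  have h3 : c * c = (g * y * g⁻¹)⁻¹ * y⁻¹ := by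
    have h4 : g * y * g⁻¹ * c = (y * c)⁻¹ := by
      rw [← e, mul_assoc (g * y), ← h2.inv_right.eq]; group
    rw [h.comm y (h.Y_le hy) c hcV] at h4
    calc c * c = (g * y * g⁻¹)⁻¹ * (g * y * g⁻¹ * c) * c := by group
      _ = _ := by rw [h4]; group
  have h4 : c * c ∈ ⁅V, zpowers x⁆ := h3 ▸ mul_mem (inv_mem h1) (inv_mem hy)
  have h5 : c * c = 1 := mem_bot.1 (h.Y_TI ▸ ⟨h4, mem_cent1'.2 (hc.mul_left hc)⟩)
  rwa [h.sq hcV h5, mul_one]

theorem card_Y : #|⁅V, zpowers x⁆| = orderOf x + 1 := by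
  classical
  obtain ⟨y, hy1⟩ := ne_bot_iff_exists_ne_one.1 h.Y_ne
  have hy1' : (y : G) ≠ 1 := fun e => hy1 (Subtype.ext e)
  let f : zpowers x → {v : (⁅V, zpowers x⁆ : Subgroup G) // v ≠ 1} := fun g =>
    ⟨⟨g * y * (g : G)⁻¹, (memJ_norm (commg_normr _ _ g.2)).2 y.2⟩, fun e => hy1' (by
      have := congrArg Subtype.val e
      simpa using this)⟩
  have hf : Function.Bijective f := by
    refine ⟨fun g k e => ?_, fun v => ?_⟩
    · have e1 : (g : G) * y * (g : G)⁻¹ = k * y * (k : G)⁻¹ := congrArg (fun z => z.1.1) e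
      have := h.reg (mul_mem (inv_mem k.2) g.2) y.2 hy1' (by
        show (y : G) * ((k : G)⁻¹ * g) = (k : G)⁻¹ * g * y
        calc (y : G) * ((k : G)⁻¹ * g) = (k : G)⁻¹ * (k * y * (k : G)⁻¹) * g := by group
          _ = _ := by rw [← e1]; group)
      exact Subtype.ext (inv_mul_eq_one.1 this).symm
    · obtain ⟨n, hn⟩ := h.tr y y.2 v.1 v.1.2 hy1' fun e => v.2 (Subtype.ext e)
      exact ⟨⟨x ^ n, pow_mem (mem_zpowers x) n⟩, Subtype.ext (Subtype.ext hn)⟩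
  rw [← Nat.card_zpowers, Nat.card_eq_of_bijective f hf, ← Finite.card_option]
  exact (Nat.card_congr (Equiv.optionSubtypeNe 1)).symm

theorem ord_a : orderOf a = r := by
  have := Fact.mk h.rp
  refine orderOf_eq_prime h.ar fun e => h.Y_ne (eq_bot_iff.2 (h.Y_le.trans ?_))
  rw [← h.fpf, e]
  exact le_inf le_rfl fun v _ => mem_cent1'.2 (Commute.one_right v)

theorem modr (hU : U ≤ V) (ha : a ∈ 𝐍(U)) : 1 ≡ #|U| [MOD r] := by
  have h1 : #|zpowers a| = r := by rw [Nat.card_zpowers, h.ord_a]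
  refine (Nat.modEq_iff_dvd' Nat.card_pos).2 (h1 ▸ regular_norm_dvd_pred (norms_cycle.2 ha)
    (prime_semiregular (h1 ▸ h.rp) (eq_bot_iff.2 ?_)))
  rw [cent_cycle, ← h.fpf]
  exact inf_le_inf_right _ hU

theorem not_mod : ¬ 1 ≡ #|⁅V, zpowers x⁆| [MOD r] := fun e => by
  have h1 := (Nat.modEq_iff_dvd' Nat.card_pos).1 e
  rw [h.card_Y, Nat.add_sub_cancel] at h1
  exact h.rX (h1.trans (X.orderOf_dvd_natCard h.xX))

theorem notY : a ∉ 𝐍(⁅V, zpowers x⁆) := fun e => h.not_mod (h.modr h.Y_le e)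

theorem notC (hg : g ∈ zpowers x) (h1 : g ≠ 1) : ¬ Commute g a := fun e => by
  have h2 := (coprime_cent_prod (norms_cycle.2 (h.XV h.xX)) (h.cop le_rfl) (zsol _ _)).card
  rw [cent_cycle, ← inf_assoc, inf_eq_left.2 h.Y_le, h.Y_TI, card_bot, mul_one] at h2
  have h3 : V ⊓ 𝐂[x] = V ⊓ 𝐂[g] := by
    ext v
    refine and_congr_right fun hv => ⟨fun e' => ?_, fun e' =>
      mem_cent1'.2 (h.fixC hg h1 hv (mem_cent1'.1 e'))⟩
    obtain ⟨i, rfl⟩ := hg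
    exact mem_cent1'.2 ((mem_cent1'.1 e').zpow_right i)
  have h4 := h.modr (U := V ⊓ 𝐂[g]) inf_le_left (normsI (norms_cycle.2 h.aV)
    (norms_cent1 (zpowers_le_of_mem (mem_cent1'.2 e.symm))) (mem_zpowers a))
  have h5 := h.modr le_rfl h.aV
  rw [← h2, h3] at h5
  exact h.not_mod (h5.trans (by simpa using (h4.symm.mul_left #|⁅V, zpowers x⁆|)))

theorem r2 : r ≠ 2 := by
  rintro rfl
  refine h.notY (mem_normalizer_fintype fun v hv => ?_)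
  have hv' := h.Y_le hv
  have h1 : a * v * a⁻¹ ∈ V := (memJ_norm h.aV).2 hv'
  have h2 : a⁻¹ = a := inv_eq_of_mul_eq_one_left (_root_.sq a ▸ h.ar)
  have h3 : v * (a * v * a⁻¹) = 1 := mem_bot.1 (h.fpf ▸ ⟨mul_mem hv' h1, mem_cent1.2 (by
    calc v * (a * v * a⁻¹) * a = a * (a⁻¹ * v * a * v) := by group
      _ = a * (a * v * a⁻¹ * v) := by rw [h2]
      _ = _ := by rw [h.comm _ h1 v hv'])⟩)
  rw [eq_inv_of_mul_eq_one_right h3]
  exact inv_mem hv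

theorem base : Base p r V X a :=
  ⟨h.p2, h.rp, h.r2, h.ab, h.XV, h.aV, h.aX, h.ord_a, h.rX, fun e =>
    h.rp.one_lt.ne' (Nat.dvd_one.1 (((h.modr le_rfl h.aV).dvd_iff dvd_rfl).2 e)), h.fpf, h.faith⟩

theorem syl (q : ℕ) [Fact q.Prime] : ∃ Q, IsSylowIn q Q X ∧ a ∈ 𝐍(Q) := by
  obtain ⟨Q, hQ, hn⟩ := sol_coprime_Sylow_exists q (zsol a X) (norms_cycle.2 h.aX)
    (h.base.cop le_rfl)
  exact ⟨Q, hQ, hn (mem_zpowers a)⟩

theorem odd (q : ℕ) [Fact q.Prime] (q2 : q ≠ 2) : ∃ Q, IsSylowIn q Q X ∧ Q ≤ 𝐂[a] := by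
  obtain ⟨Q, hQ, hn⟩ := h.syl q
  refine ⟨Q, hQ, ?_⟩
  rcases eq_or_ne q p with rfl | e
  · rw [(Sylow_eq_bot_iff hQ).2 h.pX]
    exact bot_le
  · exact h.base.oddq q2 e hQ.le hn hQ.pgroup

theorem x2 : PiElt {2} x := fun q hq hd => by
  by_contra q2
  have := Fact.mk hq
  obtain ⟨Q, hQ, hc⟩ := h.odd q q2
  have h0 : orderOf x ≠ 0 := (orderOf_pos x).ne'
  have h1 : orderOf (x ^ (orderOf x / q)) = q := orderOf_pow_orderOf_div h0 hd
  obtain ⟨k, hk, e⟩ := Sylow_conj_mem hQ (pow_mem h.xX (orderOf x / q))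
    (p_elt_exp.2 ⟨1, orderOf_dvd_iff_pow_eq_one.1 (by rw [pow_one, h1])⟩)
  refine (h.conj (inv_mem hk)).notC (pow_mem (mem_zpowers x) (orderOf x / q))
    (fun e' => hq.ne_one (by rw [← h1, e', orderOf_one])) ?_
  have h2 := mem_cent1.1 (hc e)
  generalize x ^ (orderOf x / q) = y at h2
  show y * (k⁻¹ * a * k⁻¹⁻¹) = k⁻¹ * a * k⁻¹⁻¹ * y
  calc y * (k⁻¹ * a * k⁻¹⁻¹) = k⁻¹ * (k * y * k⁻¹ * a) * k := by group
    _ = _ := by rw [h2]; group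

theorem sp : Sp ⁅X, zpowers a⁆ a := by
  obtain ⟨T, hT, hn⟩ := h.syl 2
  have hm : MulEq T (X ⊓ 𝐂[a]) X := Sylow_mulEq hT inf_le_left fun q hq hd => by
    by_contra q2
    have := Fact.mk hq
    obtain ⟨Q, hQ, hc⟩ := h.odd q q2
    exact Sylow_not_dvd_index hQ (le_inf hQ.le hc) hd
  have hle : ⁅X, zpowers a⁆ ≤ T := commutator_le.2 fun g hg b hb => by
    obtain ⟨t, ht, c, hc, rfl⟩ := hm.exists hg
    have h1 : Commute c b := by
      obtain ⟨i, rfl⟩ := hb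
      exact (mem_cent1'.1 hc.2).zpow_right i
    have h2 : ⁅t * c, b⁆ = t * (b * t⁻¹ * b⁻¹) := by
      rw [commutatorElement_def, mul_assoc t c, h1.eq]; group
    rw [h2]
    exact mul_mem ht ((memJ_norm (norms_cycle.2 hn hb)).2 (inv_mem ht))
  exact h.base.sp (comm_le h.aX) (pgroup_sub hle hT.pgroup) (norm_comm X a)
    (h.base.commid le_rfl h.aX)

theorem split (hx : x ∈ 𝐂(𝐙(⁅X, zpowers a⁆))) :
    ∃ t ∈ ⁅X, zpowers a⁆, ∃ k, Commute k a ∧ k ∈ 𝐂(⁅X, zpowers a⁆) ∧ t * k = x := by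
  obtain ⟨t, ht, k, hk, e⟩ := (h.base.prod le_rfl h.aX).exists h.xX
  have hk' : k = t⁻¹ * x := by rw [← e]; group
  refine ⟨t, ht, k, mem_cent1'.1 hk.2, h.sp.cent_of_cent_center (commg_norml _ _ hk.1)
    (mem_cent1'.1 hk.2) (mem_p_elt (piG_of_isPGroup (isPGroup_sup h.sp.p2
      (p_elt_iff_isPGroup.1 h.x2) (norms_cycle.2 (commg_norml _ _ h.xX)))) ?_) ?_, e⟩
  · rw [hk']
    exact mul_mem (mem_sup_left (inv_mem ht)) (mem_sup_right (mem_zpowers x))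
  · rw [hk']
    exact mul_mem (inv_mem fun z hz => (hz.2 t ht).symm) hx

theorem inv_ne (hw : w ∈ X) (h1 : w ≠ 1) (h2 : w * w = 1) : invSub V h.comm w ≠ ⊥ := fun e => by
  refine h1 (h.eq_one hw fun v hv => ?_)
  have h3 : w⁻¹ = w := inv_eq_of_mul_eq_one_left h2
  have h4 : v⁻¹ * (w * v * w⁻¹) ∈ invSub V h.comm w :=
    ⟨mul_mem (inv_mem hv) ((memJ_norm (h.XV hw)).2 hv), by
      calc w * (v⁻¹ * (w * v * w⁻¹)) * w⁻¹ = w * v⁻¹ * w⁻¹ * (w * w) * v * (w * w)⁻¹ := by group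
        _ = _ := by rw [h2]; group⟩
  rw [e, mem_bot, inv_mul_eq_one] at h4
  exact (mul_inv_eq_iff_eq_mul.1 h4.symm).symm

theorem norm_inv (hg : g ∈ 𝐍(V)) (e : Commute g w) : g ∈ 𝐍(invSub V h.comm w) :=
  mem_normalizer_fintype fun v hv => ⟨(memJ_norm hg).2 hv.1, by
    calc w * (g * v * g⁻¹) * w⁻¹ = (w * g) * v * (w * g)⁻¹ := by group
      _ = g * (w * v * w⁻¹) * g⁻¹ := by rw [← e.eq]; group
      _ = _ := by rw [hv.2]; group⟩

theorem case3 {u : G} (hu : u ∈ X) (hw : w ∈ 𝐙(⁅X, zpowers a⁆)) (h1 : w ≠ 1) (hwx : Commute x w)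
    (huw : Commute u w) (hx : x * x = 1) (e : u * x * u⁻¹ = x * w) : False := by
  have hY : #|⁅V, zpowers x⁆| = 3 := by
    rw [h.card_Y, orderOf_eq_prime (p := 2) (by rw [_root_.sq, hx]) h.x1]
  have hne := h.inv_ne (comm_le h.aX hw.1) h1 (h.sp.two w hw)
  have hm := h.modr (U := invSub V h.comm w) (fun _ h => h.1) (h.norm_inv h.aV (h.sp.ca hw).symm)
  have hxV := h.XV h.xX
  have hxU := h.norm_inv hxV hwx
  have key : ∀ v ∈ invSub V h.comm w, u * (v * (x * v * x⁻¹)) * u⁻¹ ∈ ⁅V, zpowers x⁆ := by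
    intro v hv
    have h2 : x * v * x⁻¹ ∈ invSub V h.comm w := (memJ_norm hxU).2 hv
    have h3 := (memJ_norm (h.norm_inv (h.XV hu) huw)).2 (mul_mem hv h2)
    have h4 : x * (v * (x * v * x⁻¹)) * x⁻¹ = v * (x * v * x⁻¹) := by
      calc _ = x * v * x⁻¹ * ((x * x) * v * (x * x)⁻¹) := by group
        _ = _ := by rw [hx, one_mul, inv_one, mul_one, h.comm _ h2.1 _ hv.1]
    generalize v * (x * v * x⁻¹) = c at h3 h4
    refine h.memY (mem_zpowers x) h3.1 ?_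
    have h5 : x * (w * (u * c * u⁻¹) * w⁻¹) * x⁻¹ = u * c * u⁻¹ := by
      calc _ = (x * w) * (u * c * u⁻¹) * (x * w)⁻¹ := by group
        _ = u * (x * c * x⁻¹) * u⁻¹ := by rw [← e]; group
        _ = _ := by rw [h4]
    rw [h3.2] at h5
    conv_rhs => rw [← h5]
    group
  let f : invSub V h.comm w → (⁅V, zpowers x⁆ : Subgroup G) × (⁅V, zpowers x⁆ : Subgroup G) :=
    fun v => (⟨v * x * (v : G)⁻¹ * x⁻¹, mem_commg v.2.1 (mem_zpowers x)⟩, ⟨_, key v v.2⟩)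
  have hf : Function.Injective f := fun v v' e' => by
    have e1 : (v : G) * x * (v : G)⁻¹ * x⁻¹ = v' * x * (v' : G)⁻¹ * x⁻¹ :=
      congrArg (fun z => z.1.1) e'
    have e2 : u * ((v : G) * (x * v * x⁻¹)) * u⁻¹ = u * (v' * (x * v' * x⁻¹)) * u⁻¹ :=
      congrArg (fun z => z.2.1) e'
    have e3 := mul_left_cancel (mul_right_cancel e2)
    have hc : ∀ y ∈ V, y * x * y⁻¹ * x⁻¹ * (y * (x * y * x⁻¹)) = y * y := fun y hy => by
      rw [h.comm y hy _ ((memJ_norm hxV).2 hy)]; group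
    have e4 : (v : G) * v = v' * v' := by rw [← hc _ v.2.1, e1, e3, hc _ v'.2.1]
    have e5 := h.sq (mul_mem (inv_mem v'.2.1) v.2.1) (by
      calc (v' : G)⁻¹ * v * ((v' : G)⁻¹ * v) = (v' : G)⁻¹ * (v * (v' : G)⁻¹) * v := by group
        _ = (v' : G)⁻¹ * (v' : G)⁻¹ * (v * v) := by
          rw [h.comm _ v.2.1 _ (inv_mem v'.2.1)]; group
        _ = 1 := by rw [e4]; group)
    exact Subtype.ext (inv_mul_eq_one.1 e5).symm
  have h6 := Nat.card_le_card_of_injective f hf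
  rw [Nat.card_prod, hY] at h6
  have h7 : p = 3 := (Nat.prime_dvd_prime_iff_eq hp.out Nat.prime_three).1
    (hY ▸ pgroup_pdiv (pgroup_sub h.Y_le (abelem_pgroup h.ab)) h.Y_ne)
  obtain ⟨n, hn⟩ := card_pgroup (pgroup_sub (fun _ h => h.1 : invSub V h.comm w ≤ V)
    (abelem_pgroup h.ab))
  have h8 : n ≠ 0 := fun e => hne (card_eq_one.1 (by rw [hn, e, pow_zero]))
  rw [hn, h7] at h6 hm
  have h9 : n ≤ 2 := (Nat.pow_le_pow_iff_right (by norm_num : 1 < 3)).1 h6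
  have h10 : r ∣ 2 ^ 3 := by
    have := (Nat.modEq_iff_dvd' (Nat.pow_pos (by norm_num))).1 hm
    interval_cases n
    · exact absurd rfl h8
    · exact this.trans (by norm_num)
    · exact this
  exact h.r2 ((Nat.prime_dvd_prime_iff_eq h.rp Nat.prime_two).1 (h.rp.dvd_of_dvd_pow h10))

theorem case2 (hx : x * x ≠ 1) {n : G} (hn : n ∈ X) (hw : w ∈ 𝐙(⁅X, zpowers a⁆)) (h1 : w ≠ 1)
    (hwx : Commute x w) (e : w = n * x * n⁻¹ * x⁻¹) : False := by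
  have hne := h.inv_ne (comm_le h.aX hw.1) h1 (h.sp.two w hw)
  have hxU := h.norm_inv (h.XV h.xX) hwx
  have hle : invSub V h.comm w ≤ ⁅V, zpowers x⁆ := fun v hv => by
    obtain ⟨y, hy, c, hc, hcx, rfl⟩ := h.dec (U := invSub V h.comm w) (fun _ h => h.1) hxU hv
    have h2 : n⁻¹ * c * n ∈ V := (memJ_norm' (h.XV hn)).2 hc.1
    have h3 : x * (n⁻¹ * c * n) * x⁻¹ = (n⁻¹ * c * n)⁻¹ := by
      have h4 := hc.2
      rw [e] at h4
      calc _ = n⁻¹ * (n * x * n⁻¹ * x⁻¹ * (x * c * x⁻¹) * (n * x * n⁻¹ * x⁻¹)⁻¹) * n := by group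
        _ = _ := by rw [← hcx.eq, mul_inv_cancel_right, h4]; group
    have h5 := h.fixC (mul_mem (mem_zpowers x) (mem_zpowers x)) hx h2 (by
      generalize n⁻¹ * c * n = d at h3
      show d * (x * x) = x * x * d
      have h4 : x * d⁻¹ * x⁻¹ = d := by rw [← conj_inv, h3, inv_inv]
      calc d * (x * x) = x * d⁻¹ * x⁻¹ * (x * x) := by rw [h4]
        _ = x * (x * d * x⁻¹) * x := by rw [h3]; group
        _ = _ := by group)
    rw [← h5.eq, mul_inv_cancel_right] at h3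
    have h6 := h.sq h2 (mul_eq_one_iff_eq_inv.2 h3)
    have h7 : c = 1 := by
      calc c = n * (n⁻¹ * c * n) * n⁻¹ := by group
        _ = 1 := by rw [h6]; group
    rwa [h7, mul_one]
  obtain ⟨u, hu1⟩ := ne_bot_iff_exists_ne_one.1 hne
  refine h.notY ((le_antisymm hle fun y hy => ?_) ▸ h.norm_inv h.aV (h.sp.ca hw).symm)
  by_cases hy1 : y = 1
  · rw [hy1]; exact one_mem _
  obtain ⟨m, rfl⟩ := h.tr u (hle u.2) y hy (fun e => hu1 (Subtype.ext e)) hy1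
  exact (memJ_norm (pow_mem hxU m)).2 u.2

theorem false : False := by
  have hs := h.sp
  have hle := comm_le h.aX
  have hxZ : x ∈ 𝐍(𝐙(⁅X, zpowers a⁆)) := norms_center (commg_norml _ _) h.xX
  have hZ : ∀ u ∈ 𝐙(⁅X, zpowers a⁆), ∀ v ∈ 𝐙(⁅X, zpowers a⁆), u * v = v * u :=
    fun u hu v hv => hv.2 u hu.1
  by_cases hx : x ∈ 𝐂(𝐙(⁅X, zpowers a⁆))
  · obtain ⟨t, ht, k, hka, hk, e⟩ := h.split hx
    have htk : Commute t k := hk t ht
    by_cases h2 : x * x = 1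
    swap
    · refine h.notC (mul_mem (mem_zpowers x) (mem_zpowers x)) h2 ?_
      rw [← e, htk.symm.mul_mul_mul_comm]
      exact (hs.ca (hs.sq t ht)).mul_left (hka.mul_left hka)
    have h3 : ¬ ∀ u ∈ ⁅X, zpowers a⁆, ⁅u, t⁆ = 1 := fun h3 => h.notC (mem_zpowers x) h.x1 (by
      rw [← e]
      exact (hs.ca ⟨ht, fun u hu => commutatorElement_eq_one_iff_mul_comm.1 (h3 u hu)⟩).mul_left hka)
    push Not at h3
    obtain ⟨u, hu, h4⟩ := h3
    have hw := hs.cz hu ht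
    refine h.case3 (hle hu) hw h4 (hx _ hw).symm (hw.2 u hu) h2 ?_
    rw [← hx _ hw, ← e, commutatorElement_def, mul_assoc u, mul_assoc t,
      ← (hk _ (inv_mem hu) : u⁻¹ * k = k * u⁻¹)]
    group
  let W : Subgroup G :=
    { carrier := {w | ∃ n ∈ 𝐙(⁅X, zpowers a⁆), w = n * x * n⁻¹ * x⁻¹}
      one_mem' := ⟨1, one_mem _, by group⟩
      inv_mem' := by
        rintro _ ⟨n, hn, rfl⟩
        refine ⟨n⁻¹, inv_mem hn, ?_⟩
        calc _ = x * n * x⁻¹ * n⁻¹ := by group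
          _ = _ := by rw [hZ _ ((memJ_norm hxZ).2 hn) _ (inv_mem hn)]; group
      mul_mem' := by
        rintro _ _ ⟨n, hn, rfl⟩ ⟨m, hm, rfl⟩
        refine ⟨n * m, mul_mem hn hm, ?_⟩
        have h1 := (memJ_norm hxZ).2 (inv_mem hn)
        calc _ = n * (x * n⁻¹ * x⁻¹ * (m * (x * m⁻¹ * x⁻¹))) := by group
          _ = _ := by rw [hZ _ h1 _ (mul_mem hm ((memJ_norm hxZ).2 (inv_mem hm)))]; group }
  have hWZ : W ≤ 𝐙(⁅X, zpowers a⁆) := by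
    rintro _ ⟨n, hn, rfl⟩
    have := mul_mem hn ((memJ_norm hxZ).2 (inv_mem hn))
    simpa only [mul_assoc] using this
  have hxW : x ∈ 𝐍(W) := mem_normalizer_fintype (by
    rintro _ ⟨n, hn, rfl⟩
    exact ⟨x * n * x⁻¹, (memJ_norm hxZ).2 hn, by group⟩)
  have hW : W ≠ ⊥ := fun e => hx fun n hn => by
    have h1 : n * x * n⁻¹ * x⁻¹ ∈ W := ⟨n, hn, rfl⟩
    rw [e, mem_bot, mul_inv_eq_one, mul_inv_eq_iff_eq_mul] at h1
    exact h1
  obtain ⟨⟨w, hw, hw'⟩, hw1⟩ := ne_bot_iff_exists_ne_one.1 (meet_Ohm1_center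
    (isPGroup_sup (pgroup_sub (hWZ.trans inf_le_left) hs.p2) (p_elt_iff_isPGroup.1 h.x2)
      (norms_cycle.2 hxW)) ⟨le_sup_left, sup_le le_normalizer (norms_cycle.2 hxW)⟩ hW)
  have hw1' : w ≠ 1 := fun e => hw1 (Subtype.ext e)
  have hwx : Commute x w :=
    ((Ohm1_le_iff.2 fun _ h _ => h) hw').2 x (mem_sup_right (mem_zpowers x))
  obtain ⟨n, hn, e⟩ := id hw
  by_cases h2 : x * x = 1
  · refine h.case3 (hle hn.1) (hWZ hw) hw1' hwx (hZ n hn w (hWZ hw)) h2 ?_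
    rw [hwx.eq, e]; group
  · exact h.case2 h2 (hle hn.1) (hWZ hw) hw1' hwx e

end AC

theorem astmt : AStmt.{u} := fun _ _ _ _ _ _ _ _ _ _ h1 h2 h3 h4 h5 h6 h7 h8 h9 h10 h11 h12 h13
    h14 => AC.false ⟨h1, h2, h3, h4, h5, h6, h7, h8, h9, h10, h11, h12, h13, h14⟩

end Cfsg.Agent.FP
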