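import Cfsg.Agent.Lib.FP.Defs

/-! Basic consequences of `Base` and `Sp`. -/

open Subgroup
open scoped commutatorElement

set_option linter.unusedSectionVars false

namespace Cfsg.Agent.FP

open FT Tr

universe u

variable {G : Type u} [Group G] [Finite G] {p r : ℕ} {V X H B R W Y : Subgroup G} {a g k t : G}

theorem zsol (a : G) (K : Subgroup G) : Group.IsSolvable (zpowers a) ∨ Group.IsSolvable K :=
  Or.inl (abelian_sol (cycle_abelian a))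

theorem comm_le (h : a ∈ 𝐍(H)) : ⁅H, zpowers a⁆ ≤ H := commg_subl.2 (norms_cycle.2 h)

theorem norm_comm (H : Subgroup G) (a : G) : a ∈ 𝐍(⁅H, zpowers a⁆) :=
  commg_normr H (zpowers a) (mem_zpowers a)

theorem comm_bot : ⁅H, zpowers a⁆ = ⊥ ↔ H ≤ 𝐂[a] := by rw [commG1P, cent_cycle]

theorem mem_cent1' {x y : G} : y ∈ 𝐂[x] ↔ Commute y x := mem_cent1

namespace Base

variable (h : Base p r V X a)
include h

theorem card_a : #|zpowers a| = r := by rw [card_cycle, h.ord]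

theorem prime_a : (#|zpowers a|).Prime := h.card_a ▸ h.rp

theorem cop (hH : H ≤ X) : (#|H|).Coprime #|zpowers a| := by
  rw [h.card_a]
  exact ((Nat.Prime.coprime_iff_not_dvd h.rp).2 fun e => h.rX (e.trans (cardSg hH))).symm

theorem sub (hH : H ≤ X) (ha : a ∈ 𝐍(H)) : Base p r V H a :=
  { h with
    XV := hH.trans h.XV
    aX := ha
    rX := fun e => h.rX (e.trans (cardSg hH))
    faith := le_bot_iff.1 (h.faith ▸ inf_le_inf_right _ hH) }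

theorem conj (hV : g ∈ 𝐍(V)) (hX : g ∈ 𝐍(X)) : Base p r V X (g * a * g⁻¹) :=
  { h with
    aV := mul_mem (mul_mem hV h.aV) (inv_mem hV)
    aX := mul_mem (mul_mem hX h.aX) (inv_mem hX)
    ord := by rw [orderOf_conj, h.ord]
    fpf := by rw [cent1J, ← cj_eq_of_mem_normalizer hV, ← cj_inf, h.fpf, cj_bot] }

theorem commid (hH : H ≤ X) (ha : a ∈ 𝐍(H)) : ⁅⁅H, zpowers a⁆, zpowers a⁆ = ⁅H, zpowers a⁆ :=
  coprime_commGid (norms_cycle.2 ha) (h.cop hH) (zsol _ _)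

theorem prod (hH : H ≤ X) (ha : a ∈ 𝐍(H)) : MulEq ⁅H, zpowers a⁆ (H ⊓ 𝐂[a]) H := by
  have := coprime_cent_prod (norms_cycle.2 ha) (h.cop hH) (zsol _ _)
  rwa [cent_cycle] at this

theorem a_ne : a ≠ 1 := fun e => h.rp.ne_one (by rw [← h.ord, e, orderOf_one])

theorem not_mem (hH : H ≤ X) {i : ℕ} (hi : a ^ i ∈ H) : a ^ i = 1 :=
  mem_bot.1 (coprime_TIg (h.cop hH) ▸ (⟨hi, pow_mem (mem_zpowers a) i⟩ : _ ∈ H ⊓ zpowers a))

variable [hp : Fact p.Prime]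

theorem r_ne (hX : X ≠ ⊥) : r ≠ p := by
  rintro rfl
  refine h.rV (pgroup_pdiv (abelem_pgroup h.ab) fun e => hX ?_)
  rw [← h.faith, e, cent1T, inf_top_eq]

theorem piG (hX : X ≠ ⊥) (ha : a ∈ 𝐍(H)) (hp' : PiG {p}ᶜ H) : PiG {p}ᶜ (H ⊔ zpowers a) :=
  hp'.sup ((prime_piG h.prime_a).2 (h.card_a ▸ h.r_ne hX)) (norms_cycle.2 ha)

theorem star (hB : B ≤ X) (ha : a ∈ 𝐍(B)) (hab : IsMulCommutative B) (hp' : PiG {p}ᶜ B) :
    B ≤ 𝐂[a] := by
  rw [← comm_bot]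
  by_contra hK
  have hn := norms_cycle.2 (norm_comm B a)
  have hKX := (comm_le ha).trans hB
  have hF := (prime_FrobeniusP hK h.prime_a).2 ⟨sdprod_coprime hn (h.cop hKX),
    coprime_abel_cent_TI (norms_cycle.2 ha) (h.cop hB) hab⟩
  refine BG2c.proof.Frobenius_rfix_compl hF h.ab
    (sup_le (hKX.trans h.XV) (norms_cycle.2 h.aV)) (hp'.of_le (comm_le ha))
    (fun e => hK (le_bot_iff.1 (h.faith ▸ le_inf hKX e))) ?_
  rw [cent_cycle, h.fpf]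

theorem oddq {q : ℕ} [hq : Fact q.Prime] (q2 : q ≠ 2) (qp : q ≠ p) (hB : B ≤ X) (ha : a ∈ 𝐍(B))
    (hP : IsPGroup q B) : B ≤ 𝐂[a] := by
  rcases eq_or_ne X ⊥ with rfl | hX
  · exact hB.trans bot_le
  have hn := norms_cycle.2 ha
  have hs := sdprod_coprime hn (h.cop hB)
  have := BG2b.proof.odd_prime_sdprod_abelem_cent1 (hs.solvable (pgroup_sol hP)
    (abelian_sol (cycle_abelian a))) (by
      rw [← hs.card, h.card_a]
      exact (odd_pgroup_odd (hq.out.odd_of_ne_two q2) hP).mul (h.rp.odd_of_ne_two h.r2)) hs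
    (h.cop hB) h.prime_a h.ab (sup_le (hB.trans h.XV) (norms_cycle.2 h.aV))
    (h.piG hX ha (pgroup_p'group hP qp)) (by rw [cent_cycle, h.fpf])
  rw [← comm_bot, commGC]
  exact le_bot_iff.1 (h.faith ▸ this.trans (inf_le_inf_right _ hB))

theorem sp (hR : R ≤ X) (h2 : IsPGroup 2 R) (ha : a ∈ 𝐍(R)) (hc : ⁅R, zpowers a⁆ = R) :
    Sp R a := by
  have hst : ∀ B ≤ R, a ∈ 𝐍(B) → IsMulCommutative B → B ≤ 𝐂[a] := fun B hB hn hab =>
    h.star (hB.trans hR) hn hab (pgroup_p'group (pgroup_sub hB h2) h.p2.symm)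
  have three : ∀ B, B ≤ 𝐂[a] → ⁅R, B⁆ ≤ 𝐂[a] → B ≤ 𝐂(R) := fun B h1 h3 => by
    have := three_subgroup (A := R) (B := B) (C := zpowers a) (comm_bot.2 h3)
      (by rw [comm_bot.2 h1, commutator_bot_left])
    rw [commGC (zpowers a), hc] at this
    exact centsC.1 (commG1P.1 this)
  have nrmab : ∀ B, B ⊴ R → a ∈ 𝐍(B) → IsMulCommutative B → B ≤ 𝐙(R) := fun B hB hn hab =>
    le_inf hB.le (three B (hst B hB.le hn hab)
      ((hB.commutator_le_right le_rfl).trans (hst B hB.le hn hab)))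
  have cl2 : ⁅R, R⁆ ≤ 𝐙(R) := by
    by_contra hn
    obtain ⟨x, hx, hxZ, hx'⟩ := exists_central_mod' (pgroup_nil h2) (der_normal R)
      (center_normal R).nz hn
    refine hxZ (nrmab (⁅R, R⁆ ⊓ Z2 R) ((der_normal R).inf (ucn2_normal R))
      (normsI (norms_der (norms_cycle.2 ha)) ((norms_cycle.2 ha).trans (ucn2_char R))
        (mem_zpowers a)) (abelianE.2 (centSS inf_le_left inf_le_right (Z2_cent_der R)))
      ⟨hx, mem_Z2.2 ⟨der_sub R hx, fun y hy => ?_⟩⟩)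
    have := inv_mem (hx' y hy)
    convert this using 1; group
  have hZa : 𝐙(R) ≤ 𝐂[a] := hst _ inf_le_left (norms_center (norms_cycle.2 ha) (mem_zpowers a))
    (center_abelian R)
  have cen : R ⊓ 𝐂[a] ≤ 𝐙(R) := le_inf inf_le_left (three _ inf_le_right
    (((commgS R inf_le_left).trans cl2).trans hZa))
  have hZd : 𝐙(R) ≤ ⁅R, R⁆ := by
    have hn := norms_cycle.2 ha
    have := der_abelian R
    have h3 := Solv.centralizer_inf_commutator_eq_bot (quotient_norms ⁅R, R⁆ hn)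
      (coprime_quotient ⁅R, R⁆ (h.cop hR).symm)
    rw [← quotientR (der_norm R) (norms_der hn), hc, inf_eq_left.2 inf_le_left] at h3
    refine (le_inf inf_le_left (cent_cycle a ▸ hZa)).trans
      ((quotient_sub1 (inf_le_left.trans (der_norm R))).1 ((quotient_subcent _ _ _).trans h3.le))
  have cz : ∀ x ∈ R, ∀ y ∈ R, ⁅x, y⁆ ∈ 𝐙(R) := fun x hx y hy => cl2 (commutator_mem_commutator hx hy)
  have step : ∀ e : ℕ, (∀ x ∈ R, ∀ y ∈ R, ⁅x, y⁆ ^ 2 ^ (e + 1) = 1) →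
      e = 0 ∨ ∀ x ∈ R, ∀ y ∈ R, ⁅x, y⁆ ^ 2 ^ e = 1 := fun e he => by
    refine (Nat.eq_zero_or_pos e).imp_right fun e0 x hx y hy => ?_
    have := nrmab (Mho 2 e R) (Mho_normal 2 e R) (norms_Mho 2 e (norms_cycle.2 ha) (mem_zpowers a))
      (abelian_gen (by
        rintro _ ⟨u, hu, rfl⟩ _ ⟨v, hv, rfl⟩
        rw [← commutatorElement_eq_one_iff_mul_comm, commXg ((cz u hu _ (pow_mem hv _)).2 u hu),
          commgX ((cz u hu v hv).2 v hv), ← pow_mul, ← pow_add,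
          show e + e = (e + 1) + (e - 1) by omega, pow_add, pow_mul, he u hu v hv, one_pow]))
      (mem_Mho e hx)
    rw [← commXg ((cz x hx y hy).2 x hx), commutatorElement_eq_one_iff_mul_comm]
    exact (this.2 y hy).symm
  have ex2 : ∀ x ∈ R, ∀ y ∈ R, ⁅x, y⁆ ^ 2 = 1 := by
    obtain ⟨n, hn⟩ := card_pgroup h2
    have h0 : ∀ x ∈ R, ∀ y ∈ R, ⁅x, y⁆ ^ 2 ^ (n + 1) = 1 := fun x hx y hy => by
      rw [pow_succ, pow_mul, ← hn, expg_cardG (cz x hx y hy).1, one_pow]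
    clear hn
    induction n with
    | zero => simpa using h0
    | succ n ih => exact ih ((step _ h0).resolve_left (by omega))
  refine ⟨h2, ha, h.cop hR, hc, fun x hx => ⟨fun e => cen ⟨hx, mem_cent1'.2 e⟩,
    fun e => mem_cent1'.1 (hZa e)⟩, le_antisymm cl2 hZd, fun x hx => ⟨mul_mem hx hx, fun y hy => ?_⟩,
    fun z hz => ?_, hst⟩
  · rw [eq_comm, ← commutatorElement_eq_one_iff_mul_comm, ← sq, commXg ((cz x hx y hy).2 x hx),
      ex2 x hx y hy]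
  · rw [← sq]
    refine abelem_pow (abelemS (hZd.trans (commg_le.2 fun u hu v hv => ?_))
      (Ohm1_center_abelem 2 R)) hz
    exact mem_Ohm1 (cz u hu v hv) (ex2 u hu v hv)

end Base

namespace Sp

variable (h : Sp R a)
include h

theorem cz {x y : G} (hx : x ∈ R) (hy : y ∈ R) : ⁅x, y⁆ ∈ 𝐙(R) :=
  h.der ▸ commutator_mem_commutator hx hy

theorem ca {z : G} (hz : z ∈ 𝐙(R)) : Commute z a := (h.cen z hz.1).2 hz

theorem conj (g : G) : Sp (cj g R) (g * a * g⁻¹) := by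
  refine ⟨isPGroup_cj g h.p2, by rw [normJ]; exact conj_mem_cj.2 h.aR,
    by rw [← cj_zpowers, card_cj, card_cj]; exact h.cop,
    by rw [← cj_zpowers, ← cj_commutator, h.comm], fun x hx => ?_,
    by rw [← cj_commutator, h.der, centerJ], fun x hx => ?_, fun x hx => ?_, fun B hB hn hab => ?_⟩
  · obtain ⟨y, hy, rfl⟩ := mem_cj'.1 hx
    rw [centerJ, conj_mem_cj, ← h.cen y hy, ← mem_cent1', ← mem_cent1', cent1J, conj_mem_cj]
  · obtain ⟨y, hy, rfl⟩ := mem_cj'.1 hx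
    rw [centerJ, conj_mul, conj_mem_cj]
    exact h.sq y hy
  · rw [centerJ] at hx
    obtain ⟨y, hy, rfl⟩ := mem_cj'.1 hx
    rw [conj_mul, h.two y hy]; group
  · rw [cent1J, le_cj_iff_cj_inv_le]
    refine h.star _ (le_cj_iff_cj_inv_le.1 hB) ?_ ((abelianJ _).2 hab)
    rw [normJ, mem_cj_inv]; exact hn

theorem copS (hH : H ≤ R) : (#|H|).Coprime #|zpowers a| := h.cop.coprime_dvd_left (cardSg hH)

theorem commid (hH : H ≤ R) (ha : a ∈ 𝐍(H)) : ⁅⁅H, zpowers a⁆, zpowers a⁆ = ⁅H, zpowers a⁆ :=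
  coprime_commGid (norms_cycle.2 ha) (h.copS hH) (zsol _ _)

/-- `H ≤ [H, a] Z(R)` -/
theorem dec (hH : H ≤ R) (ha : a ∈ 𝐍(H)) {x : G} (hx : x ∈ H) :
    ∃ y ∈ ⁅H, zpowers a⁆, ∃ z ∈ 𝐙(R), x = y * z := by
  obtain ⟨y, hy, z, hz, e⟩ := (coprime_cent_prod (norms_cycle.2 ha) (h.copS hH) (zsol _ _)).exists hx
  rw [cent_cycle] at hz
  exact ⟨y, hy, z, (h.cen z (hH hz.1)).1 (mem_cent1'.1 hz.2), e.symm⟩

/-- the elements of `R` fixed by `k` modulo the center -/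
def fixm (R : Subgroup G) (k : G) (_hk : k ∈ 𝐍(R)) : Subgroup G where
  carrier := {e | e ∈ R ∧ e⁻¹ * (k * e * k⁻¹) ∈ 𝐙(R)}
  one_mem' := ⟨one_mem _, by simp [one_mem]⟩
  mul_mem' := fun {x y} hx hy => ⟨mul_mem hx.1 hy.1, by
    have := mul_mem ((center_normal R).conj_mem' hy.1 hx.2) hy.2
    convert this using 1; group⟩
  inv_mem' := fun {x} hx => ⟨inv_mem hx.1, by
    have := (center_normal R).conj_mem hx.1 (inv_mem hx.2)
    convert this using 1; group⟩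

omit h in
theorem mem_fixm {hk : k ∈ 𝐍(R)} {e : G} :
    e ∈ fixm R k hk ↔ e ∈ R ∧ e⁻¹ * (k * e * k⁻¹) ∈ 𝐙(R) := Iff.rfl

omit h in
theorem fixm_le {hk : k ∈ 𝐍(R)} : fixm R k hk ≤ R := fun _ h => h.1

theorem norm_fixm {hk : k ∈ 𝐍(R)} (hka : Commute k a) : a ∈ 𝐍(fixm R k hk) :=
  mem_normalizer_of_forall fun e he => ⟨(memJ_norm h.aR).2 he.1, by
    have := (memJ_norm (center_norm R h.aR)).2 he.2
    convert this using 1
    calc _ = a * e⁻¹ * (a⁻¹ * k * a) * e * (a⁻¹ * k⁻¹ * a) * a⁻¹ := by group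
      _ = _ := by rw [hka.symm.inv_mul_cancel, hka.inv_left.symm.inv_mul_cancel]; group⟩

theorem comm_fixm {hk : k ∈ 𝐍(R)} (hka : Commute k a) : ⁅fixm R k hk, zpowers a⁆ ≤ 𝐂[k] := by
  refine commg_le.2 fun e he b hb => cent1_conj'.2 ?_
  have hkb : Commute k b := by obtain ⟨n, rfl⟩ := hb; exact hka.zpow_right n
  have hz : Commute (e⁻¹ * (k * e * k⁻¹)) b := by
    obtain ⟨n, rfl⟩ := hb; exact (h.ca he.2).zpow_right n
  set z := e⁻¹ * (k * e * k⁻¹) with hz'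
  have e1 : k * e * k⁻¹ = e * z := by rw [hz']; group
  calc _ = (k * e * k⁻¹) * (k * b * k⁻¹) * (k * e * k⁻¹)⁻¹ * (k * b * k⁻¹)⁻¹ := by group
    _ = e * (z * b * z⁻¹) * e⁻¹ * b⁻¹ := by rw [e1, hkb.mul_inv_cancel]; group
    _ = _ := by rw [hz.mul_inv_cancel]

/-- (L0) -/
theorem cent_of_fixm (hk : k ∈ 𝐍(R)) (hka : Commute k a)
    (hf : ∀ t ∈ R, t⁻¹ * (k * t * k⁻¹) ∈ 𝐙(R)) : k ∈ 𝐂(R) := by
  have : fixm R k hk = R := le_antisymm fixm_le fun t ht => ⟨ht, hf t ht⟩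
  have h2 := h.comm_fixm (hk := hk) hka
  rw [this, h.comm] at h2
  exact sub_cent1.1 h2

/-- (Y0) -/
theorem exists_commute (hk : k ∈ 𝐍(R)) (hka : Commute k a) {e : G} (he : e ∈ R)
    (hf : e⁻¹ * (k * e * k⁻¹) ∈ 𝐙(R)) : ∃ z ∈ 𝐙(R), Commute (e * z) k := by
  obtain ⟨y, hy, z, hz, rfl⟩ := h.dec fixm_le (h.norm_fixm (hk := hk) hka) ⟨he, hf⟩
  exact ⟨z⁻¹, inv_mem hz, by simpa using mem_cent1'.1 (h.comm_fixm hka hy)⟩

theorem cinv {x y : G} (hx : x ∈ R) (hy : y ∈ R) : ⁅x, y⁆⁻¹ = ⁅x, y⁆ :=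
  inv_eq_of_mul_eq_one_right (h.two _ (h.cz hx hy))

theorem csymm {x y : G} (hx : x ∈ R) (hy : y ∈ R) : ⁅x, y⁆ = ⁅y, x⁆ := by
  rw [← h.cinv hx hy, commutatorElement_inv]

theorem cmul {x y u : G} (hx : x ∈ R) (hy : y ∈ R) (hu : u ∈ R) :
    ⁅x * y, u⁆ = ⁅x, u⁆ * ⁅y, u⁆ := by
  calc _ = x * ⁅y, u⁆ * x⁻¹ * ⁅x, u⁆ := by simp only [commutatorElement_def]; group
    _ = _ := by rw [(h.cz hy hu).2 x hx, mul_inv_cancel_right, (h.cz hx hu).2 _ (h.cz hy hu).1]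

theorem cmul' {x y u : G} (hx : x ∈ R) (hy : y ∈ R) (hu : u ∈ R) :
    ⁅u, x * y⁆ = ⁅u, x⁆ * ⁅u, y⁆ := by
  rw [h.csymm hu (mul_mem hx hy), h.cmul hx hy hu, h.csymm hx hu, h.csymm hy hu]

omit h in
theorem cZ {z u : G} (hz : z ∈ 𝐙(R)) (hu : u ∈ R) : ⁅z, u⁆ = 1 :=
  commutatorElement_eq_one_iff_mul_comm.2 (hz.2 u hu).symm

theorem cmulZ {x z u : G} (hx : x ∈ R) (hz : z ∈ 𝐙(R)) (hu : u ∈ R) : ⁅x * z, u⁆ = ⁅x, u⁆ := by
  rw [h.cmul hx hz.1 hu, cZ hz hu, mul_one]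

theorem cinvl {x u : G} (hx : x ∈ R) (hu : u ∈ R) : ⁅x⁻¹, u⁆ = ⁅x, u⁆ := by
  rw [← h.cinv hx hu, eq_inv_iff_mul_eq_one, ← h.cmul (inv_mem hx) hx hu, inv_mul_cancel,
    commutatorElement_one_left]

theorem sq_mul {x y : G} (hx : x ∈ R) (hy : y ∈ R) :
    x * y * (x * y) = x * x * (y * y) * ⁅x, y⁆ := by
  rw [h.csymm hx hy]
  calc _ = x * ⁅y, x⁆ * (x * y * y) := by simp only [commutatorElement_def]; group
    _ = _ := by
      rw [mul_assoc, ← (h.cz hy hx).2 _ (mul_mem (mul_mem hx hy) hy)]; group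

/-- the preimage of `[R / Z(R), k]` -/
def mv (h : Sp R a) (k : G) (hk : k ∈ 𝐍(R)) : Subgroup G where
  carrier := {x | ∃ t ∈ R, x⁻¹ * (t⁻¹ * (k * t * k⁻¹)) ∈ 𝐙(R)}
  one_mem' := ⟨1, one_mem _, by simp [one_mem]⟩
  mul_mem' := by
    rintro x y ⟨t, ht, e⟩ ⟨u, hu, e'⟩
    have m : ∀ {t}, t ∈ R → t⁻¹ * (k * t * k⁻¹) ∈ R := fun ht =>
      mul_mem (inv_mem ht) ((memJ_norm hk).2 ht)
    have hy : y ∈ R := R.inv_mem_iff.1 ((R.mul_mem_cancel_right (m hu)).1 e'.1)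
    refine ⟨t * u, mul_mem ht hu, ?_⟩
    have := mul_mem (mul_mem ((center_normal R).conj_mem' hy e) e')
      ((center_normal R).conj_mem' ((memJ_norm hk).2 hu) (h.cz hu (inv_mem (m ht))))
    convert this using 1
    simp only [commutatorElement_def]; group
  inv_mem' := by
    rintro x ⟨t, ht, e⟩
    have m : t⁻¹ * (k * t * k⁻¹) ∈ R := mul_mem (inv_mem ht) ((memJ_norm hk).2 ht)
    have hx : x ∈ R := R.inv_mem_iff.1 ((R.mul_mem_cancel_right m).1 e.1)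
    refine ⟨t⁻¹, inv_mem ht, ?_⟩
    have := mul_mem ((center_normal R).conj_mem hx (inv_mem e))
      (h.cz (inv_mem ht) ((memJ_norm hk).2 ht))
    convert this using 1
    simp only [commutatorElement_def]; group

theorem mem_mv {hk : k ∈ 𝐍(R)} {x : G} :
    x ∈ h.mv k hk ↔ ∃ t ∈ R, x⁻¹ * (t⁻¹ * (k * t * k⁻¹)) ∈ 𝐙(R) := Iff.rfl

theorem mv_le {hk : k ∈ 𝐍(R)} : h.mv k hk ≤ R := by
  rintro x ⟨t, ht, e⟩
  exact R.inv_mem_iff.1 ((R.mul_mem_cancel_right (R.mul_mem (R.inv_mem ht) ((memJ_norm hk).2 ht))).1 e.1)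

theorem mem_mv_self {hk : k ∈ 𝐍(R)} (ht : t ∈ R) : t⁻¹ * (k * t * k⁻¹) ∈ h.mv k hk :=
  ⟨t, ht, by rw [inv_mul_cancel]; exact one_mem _⟩

theorem center_le_mv {hk : k ∈ 𝐍(R)} : 𝐙(R) ≤ h.mv k hk := fun z hz =>
  ⟨1, one_mem _, by simpa using inv_mem hz⟩

theorem norm_mv {hk : k ∈ 𝐍(R)} (hka : Commute k a) : a ∈ 𝐍(h.mv k hk) :=
  mem_normalizer_of_forall (by
    rintro e ⟨t, ht, he⟩
    refine ⟨_, (memJ_norm h.aR).2 ht, ?_⟩
    have := (memJ_norm (center_norm R h.aR)).2 he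
    convert this using 1
    calc _ = a * e⁻¹ * t⁻¹ * (a⁻¹ * k * a) * t * (a⁻¹ * k⁻¹ * a) * a⁻¹ := by group
      _ = _ := by rw [hka.symm.inv_mul_cancel, hka.inv_left.symm.inv_mul_cancel]; group)

theorem mv_le_fixm {hk : k ∈ 𝐍(R)} (h2 : k * k ∈ 𝐂(R)) : h.mv k hk ≤ fixm R k hk := by
  rintro x ⟨t, ht, e⟩
  have hx := h.mv_le (hk := hk) ⟨t, ht, e⟩
  have ht' := (memJ_norm hk).2 ht
  set u := k * t * k⁻¹ with hu
  have e2 : k * u * k⁻¹ = t := by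
    rw [hu]
    calc _ = k * k * t * (k * k)⁻¹ := by group
      _ = _ := by rw [← h2 t ht, mul_inv_cancel_right]
  refine ⟨hx, ?_⟩
  have := mul_mem (mul_mem e (inv_mem (h.sq _ (mul_mem (inv_mem ht) ht'))))
    (inv_mem ((memJ_norm (center_norm R hk)).2 e))
  have e3 : k * (t⁻¹ * u)⁻¹ * k⁻¹ = t⁻¹ * u := by
    calc _ = (k * u * k⁻¹)⁻¹ * (k * t * k⁻¹) := by group
      _ = _ := by rw [e2]
  convert this using 1
  calc _ = x⁻¹ * (t⁻¹ * u)⁻¹ * (k * (t⁻¹ * u)⁻¹ * k⁻¹) * (k * x * k⁻¹) := by rw [e3]; group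
    _ = _ := by group

theorem comm_mv_fixm {hk : k ∈ 𝐍(R)} (hka : Commute k a)
    (hW : ∀ z ∈ 𝐙(R), z⁻¹ * (k * z * k⁻¹) ∈ W) {x e : G} (hx : x ∈ h.mv k hk)
    (he : e ∈ fixm R k hk) : ⁅x, e⁆ ∈ W := by
  have hxR := h.mv_le hx
  obtain ⟨t, ht, e1⟩ := hx
  obtain ⟨z, hz, e2⟩ := h.exists_commute hk hka he.1 he.2
  have ht' := (memJ_norm hk).2 ht
  have hez := mul_mem he.1 hz.1
  rw [← h.cmulZ hxR e1 he.1, mul_inv_cancel_left, h.csymm (mul_mem (inv_mem ht) ht') he.1,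
    ← h.cmulZ he.1 hz (mul_mem (inv_mem ht) ht'), h.csymm hez (mul_mem (inv_mem ht) ht'),
    h.cmul (inv_mem ht) ht' hez, h.cinvl ht hez]
  convert hW _ (h.cz ht hez) using 2
  · rw [h.cinv ht hez]
  · rw [conjugate_commutatorElement, e2.symm.mul_inv_cancel]

/-- (L) -/
theorem cent_of_cent_center (hk : k ∈ 𝐍(R)) (hka : Commute k a) (h2 : PiElt {2} k)
    (hZ : k ∈ 𝐂(𝐙(R))) : k ∈ 𝐂(R) := by
  obtain ⟨n, hn⟩ := p_elt_exp.1 h2
  clear h2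
  induction n generalizing k with
  | zero => rw [pow_zero, pow_one] at hn; rw [hn]; exact one_mem _
  | succ n ih =>
    have h3 := ih (mul_mem hk hk) (hka.mul_left hka) (mul_mem hZ hZ)
      (by rw [← pow_two, ← pow_mul, ← pow_succ', hn])
    have h4 := h.star _ (h.mv_le (hk := hk)) (h.norm_mv hka) (abelianP.2 fun x hx y hy =>
      commutatorElement_eq_one_iff_mul_comm.1 (mem_bot.1 (h.comm_mv_fixm (W := ⊥) hka
        (fun z hz => by rw [← hZ z hz]; simp) hx (h.mv_le_fixm h3 hy))))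
    exact h.cent_of_fixm hk hka fun t ht => (h.cen _ (h.mv_le (h.mem_mv_self (hk := hk) ht))).1
      (mem_cent1'.1 (h4 (h.mem_mv_self ht)))

end Sp

end Cfsg.Agent.FP
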