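import Cfsg.Agent.Lib.FP.CaseB
import Cfsg.Agent.Lib.Transfer.Focal

/-! The configuration `QS`, case A: `Z(R) ≤ W`. -/

open Subgroup
open scoped commutatorElement

set_option linter.unusedSectionVars false
set_option linter.style.haveILetI false

namespace Cfsg.Agent.FP

open FT Tr FT.BG2P

universe u

variable {G : Type u} [Group G] [Finite G] {p r : ℕ} [Fact p.Prime] {V X H R R' W Y : Subgroup G}
  {a a' g k t x y : G}

theorem mem_of_cop {K : Subgroup G} {u v : ℕ} (ha : x ^ u ∈ K) (hb : x ^ v ∈ K) (h : u.Coprime v) :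
    x ∈ K := by
  have := mul_mem (zpow_mem ha (u.gcdA v)) (zpow_mem hb (u.gcdB v))
  rwa [← zpow_natCast, ← zpow_natCast, ← zpow_mul, ← zpow_mul, ← zpow_add,
    ← Nat.gcd_eq_gcd_ab, h, Nat.cast_one, zpow_one] at this

theorem rep_mod {n m : ℕ} (hR : Extraspecial 2 R) (hc : #|R| = 2 ^ (2 * n + 1)) (hx : x ∈ 𝐍(R))
    (ho : Odd (orderOf x)) (hm : x ^ m ∈ 𝐂(R)) (hZ : 𝐙(R) ≤ 𝐂[x])
    (hi : ∀ i, ¬ m ∣ i → R ⊓ 𝐂[x ^ i] ≤ 𝐙(R)) : m ∣ 2 ^ n + 1 ∨ m ∣ 2 ^ n - 1 := by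
  have h1 : zpowers (x ^ m) ≤ 𝐂(R) := zpowers_le.2 hm
  have h2 : R ≤ 𝐍(zpowers (x ^ m)) := cents_norm (centsC.1 h1)
  have h3 : x ∈ 𝐍(zpowers (x ^ m)) := cent_sub _ (by
    rw [cent_cycle]; exact cent1_pow_le x m (cent1id x))
  have h4 : zpowers (x ^ m) ⊓ R = ⊥ := coprime_TIg (by
    rw [hc, card_cycle]
    exact (Nat.coprime_two_right.2 (ho.of_dvd_nat (orderOf_pow_dvd m))).pow_right _)
  set N := zpowers (x ^ m)
  have h5 : 𝐙(R) /c N = 𝐙(R /c N) := quotient_TI_subcent h2 (normG R) h2 h4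
  have h6 : #|𝐙(R /c N)| = 2 := by
    rw [← h5, card_quotient_TI (inf_le_left.trans h2)
      (le_bot_iff.1 (h4 ▸ inf_le_inf_left _ inf_le_left)), hR.card]
  have h7 : #|R /c N| = 2 ^ (2 * n + 1) := by rw [card_quotient_TI h2 h4, hc]
  have h8 : ∀ i, cst N x ^ i = 1 ↔ m ∣ i := fun i => by
    rw [cst_pow_eq_one h3]
    refine ⟨fun e => by_contra fun e' => hR.nonabelian (abelianE.2 fun t ht =>
      (hi i e' ⟨ht, sub_cent1.2 (h1 e) ht⟩).2), ?_⟩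
    rintro ⟨j, rfl⟩
    rw [pow_mul]; exact pow_mem (mem_zpowers _) j
  have h9 : #|zpowers (cst N x)| = m := by
    rw [card_cycle]
    exact Nat.dvd_antisymm (orderOf_dvd_of_pow_eq_one ((h8 m).2 dvd_rfl))
      ((h8 _).1 (pow_orderOf_eq_one _))
  rw [← h9]
  refine repr_extraspecial (extraspecial_of (by
      rw [IsPGroup.iff_card]; exact ⟨_, h7⟩) h6
    (by rw [← quotientR h2 h2, hR.der, h5]) fun e => ?_)
    (by rw [← quotient_cycle h3]; exact quotient_norms N (norms_cycle.2 hx)) (cycle_cyclic _) h7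
    (by rw [card_cycle]; exact Nat.coprime_two_left.2 (ho.of_dvd_nat (orderOf_cst_dvd N x)))
    fun ξ hξ ξ1 => le_antisymm (fun τ hτ => ?_) (le_inf inf_le_left ?_)
  · refine hR.nonabelian (derG1P.1 (le_bot_iff.1 (h4 ▸ le_inf ?_ (der_sub R))))
    rw [← quotient_eq_bot ((der_sub R).trans h2), quotientR h2 h2]
    exact derG1P.2 e
  · obtain ⟨i, rfl⟩ := (mem_powers_iff_mem_zpowers).2 hξ
    obtain ⟨t, ht, rfl⟩ := (mem_qt_of_le h2).1 hτ.1
    have h10 := mem_cent1.1 hτ.2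
    change _ * cst N x ^ i = cst N x ^ i * _ at h10
    rw [← cst_pow h3, commute_cst (h2 ht) (pow_mem h3 i)] at h10
    have h11 : t * x ^ i * t⁻¹ * (x ^ i)⁻¹ ∈ N ⊓ R := ⟨h10, by
      simpa [mul_assoc] using mul_mem ht ((memJ_norm (pow_mem hx i)).2 (inv_mem ht))⟩
    rw [h4, mem_bot, mul_inv_eq_one] at h11
    exact h5 ▸ mem_quotient N (hi i (mt (h8 i).2 ξ1) ⟨ht, cent1_conj.2 h11⟩)
  · rw [← h5]
    exact ((quotientS N hZ).trans (quotient_cent1 N x)).trans (cent1_le_of_mem_zpowers hξ)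

namespace QS

variable (h : QS p r V X W R a) (hA : 𝐙(R) ≤ W)
include h hA

theorem yy : YY W R R a := ⟨le_rfl, h.sp.aR, h.sp.comm, h.ne, h.sp.der ▸ hA⟩

theorem odd_cent {q : ℕ} (hq : q.Prime) (q2 : q ≠ 2) (hk : k ∈ X) (hn : k ∈ 𝐍(R))
    (hka : Commute k a) {j : ℕ} (hj : k ^ q ^ j = 1) (h1 : k ^ q ∈ 𝐂(R)) : k ∈ 𝐂(R) := by
  by_contra hne
  have hY := h.yy hA
  have hr := h.base.rp
  obtain ⟨n, n0, h2, h3⟩ := hY.card h.base h.cen h.sp h.le
  have hak : a ∈ 𝐍(R ⊓ 𝐂[k]) := norm_cent h.sp.aR hka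
  have h4 : R ⊓ 𝐂[k] ≤ 𝐙(R) := by
    by_contra e
    have := hY.eq_of_le h.base h.cen h.sp h.le ⟨(comm_le hak).trans inf_le_left, norm_comm _ _,
      h.sp.commid inf_le_left hak, fun e' => e fun x hx =>
        (h.sp.cen x hx.1).1 (mem_cent1'.1 (comm_bot.1 e' hx)),
      (dergS ((comm_le hak).trans inf_le_left)).trans hY.der⟩ ((comm_le hak).trans inf_le_left)
    exact hne (sub_cent1.1 (this ▸ (comm_le hak).trans inf_le_right))
  have qr : q ≠ r := by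
    rintro rfl
    refine h.base.rX ((?_ : q ∣ orderOf k).trans (order_dvdG hk))
    obtain ⟨i, -, e⟩ := (Nat.dvd_prime_pow hq).1 (orderOf_dvd_of_pow_eq_one hj)
    rcases i with _ | i
    · exact absurd ((orderOf_eq_one_iff.1 e) ▸ one_mem _) hne
    · exact e ▸ dvd_pow_self q i.succ_ne_zero
  have cqr := (Nat.coprime_primes hq hr).2 qr
  have ar : a ^ r = 1 := h.base.ord ▸ pow_orderOf_eq_one a
  have h5 := rep_mod (m := q * r) (hY.extra h.base h.cen h.sp h.le) h2 (mul_mem hn h.sp.aR)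
    (((hq.odd_of_ne_two q2).pow.mul (hr.odd_of_ne_two h.base.r2)).of_dvd_nat
      (orderOf_dvd_of_pow_eq_one (n := q ^ j * r) (by
        rw [hka.mul_pow, pow_mul, hj, mul_comm, pow_mul, ar]; simp)))
    (by rw [hka.mul_pow, pow_mul, mul_comm, pow_mul, ar, one_pow, mul_one]; exact pow_mem h1 r)
    (fun z hz => mem_cent1'.2 (Commute.mul_right (h.cen.cm (hA hz) hk).symm (h.sp.ca hz)))
    fun i hi t ht => by
      have h6 : (k * a) ^ i ∈ 𝐂[t] := cent1C.1 ht.2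
      by_cases e : r ∣ i
      · refine h4 ⟨ht.1, cent1C.1 (mem_of_cop (u := i) (v := q) ?_ (cent_le_cent1 ht.1 h1)
          ((Nat.Prime.coprime_iff_not_dvd hq).2 fun e' =>
            hi (cqr.mul_dvd_of_dvd_of_dvd e' e)).symm)⟩
        obtain ⟨l, rfl⟩ := e
        rwa [hka.mul_pow, pow_mul a, ar, one_pow, mul_one] at h6
      · refine (h.sp.cen t ht.1).1 (mem_cent1'.1 (cent1C.1 (mem_of_cop (u := i * q ^ j) (v := r) ?_
          (ar ▸ one_mem _) (Nat.Coprime.mul_left ((Nat.Prime.coprime_iff_not_dvd hr).2 e).symm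
            (cqr.pow_left j)))))
        have := pow_mem h6 (q ^ j)
        rwa [← pow_mul, hka.mul_pow, mul_comm i, pow_mul k, hj, one_pow, one_mul, mul_comm] at this
  have := Nat.one_lt_pow n0.ne' one_lt_two
  have q1 := hq.one_lt
  rcases h5 with h5 | h5
  · have := Nat.le_of_dvd (by omega) h5
    nlinarith
  · have := Nat.le_of_dvd (by omega) ((Dvd.intro_left q rfl).trans h5)
    omega

theorem cent_R (hk : k ∈ X) (hn : k ∈ 𝐍(R)) (hka : Commute k a) : k ∈ 𝐂(R) := by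
  refine le_of_forall_p_elt (K := X ⊓ 𝐍(R) ⊓ 𝐂[a]) (fun q hq x hx h1 => ?_)
    ⟨⟨hk, hn⟩, mem_cent1'.2 hka⟩
  by_cases q2 : q = 2
  · exact h.sp.cent_of_cent_center hx.1.2 (mem_cent1'.1 hx.2) (q2 ▸ h1)
      (centsC.1 (hA.trans h.cen.cX) hx.1.1)
  haveI := Fact.mk hq
  obtain ⟨j, hj⟩ := p_elt_exp.1 h1
  clear h1
  induction j generalizing x with
  | zero => rw [pow_zero, pow_one] at hj; rw [hj]; exact one_mem _
  | succ j ih =>
    exact h.odd_cent hA hq q2 hx.1.1 hx.1.2 (mem_cent1'.1 hx.2) hj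
      (ih _ (pow_mem hx q) (by rw [← pow_mul, ← pow_succ', hj]))

theorem comm_mem_W (hg : g ∈ X) (hn : g ∈ 𝐍(R)) (ht : t ∈ R) : ⁅g, t⁆ ∈ W := by
  obtain ⟨u, hu, k, hk, hka, rfl⟩ := h.dec g hg hn
  have hkn : k ∈ 𝐍(R) := by simpa using mul_mem (inv_mem (normG R hu)) hn
  convert hA (h.sp.cz hu ht) using 1
  simp only [commutatorElement_def]
  rw [mul_assoc u, ← h.cent_R hA hk hkn hka t ht]; group

theorem W_le : W ≤ R := (h.yy hA).center_eq h.base h.cen h.sp h.le ▸ inf_le_left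

theorem conjA (hg : g ∈ X) : 𝐙(cj g R) ≤ W := by
  rw [centerJ, ← cj_eq_of_mem_normalizer (h.cen.nrm hg)]; exact cj_mono g hA

theorem wc (hg : g ∈ X) (hn : cj g R ≤ 𝐍(R)) : cj g R = R := by
  have hp := h.pr hg
  have h' := hp.q'
  have hA' := h.conjA hA hg
  have hn' : R ≤ 𝐍(cj g R) := commg_subl.1 (commg_le.2 fun x hx y hy =>
    h'.W_le hA' (h.comm_mem_W hA (h'.le hx) (hn hx) hy))
  have h1 : ∀ {A B : Subgroup G} {b : G}, QS p r V X W A b → B ≤ X → B ≤ 𝐍(A) → b ∈ 𝐍(A ⊔ B) :=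
    fun {A B b} q h1 h2 => norms_cycle.1 (commg_subl.1 (commMG_le (normsG le_sup_left)
      (q.sp.comm.le.trans le_sup_left) ((q.comm_le_R h1 h2).trans le_sup_left)
      (normsG le_sup_right)))
  have h2 := h1 h h'.le hn
  have h3 := h1 h' h.le hn'
  rw [sup_comm] at h3
  have h4 : ∀ {b : G}, b ∈ 𝐍(X) → b ∈ 𝐍(R ⊔ cj g R) → b ∈ 𝐍(X ⊓ 𝐍(R ⊔ cj g R)) := fun h1 h2 =>
    normsI (norms_cycle.2 h1) (norms_norm (norms_cycle.2 h2)) (mem_zpowers _)
  refine (hp.eq_of_le inf_le_left (fun e => ?_) (h4 h.base.aX h2) (h4 h'.base.aX h3)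
    (mem_inf.2 ⟨hp.mem, mul_mem h3 (inv_mem h2)⟩) (le_inf h.le (normsG le_sup_left))
    (le_inf h'.le (normsG le_sup_right))).symm
  rcases h.nrm _ (sup_le h.le h'.le) (inf_eq_left.1 e) h2 with h5 | h5
  · exact h.nonab (abelianE.2 (centSS le_sup_left h.le h5))
  · exact h.not_norm (h5 ▸ sup_le (normG R) hn)

theorem ctrl (hy : y ∈ R) (hx : x ∈ X) (hn : x * y * x⁻¹ ∈ 𝐍(R)) : x * y * x⁻¹ * y⁻¹ ∈ W := by
  have h' := h.conj hx
  have hy' : x * y * x⁻¹ ∈ cj x R := conj_mem_cj.2 hy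
  have hyX := h'.le hy'
  have m : ∀ u, u ∈ X ⊓ qpre W 𝐂[cst W (x * y * x⁻¹)] ↔ u ∈ X ∧ ⁅u, x * y * x⁻¹⁆ ∈ W := fun u =>
    and_congr_right fun hu => by
      change u ∈ qpre _ _ ↔ _
      rw [mem_qpre, and_iff_right (h.cen.nrm hu), mem_cent1,
        commute_cst (h.cen.nrm hu) (h.cen.nrm hyX), commutatorElement_def]
  obtain ⟨P, hP, h1⟩ := Sylow_superset (K := X ⊓ qpre W 𝐂[cst W (x * y * x⁻¹)]) (fun u hu =>
    (m u).2 ⟨h.le hu, by
      rw [← commutatorElement_inv]; exact inv_mem (h.comm_mem_W hA hyX hn hu)⟩) h.sp.p2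
  obtain ⟨c, hc, h2⟩ := Sylow_Jsub hP (fun u hu => (m u).2 ⟨h'.le hu,
    h.conjA hA hx (h'.sp.cz hu hy')⟩) h'.sp.p2
  obtain ⟨T, hT, h3⟩ := h.syl
  obtain ⟨d, hd, h4⟩ := Sylow_Jsub hT (hP.le.trans inf_le_left) hP.pgroup
  have h5 := h.wc hA hd (((cj_mono d h1).trans h4).trans h3)
  have h6 := h.wc hA (mul_mem hd (mul_mem hc.1 hx)) (by
    rw [cj_mul, cj_mul]; exact ((cj_mono d h2).trans h4).trans h3)
  rw [cj_mul, ← h5, cj_inj, h5] at h6
  have := mul_mem (inv_mem ((m c).1 hc).2)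
    (h.comm_mem_W hA (mul_mem hc.1 hx) (cj_eq_iff.1 h6) hy)
  convert this using 1
  simp only [commutatorElement_def]; group

theorem caseA : False := by
  obtain ⟨g, hg, hZ⟩ : ∃ g ∈ R, g ∉ 𝐂(R) := by
    by_contra! e
    exact h.nonab (abelianE.2 e)
  obtain ⟨k, hk⟩ := isPGroup_iff_forall_mem.1 h.sp.p2 g hg
  obtain ⟨T, hT, h3⟩ := h.syl
  have hW : W ≤ 𝐂(R) := centsS h.le h.cen.cX
  refine not_mem_commutator_of_control (p := 2) (G := X) (H := 𝐍(R).subgroupOf X)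
    (K := 𝐂(R).subgroupOf X) (g := ⟨g, h.le hg⟩) (k := k) (fun x hx y hy => ?_)
    (Sylow_not_dvd_index hT h3) (normG R hg) hZ (Subtype.ext hk)
    (fun n x hx => hW (h.ctrl hA (pow_mem hg n) x.2 hx)) ?_
  · have key : ∀ x ∈ X, x ∈ 𝐍(R) → x ∈ R ⊔ 𝐂(R) := fun x hx hn => by
      obtain ⟨u, hu, l, hl, hla, rfl⟩ := h.dec x hx hn
      exact mul_mem (mem_sup_left hu) (mem_sup_right (h.cent_R hA hl
        (by simpa using mul_mem (inv_mem (normG R hu)) hn) hla))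
    have := mem_commg (key x x.2 hx) (key y y.2 hy)
    rw [der1_joing_cent le_rfl] at this
    exact (sup_le (h.sp.der.le.trans inf_le_right) (der_sub _) : _ ≤ 𝐂(R)) this
  · have hd : g ∈ ⁅X, X⁆ := h.perf.symm ▸ h.le hg
    rw [← map_subtype_commutator] at hd
    obtain ⟨y, hy, e⟩ := hd
    exact (Subtype.ext e : y = ⟨g, h.le hg⟩) ▸ hy

end QS

theorem qsstmt : QSStmt.{u} := fun _ _ _ _ _ _ _ _ _ _ _ h =>
  (em _).elim h.caseA h.caseB

end Cfsg.Agent.FP
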