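import Cfsg.Agent.Lib.FP.Base
import Cfsg.Agent.Lib.ZD.Main

/-! A Bender group has no coprime automorphism of odd prime order centralizing `Ω₁` of a Sylow
`2`-subgroup. -/

open Subgroup MulAction

set_option linter.unusedSectionVars false
set_option linter.style.haveILetI false

namespace Cfsg.Agent.FP

open FT Tr ZD

universe u

variable {G Ω : Type u} [Group G] [Finite G] [MulAction G Ω] {D : Set G} {a : G} {r : ℕ}

theorem fix_mod [Finite Ω] (hr : r.Prime) (ha : orderOf a = r) :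
    Nat.card Ω ≡ (fixedBy Ω a).ncard [MOD r] := by
  haveI := Fact.mk hr
  have h1 : IsPGroup r (zpowers a) := IsPGroup.of_card (n := 1) (by rw [card_cycle, ha, pow_one])
  have := h1.card_modEq_card_fixedPoints Ω
  rwa [show fixedPoints (zpowers a) Ω = fixedBy Ω a from Fix_zpowers (Ω := Ω) a ▸ Set.ext fun ω =>
    ⟨fun h g hg => h ⟨g, hg⟩, fun h g => h g g.2⟩] at this

theorem arith {r e c s : ℕ} (hr : r.Prime) (r2 : r ≠ 2) (e2 : 2 ≤ e) (h1 : 2 ^ e - 1 ∣ 2 ^ c - 1)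
    (h2 : e ≤ c) (h3 : c < e * s) (h4 : s ≤ 3) (h5 : 2 ^ (e * s) ≡ 2 ^ c [MOD r]) :
    r ∣ 2 ^ e - 1 ∨ r ∣ 2 ^ (e * s) + 1 := by
  have h6 := Nat.gcd_eq_left h1
  rw [Nat.pow_sub_one_gcd_pow_sub_one] at h6
  have h7 : Nat.gcd e c = e := Nat.pow_right_injective le_rfl (by
    have := Nat.one_le_two_pow (n := Nat.gcd e c)
    have := Nat.one_le_two_pow (n := e)
    change 2 ^ _ = 2 ^ _
    omega)
  obtain ⟨m, rfl⟩ := Nat.gcd_eq_left_iff_dvd.1 h7
  have h8 : m < s := Nat.lt_of_mul_lt_mul_left h3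
  have h9 : 1 ≤ m := by
    rcases m with _ | m
    · omega
    · omega
  obtain ⟨d, rfl⟩ := Nat.exists_eq_add_of_lt h8
  have h10 : r ∣ (2 ^ e) ^ (d + 1) - 1 := by
    have := (Nat.modEq_iff_dvd' (Nat.pow_le_pow_right two_pos h3.le)).1 h5.symm
    rw [add_assoc, mul_add, pow_add, ← Nat.mul_sub_one, pow_mul 2 e (d + 1)] at this
    exact (Nat.Coprime.pow_right _ ((Nat.coprime_primes hr Nat.prime_two).2 r2)).dvd_of_dvd_mul_left
      this
  rcases d with _ | d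
  · exact Or.inl (by simpa using h10)
  obtain rfl : d = 0 := by omega
  obtain rfl : m = 1 := by omega
  rw [show (2 ^ e) ^ (0 + 1 + 1) - 1 = (2 ^ e + 1) * (2 ^ e - 1) from Nat.sq_sub_sq _ 1] at h10
  refine ((Nat.Prime.dvd_mul hr).1 h10).symm.imp_right fun h => h.trans ?_
  rw [pow_mul]
  simpa using Odd.nat_add_dvd_pow_add_pow (2 ^ e) 1 (n := 3) (by decide)

theorem endgame (hz : ZH ⊤ (Set.univ : Set Ω) D) (hf : ∀ g : G, (∀ ω : Ω, g • ω = ω) → g = 1)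
    (cp : CP D) (hr : r.Prime) (r2 : r ≠ 2) (ha : orderOf a = r) {α β₀ : Ω} (ne₀ : α ≠ β₀)
    (h1 : a • α = α) (hD : ∀ d ∈ D, d • α = α → Commute d a) (hn : ¬ r ∣ #|closure D|) :
    False := by
  haveI : Finite Ω := Set.finite_univ_iff.1 hz.finite_pts
  have gx : ∀ β, α ≠ β → ∃ Q V j q, GoodX D α β Q V j q := fun β ne => by
    obtain ⟨Q, V, j, q, h⟩ := good G Ω D hz hf (mt G Ω D hz hf) cp α β ne
    exact ⟨Q, V, j, q, good2 _ _ _ _ _ _ _ _ _ h⟩
  have cQ : ∀ {β Q V j q}, GoodX D α β Q V j q →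
      ∃ e s, 2 ≤ e ∧ q = 2 ^ e ∧ s ≤ 3 ∧ #|Q| = 2 ^ (e * s) := fun h => by
    obtain ⟨e, e2, rfl⟩ := h.exq
    rcases h.typ with e1 | e1 | e1
    · exact ⟨e, 1, e2, rfl, by omega, by rw [e1, h.cardV, mul_one]⟩
    · exact ⟨e, 2, e2, rfl, by omega, by rw [e1.card, pow_mul]⟩
    · exact ⟨e, 3, e2, rfl, by omega, by rw [e1.card, pow_mul]⟩
  have hm := fix_mod (Ω := Ω) hr ha
  obtain ⟨β, h2, ne⟩ : ∃ β, a • β = β ∧ α ≠ β := by
    by_contra! hc
    obtain ⟨Q, V, j, q, h⟩ := gx β₀ ne₀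
    obtain ⟨e, s, -, -, -, h3⟩ := cQ h
    rw [show fixedBy Ω a = {α} from Set.ext fun ω => ⟨fun e => (hc ω e).symm, fun e => e ▸ h1⟩,
      Set.ncard_singleton, h.cardΩ, h3] at hm
    exact r2 ((Nat.prime_dvd_prime_iff_eq hr Nat.prime_two).1 (hr.dvd_of_dvd_pow
      ((Nat.modEq_zero_iff_dvd).1 (Nat.ModEq.add_right_cancel' 1 (by simpa using hm)))))
  obtain ⟨Q, V, j, q, h⟩ := gx β ne
  obtain ⟨e, s, e2, rfl, s3, h3⟩ := cQ h
  have hV : ∀ v ∈ V, Commute v a := fun v hv => by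
    rcases (h.memV v).1 hv with rfl | hv
    · exact Commute.one_left a
    · exact hD v hv.1 hv.2
  have hj : Commute j a := by
    obtain ⟨n, hn⟩ := (mem_powers_iff_mem_zpowers).2
      (mul_mem (inv_mem (mem_zpowers j)) (h.nj a h1 h2))
    change j ^ n = _ at hn
    have : j ^ n = 1 := by
      by_contra hne
      obtain ⟨v, hv, v1⟩ := trivgPn.1 (show V ≠ ⊥ from fun e1 => by
        have := h.cardV
        rw [e1, card_bot] at this
        exact (Nat.one_lt_two_pow (by omega)).ne this)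
      have hv' : j * v * j⁻¹ ∈ V := by
        obtain hv := ((h.memV v).1 hv).resolve_left v1
        refine (h.memV _).2 (Or.inr ⟨hz.conj v hv.1 j trivial, ?_⟩)
        rw [mul_smul, mul_smul, inv_smul_eq_iff.2 h.ja.symm, hv.2, h.ja]
      refine v1 (h.fpf n hne v (h.VQ hv) (mem_cent1'.1 (cent1_conj.2 ?_)))
      rw [hn]
      calc _ = j⁻¹ * (a * (j * (a⁻¹ * v * a) * j⁻¹) * a⁻¹) * j := by group
        _ = v := by rw [(hV v hv).symm.inv_mul_cancel, (hV _ hv').symm.mul_inv_cancel]; group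
    rw [this, eq_comm, inv_mul_eq_one, eq_mul_inv_iff_mul_eq] at hn
    exact hn
  have h4 := regular_norm_dvd_pred (K := Q ⊓ 𝐂[a]) (H := zpowers j) (normsI
    (zpowers_le.2 (mem_normalizer_of_forall (h.Qn j h.ja)))
    (normsG (zpowers_le.2 (mem_cent1'.2 hj)))) fun x hx x1 => eq_bot_iff.2 fun y hy => by
      obtain ⟨n, rfl⟩ := (mem_powers_iff_mem_zpowers).2 hx
      exact h.fpf n x1 y hy.1.1 (mem_cent1'.1 hy.2).symm
  obtain ⟨c, -, h5⟩ := (Nat.dvd_prime_pow Nat.prime_two).1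
    (h3 ▸ cardSg (inf_le_left : Q ⊓ 𝐂[a] ≤ Q))
  have h6 := h.cardFix a h1 h2
  rw [card_cycle, h.ord, h5] at h4
  rw [h6, h.cardΩ, h5, h3] at hm
  have h7 : e ≤ c := (Nat.pow_dvd_pow_iff_le_right one_lt_two).1 (h5 ▸ h.cardV ▸
    cardSg (le_inf h.VQ fun v hv => mem_cent1'.2 (hV v hv)))
  have h8 : c < e * s := by
    by_contra! hc
    have : fixedBy Ω a = Set.univ := Set.eq_of_subset_of_ncard_le (Set.subset_univ _) (by
      rw [h6, Set.ncard_univ, h.cardΩ, h5, h3]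
      exact Nat.succ_le_succ (Nat.pow_le_pow_right two_pos hc))
    refine hr.ne_one ?_
    rw [← ha, hf a fun ω => (this ▸ Set.mem_univ ω : ω ∈ fixedBy Ω a), orderOf_one]
  rcases arith hr r2 e2 h4 h7 h8 s3 (Nat.ModEq.add_right_cancel' 1 hm) with h9 | h9
  · obtain ⟨x, hx, y, hy, -, -, e1⟩ := h.jD
    exact hn (h9.trans (h.ord ▸ order_dvdG (e1 ▸ mul_mem (subset_closure hx) (subset_closure hy))))
  · haveI : IsPretransitive (closure D) Ω := ⟨fun x y => by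
      obtain ⟨g, hg, e1⟩ := hz.tr (α := x) (β := y) trivial trivial
      exact ⟨⟨g, hg⟩, e1⟩⟩
    refine hn (h9.trans ?_)
    rw [← h3, ← h.cardΩ, ← index_stabilizer_of_transitive (closure D) α]
    exact index_dvd_card _

end Cfsg.Agent.FP
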