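import Cfsg.Agent.Lib.FP.Loc4
import Cfsg.Agent.Lib.FP.End

/-! The configuration `QS`, case B: `Z(R) ≰ W`. -/

open Subgroup MulAction
open scoped commutatorElement

set_option linter.unusedSectionVars false
set_option linter.style.haveILetI false

namespace Cfsg.Agent.FP

open FT Tr ZD SF.GP

universe u

variable {G : Type u} [Group G] [Finite G] {p r : ℕ} [Fact p.Prime] {V X H R R' W Y : Subgroup G}
  {a d e g x z : G}

/-- The points. -/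
def Pts (X R : Subgroup G) : Set (G ⧸ 𝐍(R)) := {ω | ∃ g ∈ X, (g : G ⧸ 𝐍(R)) = ω}

/-- The involutions. -/
def Invs (X W R : Subgroup G) : Set G := {d | ∃ g ∈ X, d ∈ Zh W (cj g R) ∧ d ∉ W}

theorem smul_pt (x g : G) : x • (g : G ⧸ 𝐍(R)) = (g : G ⧸ 𝐍(R)) ↔ x ∈ 𝐍(cj g R) := by
  rw [smul_mk_iff, normJ, mem_cj]

omit [Finite G] in
theorem pt_eq {g g' : G} : (g : G ⧸ 𝐍(R)) = g' ↔ cj g R = cj g' R := by
  rw [QuotientGroup.eq, ← cj_eq_iff, cj_mul, eq_comm, ← cj_eq_iff_eq_cj_inv]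

namespace QS

variable (h : QS p r V X W R a)
include h

theorem exists_rep (hx : x ∈ X ⊔ zpowers a) (hg : g ∈ X) : ∃ g' ∈ X, cj g' R = cj (x * g) R := by
  obtain ⟨y, hy, b, hb, rfl⟩ := (mem_join_norm (norms_cycle.2 h.base.aX)).1 hx
  refine ⟨y * (b * g * b⁻¹), mul_mem hy ((memJ_norm (norms_cycle.2 h.base.aX hb)).2 hg), ?_⟩
  rw [← mul_assoc, ← mul_assoc, cj_mul,
    cj_eq_of_mem_normalizer (inv_mem (norms_cycle.2 h.sp.aR hb))]

theorem hI : ∀ x ∈ X ⊔ zpowers a, ∀ ω ∈ Pts X R, x • ω ∈ Pts X R := by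
  rintro x hx _ ⟨g, hg, rfl⟩
  obtain ⟨g', hg', e⟩ := h.exists_rep hx hg
  exact ⟨g', hg', pt_eq.2 e⟩

theorem nX : X ⊔ zpowers a ≤ 𝐍(X) := sup_le (normG X) (norms_cycle.2 h.base.aX)

theorem nW : X ⊔ zpowers a ≤ 𝐍(W) :=
  sup_le (fun _ hx => h.cen.nrm hx) (norms_cycle.2 (cent_sub _ (sub_cent1.1 h.cen.ca)))

theorem pr2 {g' : G} (hg : g ∈ X) (hg' : g' ∈ X) :
    Pr p r V X W (cj g R) (g * a * g⁻¹) (cj g' R) (g' * a * g'⁻¹) := by
  have := (h.conj hg).pr (mul_mem hg' (inv_mem hg))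
  rwa [← cj_mul, inv_mul_cancel_right,
    show g' * g⁻¹ * (g * a * g⁻¹) * (g' * g⁻¹)⁻¹ = g' * a * g'⁻¹ by group] at this

theorem invs_le (hd : d ∈ Invs X W R) : d ∈ X := by
  obtain ⟨g, hg, h1, -⟩ := hd
  exact (h.conj hg).Zh_le h1

theorem invs_two (hd : d ∈ Invs X W R) : d * d = 1 := by
  obtain ⟨g, hg, h1, -⟩ := hd
  exact (h.conj hg).Zh_two h1

theorem invs_conj (hd : d ∈ Invs X W R) (hx : x ∈ X ⊔ zpowers a) : x * d * x⁻¹ ∈ Invs X W R := by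
  obtain ⟨g, hg, h1, h2⟩ := hd
  obtain ⟨g', hg', e⟩ := h.exists_rep hx hg
  refine ⟨g', hg', ?_, mt (memJ_norm (h.nW hx)).1 h2⟩
  rw [e, cj_mul, Zh_cj (h.nW hx)]; exact conj_mem_cj.2 h1

theorem invs_mem (hd : d ∈ Invs X W R) (hg : g ∈ X) (hn : d ∈ 𝐍(cj g R)) : d ∈ Zh W (cj g R) := by
  obtain ⟨g', hg', h1, h2⟩ := hd
  rwa [(h.pr2 hg hg').sc h1 h2 hn]

theorem invs_uniq (hd : d ∈ Invs X W R) : ¬ FR (Pts X R) d := by
  rintro ⟨_, ⟨g, hg, rfl⟩, _, ⟨g', hg', rfl⟩, ne, h1, h2⟩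
  have h3 := h.invs_mem hd hg ((smul_pt _ _).1 h1)
  have h4 := h.invs_mem hd hg' ((smul_pt _ _).1 h2)
  obtain ⟨-, -, -, h5⟩ := hd
  exact ne (pt_eq.2 ((h.pr2 hg hg').ti h3 h4 h5))

theorem two_pts : ∃ x ∈ X, ((1 : G) : G ⧸ 𝐍(R)) ≠ x := by
  by_contra! hc
  exact h.not_norm fun x hx => by simpa [QuotientGroup.eq] using hc x hx

theorem cent_of_nrm {N : Subgroup G} (hN : X ⊔ zpowers a ≤ 𝐍(N)) (hne : ¬ X ≤ N) :
    X ⊓ N ≤ 𝐂(X) :=
  (h.nrm _ inf_le_left (normsIG le_rfl (le_sup_left.trans hN))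
    (normsI h.nX hN (mem_sup_right (mem_zpowers a)))).resolve_right fun e => hne (inf_eq_left.1 e)

theorem comm_W (hz : z ∈ X) (z2 : z * z = 1) (hg : g ∈ X) (hc : ⁅z, g⁆ ∈ 𝐂(X)) : ⁅z, g⁆ ∈ W := by
  refine h.allW _ (commutator_le_self' hz hg) hc ?_
  have zi : z⁻¹ = z := inv_eq_of_mul_eq_one_right z2
  nth_rw 1 [← mul_inv_cancel_right ⁅z, g⁆ z, ← hc z hz]
  simp only [commutatorElement_def, zi, ← mul_assoc, z2, one_mul]
  rw [mul_assoc _ z z, z2]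
  simp [mul_assoc, z2]
where commutator_le_self' (hz : z ∈ X) (hg : g ∈ X) : ⁅z, g⁆ ∈ X :=
  mul_mem (mul_mem (mul_mem hz hg) (inv_mem hz)) (inv_mem hg)

theorem ker_cent : X ⊓ Ker G (Pts X R) ≤ 𝐂(X) :=
  h.cent_of_nrm (fun x hx => Stab_le_normalizer_Ker _ (mem_Stab_of (h.hI x hx))) fun e =>
    h.not_norm fun x hx => by
      simpa [cj_one] using (smul_pt x 1).1 (e hx _ ⟨1, one_mem _, rfl⟩)

theorem W_ker : W ≤ Ker G (Pts X R) := by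
  rintro w hw _ ⟨g, hg, rfl⟩
  exact (smul_pt _ _).2 (cent_sub _ ((h.conj hg).Zh_cent (W_le_Zh hw)))

theorem ord_pr (hd : d ∈ Invs X W R) : orderOf (ZD.pr (X ⊔ zpowers a) (Pts X R) d) = 2 := by
  have hd' : d ∈ X ⊔ zpowers a := mem_sup_left (h.invs_le hd)
  refine orderOf_eq_prime (by rw [pow_two, ← pr_mul h.hI hd' hd', h.invs_two hd, pr_one h.hI])
    fun e => ?_
  obtain ⟨x, hx, ne⟩ := h.two_pts
  have := (pr_eq_one h.hI hd').1 e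
  exact h.invs_uniq hd ⟨_, ⟨1, one_mem _, rfl⟩, _, ⟨x, hx, rfl⟩, ne, this _ ⟨1, one_mem _, rfl⟩,
    this _ ⟨x, hx, rfl⟩⟩

theorem zh (hB : ¬ 𝐙(R) ≤ W) :
    ZH ⊤ (Set.univ : Set (Pts X R)) (ZD.pr (X ⊔ zpowers a) (Pts X R) '' Invs X W R) := by
  have m : ∀ {d}, d ∈ Invs X W R → d ∈ X ⊔ zpowers a := fun hd => mem_sup_left (h.invs_le hd)
  refine ⟨fun _ _ => trivial, fun _ _ _ _ => trivial, ?_, ?_, ?_, ?_, ?_, ?_⟩
  · rintro _ ⟨d, hd, rfl⟩ ξ -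
    obtain ⟨x, hx, rfl⟩ := pr_surj h.hI ξ
    exact ⟨_, h.invs_conj hd hx, pr_conj h.hI hx (m hd)⟩
  · rintro _ ⟨d, hd, rfl⟩; exact h.ord_pr hd
  · rintro _ ⟨d, hd, rfl⟩
    obtain ⟨g, hg, h1, -⟩ := id hd
    exact ⟨⟨g, g, hg, rfl⟩, trivial, (pr_smul_eq h.hI (m hd)).2
      ((smul_pt _ _).2 (cent_sub _ ((h.conj hg).Zh_cent h1)))⟩
  · rintro ⟨_, g, hg, rfl⟩ -
    obtain ⟨z, hz, hW⟩ := SetLike.not_le_iff_exists.1 hB
    have h1 : g * z * g⁻¹ ∈ Zh W (cj g R) := by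
      rw [Zh_cj (h.cen.nrm hg)]; exact conj_mem_cj.2 (Z_le_Zh hz)
    have hd : g * z * g⁻¹ ∈ Invs X W R := ⟨g, hg, h1, mt (memJ_norm (h.cen.nrm hg)).1 hW⟩
    exact ⟨_, ⟨_, hd, rfl⟩, (pr_smul_eq h.hI (m hd)).2
      ((smul_pt _ _).2 (cent_sub _ ((h.conj hg).Zh_cent h1)))⟩
  · rintro _ ⟨d, hd, rfl⟩
    rw [fr_pr h.hI (m hd)]; exact h.invs_uniq hd
  · rintro _ ⟨d, hd, rfl⟩ _ ⟨e, he, rfl⟩ ne hc
    have hdX := h.invs_le hd
    have heX := h.invs_le he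
    have h1 : ⁅d, e⁆ ∈ W := h.comm_W hdX (h.invs_two hd) heX (h.ker_cent ⟨comm_W.commutator_le_self'
      hdX heX, (pr_eq_one h.hI (mem_sup_left (comm_W.commutator_le_self' hdX heX))).1 (by
        rw [commutatorElement_def, pr_mul h.hI (mul_mem (mul_mem (m hd) (m he)) (inv_mem (m hd)))
          (inv_mem (m he)), pr_conj h.hI (m hd) (m he), pr_inv h.hI (m he), hc.mul_inv_cancel,
          mul_inv_cancel])⟩)
    obtain ⟨g, hg, h2, h3⟩ := id he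
    have h4 := h.invs_mem hd hg ((h.conj hg).norm_of h2 h3 hdX h1)
    rw [← pr_mul h.hI (m hd) (m he), fr_pr h.hI (mul_mem (m hd) (m he))]
    refine h.invs_uniq ⟨g, hg, mul_mem h4 h2, fun h5 => ne ((pr_eq_iff' h.hI (m hd) (m he)).2 ?_)⟩
    rw [(h.conj hg).Zh_inv h4]; exact h.W_ker h5

theorem caseB (hB : ¬ 𝐙(R) ≤ W) : False := by
  have hz := h.zh hB
  haveI := finite_XS h.hI
  have m : ∀ {d}, d ∈ X → d ∈ X ⊔ zpowers a := fun hd => mem_sup_left hd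
  have ma : a ∈ X ⊔ zpowers a := mem_sup_right (mem_zpowers a)
  by_cases cp : CP (ZD.pr (X ⊔ zpowers a) (Pts X R) '' Invs X W R)
  · obtain ⟨x, hx, ne⟩ := h.two_pts
    refine endgame hz XS_faith cp h.base.rp h.base.r2 (a := ZD.pr _ _ a)
      (α := ⟨(1 : G), 1, one_mem _, rfl⟩) (β₀ := ⟨x, x, hx, rfl⟩) ?_
      (fun e => ne (congrArg Subtype.val e))
      ((pr_smul_eq h.hI ma).2 ((smul_pt _ _).2 (by rw [cj_one]; exact h.sp.aR))) ?_ fun e => ?_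
    · haveI := Fact.mk h.base.rp
      refine orderOf_eq_prime (by
        rw [← pr_pow h.hI ma, ← h.base.ord, pow_orderOf_eq_one, pr_one h.hI]) fun e => ?_
      have h1 := zpowers_le.2 ((pr_eq_one h.hI ma).1 e)
      refine h.not_norm (h.comm ▸ commg_le.2 fun g hg b hb => mul_mem ?_
        (inv_mem (norms_cycle.2 h.sp.aR hb)))
      simpa using (smul_mk_iff _ _).1 (h1 hb _ ⟨g⁻¹, inv_mem hg, rfl⟩)
    · rintro _ ⟨d, hd, rfl⟩ e
      have := h.invs_mem hd (one_mem X)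
        ((smul_pt _ _).1 ((pr_smul_eq h.hI (m (h.invs_le hd))).1 e))
      rw [cj_one] at this
      exact pr_commute h.hI (m (h.invs_le hd)) ma (h.Zh_ca this)
    · refine h.base.rX (e.trans ((cardSg ((closure_le (prS h.hI X)).2 ?_)).trans
        (Dvd.intro_left _ (card_prS h.hI le_sup_left))))
      rintro _ ⟨d, hd, rfl⟩
      exact pr_mem_prS h.hI (h.invs_le hd) (m (h.invs_le hd))
  obtain ⟨z, hz', hW⟩ := SetLike.not_le_iff_exists.1 hB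
  have hzX := h.le hz'.1
  have hd : z ∈ Invs X W R := ⟨1, one_mem _, by rw [cj_one]; exact Z_le_Zh hz', hW⟩
  have hN : X ⊔ zpowers a ≤ 𝐍(prC h.hI 𝐎(prS h.hI X)) := fun x hx =>
    mem_normalizer_of_forall fun y hy => by
      obtain ⟨h1, h2⟩ := (mem_prC h.hI).1 hy
      refine (mem_prC h.hI).2 ⟨mul_mem (mul_mem hx h1) (inv_mem hx), ?_⟩
      rw [pr_conj h.hI hx h1]
      refine (memJ_norm (pcore_char _ _ (mem_normalizer_of_forall fun ξ hξ => ?_))).2 h2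
      obtain ⟨g, hg, hg', rfl⟩ := (mem_prS h.hI).1 hξ
      rw [← pr_conj h.hI hx hg']
      exact pr_mem_prS h.hI ((memJ_norm (h.nX hx)).2 hg) (mul_mem (mul_mem hx hg') (inv_mem hx))
  have h1 := h.cent_of_nrm hN fun e => by
    have := odd_orderOf_of_odd_card (odd_core _) ((mem_prC h.hI).1 (e hzX)).2
    rw [h.ord_pr hd] at this
    exact absurd this (by decide)
  refine h.not_norm fun g hg => h.norm_of (Z_le_Zh hz') hW hg ?_
  rw [← commutatorElement_inv]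
  have h2 := comm_W.commutator_le_self' hzX hg
  refine inv_mem (h.comm_W hzX (h.sp.two z hz') hg (h1 ⟨h2, (mem_prC h.hI).2 ⟨m h2, ?_⟩⟩))
  rw [commutatorElement_def, pr_mul h.hI (mul_mem (mul_mem (m hzX) (m hg)) (inv_mem (m hzX)))
    (inv_mem (m hg)), pr_conj h.hI (m hzX) (m hg), pr_inv h.hI (m hg)]
  refine zstar_in (pr_mem_prS h.hI hzX (m hzX)) (h.ord_pr hd) (fun ξ _ hc => ?_)
    (pr_mem_prS h.hI hg (m hg))
  by_contra n
  exact cp ⟨_, ⟨z, hd, rfl⟩, _, hz.conj _ ⟨z, hd, rfl⟩ ξ trivial, fun e => n e.symm, hc⟩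

end QS

end Cfsg.Agent.FP
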