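import Cfsg.Agent.Lib.FP.Base
import Cfsg.Agent.Lib.Block.Ext

/-! Degrees of the characters of `Q⟨a⟩` without fixed points of `a`, and the subgroups `YY`. -/

open Subgroup
open scoped commutatorElement ComplexConjugate

set_option linter.unusedSectionVars false
set_option linter.style.haveILetI false

namespace Cfsg.Agent.FP

open FT Tr FT.BG2P Char

attribute [local instance] Ind.subFin

universe u

variable {G : Type u} [Group G] [Finite G] {p r : ℕ} {V X H P L R W Y : Subgroup G} {a g k t y : G}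
  {χ ψ : G → ℂ}

theorem cen_norm (hL : P ⊴ L) (h : CharOn L ψ) (h' : IrrOn P ψ)
    (hy : y ∈ L) (hc : (#|P|).Coprime (orderOf y)) (hcy : P ⊓ 𝐂[y] = 𝐙(P)) : ‖ψ y‖ = 1 := by
  haveI := hL.normal
  let φ := extendByZero L fun x => ψ x
  have hφ : ∀ x ∈ L, φ x = ψ x := fun x hx => Ind.ebz_of_mem _ _ hx
  have hφ' : (fun x : L => φ x * conj (φ x)) = (fun x : L => ψ x) * fun x : L => conj (ψ x) :=
    funext fun x => by rw [hφ x x.2]; rfl
  have h1 := Ind.isChar_nAvg (P.subgroupOf L) (hφ' ▸ isChar_mul h (isChar_conj h))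
  have h2 := Ind.nAvg_subgroupOf hL.le (fun x => φ x * conj (φ x))
  have h3 : Ind.nAvg (P.subgroupOf L) (fun x : L => φ x * conj (φ x)) 1 = 1 := by
    rw [h2, OneMemClass.coe_one, Ind.nAvg_one_eq, ← inner_self_of_isIrr h']
    congr 1 <;> exact funext fun x => hφ x (hL.le x.2)
  have h4 := congrArg norm (map_mul_of_apply_one h1 h3 ⟨y, hy⟩ (⟨y, hy⟩ : L)⁻¹)
  rw [mul_inv_cancel, h3, apply_inv_of_isChar h1, norm_mul, Complex.norm_conj, norm_one, h2,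
    Ind.coset_avg (C := 𝐙(P)) (hL.nz hy) inf_le_left ?_ _ fun a ha g => by
      simp only [φ, Ind.ebz_conj_mem L (Ind.cf_of_isCharacter h) (hL.le ha)]] at h4
  · have h5 : Ind.nAvg 𝐙(P) (fun x => φ x * conj (φ x)) y = ψ y * conj (ψ y) := by
      rw [Ind.nAvg, Finset.sum_congr rfl (g := fun _ => ψ y * conj (ψ y)), Finset.sum_const,
        Finset.card_univ, ← Nat.card_eq_fintype_card, nsmul_eq_mul,
        inv_mul_cancel_left₀ (card_ne_zero_complex _)]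
      intro c _
      have hcL := hL.le c.2.1
      obtain ⟨ω, hω⟩ := exists_apply_mul_of_norm_eq h (x := ⟨c, hcL⟩) (h'.central_norm c.2)
      have e1 : ψ c = ω * ψ 1 := by simpa using hω 1
      have e2 : ‖ω‖ = 1 := by
        have := h'.central_norm c.2
        rw [e1, norm_mul] at this
        exact mul_right_cancel₀ (norm_ne_zero_iff.2 h'.ne_zero) (by rw [this, one_mul])
      have e3 : ψ (c * y) = ω * ψ y := by
        rw [← (hcy.ge c.2).2 y rfl]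
        exact hω ⟨y, hy⟩
      rw [hφ _ (L.mul_mem hcL hy), e3, Complex.mul_conj, Complex.mul_conj, Complex.normSq_mul,
        Complex.normSq_eq_norm_sq ω, e2, one_pow, one_mul]
    rw [h5, norm_mul, Complex.norm_conj] at h4
    have h6 : ‖ψ y‖ ^ 4 = 1 := by rw [h4]; ring
    exact (pow_eq_one_iff_of_nonneg (norm_nonneg _) (by norm_num)).1 h6
  · intro u hu c hc' c' hc'' e
    have hw := 𝐙(P).mul_mem (𝐙(P).inv_mem hc') hc''
    have e1 : u * y * u⁻¹ = c⁻¹ * c' * y := by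
      rw [mul_assoc c⁻¹, ← e, ← mul_assoc u, hc'.2 u hu]; group
    have e2 : (c⁻¹ * c') ^ orderOf y = 1 := by
      have := congrArg (· ^ orderOf y) e1
      simp only [conj_pow, pow_orderOf_eq_one, mul_one, mul_inv_cancel] at this
      rwa [Commute.mul_pow ((hcy.ge hw).2 y rfl).symm, pow_orderOf_eq_one, mul_one,
        eq_comm] at this
    have e3 : c⁻¹ * c' = 1 := orderOf_eq_one_iff.1 (Nat.eq_one_of_dvd_coprimes hc
      (order_dvdG hw.1) (orderOf_dvd_of_pow_eq_one e2))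
    rw [e3, one_mul] at e1
    exact hcy.le ⟨hu, cent1_conj.2 e1⟩

/-- (CH) -/
theorem deg_eq {A : Subgroup G} (hs : Sdprod P A L) (hA : (#|A|).Prime)
    (hc : (#|P|).Coprime #|A|) (hz : P ⊓ 𝐂(A) = 𝐙(P)) (hψ : IrrOn L ψ) (h0 : sumOn ψ A = 0) :
    ∃ m : ℕ, ψ 1 = m ∧ (m = 1 ∨ m + 1 = #|A|) := by
  classical
  have hK' := irrOn_of_sumOn hs hA hψ h0
  obtain ⟨m, hm⟩ := hψ.charOn.nat
  have m0 : 0 < m := Nat.pos_of_ne_zero fun e => hψ.ne_zero (by rw [hm, e, Nat.cast_zero])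
  have hn : ∀ y ∈ A, y ≠ 1 → ‖ψ y‖ = 1 := fun y hy y1 =>
    cen_norm hs.nrm hψ.charOn hK' (hs.right_le hy) (hc.coprime_dvd_right (order_dvdG hy))
      ((prime_semiprime P hA y hy y1).trans hz)
  have hle : m + 1 ≤ #|A| := by
    rw [sumOn_eq, ← Finset.add_sum_erase _ _ (Finset.mem_univ 1), add_eq_zero_iff_eq_neg] at h0
    have h4 := congrArg norm h0
    rw [norm_neg, OneMemClass.coe_one, hm, Complex.norm_natCast] at h4
    have h5 := norm_sum_le ((Finset.univ : Finset A).erase 1) fun y : A => ψ y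
    rw [← h4, Finset.sum_congr rfl (g := fun _ => 1) fun (y : A) hy =>
      hn y y.2 fun e => (Finset.mem_erase.1 hy).1 (Subtype.ext e), Finset.sum_const,
      Finset.card_erase_of_mem (Finset.mem_univ _), Finset.card_univ, ← Nat.card_eq_fintype_card,
      nsmul_eq_mul, mul_one, Nat.cast_le] at h5
    have := hA.pos
    omega
  refine ⟨m, hm, ?_⟩
  rcases char25 (prime_cyclic hA) (hψ.charOn.mono hs.right_le) m0 hm hn with h | h
  · exact Or.inr (le_antisymm hle (Nat.le_of_dvd (by omega) h))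
  · left
    by_contra hne
    have := Nat.le_of_dvd (by omega) h
    omega

theorem sumOn_zero (h : CharOn L ψ) (h' : CharOn L (χ - ψ)) (hH : H ≤ L) (h0 : sumOn χ H = 0) :
    sumOn ψ H = 0 := by
  obtain ⟨n, hn⟩ := h.sumOn_nat hH
  obtain ⟨m, hm⟩ := h'.sumOn_nat hH
  rw [sumOn_sub, h0, hn, zero_sub, neg_eq_iff_add_eq_zero, ← mul_add, mul_eq_zero,
    or_iff_right (card_ne_zero_complex _), ← Nat.cast_add, Nat.cast_eq_zero] at hm
  rw [hn, show n = 0 by omega, Nat.cast_zero, mul_zero]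

namespace Cen

variable (h : Cen V X W a)
include h

theorem eq (hb : Base p r V X a) {w w' : G} (hw : w ∈ W) (hw' : w' ∈ W) (h1 : w ≠ 1) (h2 : w' ≠ 1) :
    w = w' := by
  have : w⁻¹ * w' ∈ X ⊓ 𝐂(V) := ⟨h.le (mul_mem (inv_mem hw) hw'), fun v hv => by
    calc v * (w⁻¹ * w') = w⁻¹ * (w * v * w⁻¹) * w * w⁻¹ * w' := by group
      _ = w⁻¹ * (w' * v * w'⁻¹) * w * w⁻¹ * w' := by rw [h.inv w hw h1 v hv, h.inv w' hw' h2 v hv]
      _ = w⁻¹ * w' * v := by group⟩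
  rw [hb.faith, mem_bot, inv_mul_eq_one] at this
  exact this

theorem card (hb : Base p r V X a) (hne : W ≠ ⊥) : #|W| = 2 := by
  obtain ⟨w, hw, w1⟩ := trivgPn.1 hne
  have : W = zpowers w := le_antisymm (fun x hx => by
    by_cases e : x = 1
    · rw [e]; exact one_mem _
    · rw [h.eq hb hx hw e w1]; exact mem_zpowers w) (zpowers_le.2 hw)
  rw [this, card_cycle, orderOf_eq_prime (by rw [pow_two, h.two w hw]) w1]

theorem fix [hp : Fact p.Prime] (hb : Base p r V X a) {w : G} (hw : w ∈ W) (h1 : w ≠ 1) :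
    V ⊓ 𝐂(zpowers w) = ⊥ := by
  rw [cent_cycle, eq_bot_iff]
  intro v hv
  have h2 := h.inv w hw h1 v hv.1
  rw [cent1_conj'.1 hv.2, eq_inv_iff_mul_eq_one, ← pow_two] at h2
  exact orderOf_eq_one_iff.1 (Nat.eq_one_of_dvd_coprimes
    ((Nat.coprime_primes hp.out Nat.prime_two).2 hb.p2)
    (orderOf_dvd_of_pow_eq_one (abelem_pow hb.ab hv.1)) (orderOf_dvd_of_pow_eq_one h2))

end Cen

namespace YY

variable [hp : Fact p.Prime] (hb : Base p r V X a) (hW : Cen V X W a) (hs : Sp R a) (hR : R ≤ X)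
  (h : YY W R Y a)
include hs h

theorem nonab : ¬ IsMulCommutative Y := fun e =>
  h.ne (h.comm ▸ comm_bot.2 (hs.star Y h.le h.aY e))

theorem cent_a : Y ⊓ 𝐂(zpowers a) = 𝐙(Y) := by
  rw [cent_cycle]
  exact le_antisymm (fun x hx => ⟨hx.1, centS h.le ((hs.cen x (h.le hx.1)).1
    (mem_cent1'.1 hx.2)).2⟩) (le_inf inf_le_left (hs.star _ (inf_le_left.trans h.le)
      (norms_center (norms_cycle.2 h.aY) (mem_zpowers a)) (center_abelian Y)))

theorem center_le : 𝐙(Y) ≤ ⁅Y, Y⁆ := by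
  have hn := norms_cycle.2 h.aY
  have := der_abelian Y
  have h3 := Solv.centralizer_inf_commutator_eq_bot (quotient_norms ⁅Y, Y⁆ hn)
    (coprime_quotient ⁅Y, Y⁆ (hs.copS h.le).symm)
  rw [← quotientR (der_norm Y) (norms_der hn), h.comm, inf_eq_left.2 inf_le_left] at h3
  exact (h.cent_a hs).ge.trans
    ((quotient_sub1 (inf_le_left.trans (der_norm Y))).1 ((quotient_subcent _ _ _).trans h3.le))

include hb hW

theorem der_eq : ⁅Y, Y⁆ = W := by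
  have h1 : ⁅Y, Y⁆ ≠ ⊥ := mt derG1P.1 (h.nonab hs)
  have h2 := hW.card hb fun e => h1 (le_bot_iff.1 (e ▸ h.der))
  exact prime_eq_of_le (h2 ▸ Nat.prime_two) h.der h1

include hR

theorem center_eq : 𝐙(Y) = W :=
  le_antisymm ((h.center_le hs).trans h.der) (le_inf (h.der_eq hb hW hs ▸ der_sub Y)
    (hW.cX.trans (centS (h.le.trans hR))))

theorem extra : Extraspecial 2 Y := by
  have h1 := h.center_eq hb hW hs hR
  refine extraspecial_of (pgroup_sub h.le hs.p2) (h1 ▸ hW.card hb fun e => ?_) (h1 ▸ h.der)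
    (h.nonab hs)
  exact h.nonab hs (derG1P.1 (le_bot_iff.1 (e ▸ h.der)))

theorem deg {n : ℕ} (hn : #|Y| = 2 ^ (2 * n + 1)) (n0 : 0 < n) (hχ : CharOn (Y ⊔ zpowers a) χ)
    (h0 : sumOn χ (zpowers a) = 0) {w : G} (hw : w ∈ W) (hne : χ w ≠ χ 1) :
    2 ^ n + 1 = r ∧ ∃ ψ, IrrOn Y ψ ∧ CharOn (Y ⊔ zpowers a) ψ ∧ CharOn (Y ⊔ zpowers a) (χ - ψ) ∧
      ψ 1 = (2 ^ n : ℕ) := by
  have hwZ : w ∈ 𝐙(Y) := h.center_eq hb hW hs hR ▸ hw
  obtain ⟨ψ, h1, h2, h3⟩ := hχ.exists_irr (mem_sup_left hwZ.1) hne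
  have h4 := sumOn_zero h1.charOn h2 le_sup_right h0
  have hd := sdprod_coprime (norms_cycle.2 h.aY) (hs.copS h.le)
  have h5 := irrOn_of_sumOn hd hb.prime_a h1 h4
  have h6 := extra_deg (h.extra hb hW hs hR) hn h5 hwZ h3
  obtain ⟨m, hm, h7⟩ := deg_eq hd hb.prime_a (hs.copS h.le) (h.cent_a hs) h1 h4
  rw [h6, Nat.cast_inj] at hm
  have := Nat.one_lt_pow n0.ne' one_lt_two
  exact ⟨by rw [← hb.card_a]; omega, ψ, h5, h1.charOn, h2, h6⟩

theorem lift : ∃ χ : G → ℂ, CharOn (R ⊔ zpowers a) χ ∧ sumOn χ (zpowers a) = 0 ∧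
    (∀ w ∈ W, w ≠ 1 → sumOn χ (zpowers w) = 0) ∧ ∀ x ∈ R, χ x = χ 1 → x = 1 := by
  have hX : X ≠ ⊥ := fun e => h.ne (le_bot_iff.1 (e ▸ h.le.trans hR))
  obtain ⟨χ, h1, h2, h3⟩ := exists_lift hb.ab (sup_le (hR.trans hb.XV) (norms_cycle.2 hb.aV))
    (hb.piG hX hs.aR (pgroup_p'group hs.p2 hb.p2.symm))
  have key : ∀ H ≤ R ⊔ zpowers a, V ⊓ 𝐂(H) = ⊥ → sumOn χ H = 0 := fun H hH e => by
    obtain ⟨n, h4, h5⟩ := h2 H hH
    rw [e, card_bot, eq_comm, Nat.pow_eq_one, or_iff_right hp.out.ne_one] at h4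
    rw [h5, h4, Nat.cast_zero, mul_zero]
  refine ⟨χ, h1, key _ le_sup_right (by rw [cent_cycle, hb.fpf]), fun w hw w1 =>
    key _ (zpowers_le.2 (mem_sup_left (h.le (h.center_eq hb hW hs hR ▸ hw : w ∈ 𝐙(Y)).1)))
      (hW.fix hb hw w1), fun x hx e => ?_⟩
  exact mem_bot.1 (hb.faith ▸ (⟨hR hx, h3 x (mem_sup_left hx) e⟩ : x ∈ X ⊓ 𝐂(V)))

/-- (EX) -/
theorem card : ∃ n, 0 < n ∧ #|Y| = 2 ^ (2 * n + 1) ∧ 2 ^ n + 1 = r := by
  obtain ⟨n, n0, hn⟩ := (h.extra hb hW hs hR).card_eq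
  obtain ⟨χ, h1, h2, -, h4⟩ := h.lift hb hW hs hR
  obtain ⟨w, hw, w1⟩ := trivgPn.1 (h.extra hb hW hs hR).center_ne_bot
  exact ⟨n, n0, hn, (h.deg hb hW hs hR hn n0 (h1.mono (sup_le_sup_right h.le _)) h2
    (h.center_eq hb hW hs hR ▸ hw) fun e => w1 (h4 w (h.le hw.1) e)).1⟩

/-- (Y) -/
theorem cent_le : R ⊓ 𝐂(Y) ≤ 𝐙(R) := by
  obtain ⟨n, n0, hn⟩ := (h.extra hb hW hs hR).card_eq
  obtain ⟨χ, h1, h2, h3, h4⟩ := h.lift hb hW hs hR
  obtain ⟨w, hw, w1⟩ := trivgPn.1 (h.extra hb hW hs hR).center_ne_bot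
  have hwW : w ∈ W := h.center_eq hb hW hs hR ▸ hw
  intro c hc
  refine (hs.cen c hc.1).1 (commutatorElement_eq_one_iff_commute.1 ?_).symm
  have hx : ⁅a, c⁆ ∈ R := mul_mem ((memJ_norm hs.aR).2 hc.1) (inv_mem hc.1)
  by_contra hne
  obtain ⟨ψ, h5, h6, h7⟩ := h1.exists_irr (mem_sup_left hx) fun e => hne (h4 _ hx e)
  have h8 := sumOn_zero h5.charOn h6 le_sup_right h2
  have hwL : zpowers w ≤ R ⊔ zpowers a := zpowers_le.2 (mem_sup_left (h.le hw.1))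
  have h9 : ψ w ≠ ψ 1 := fun e => by
    have := sumOn_zero h5.charOn h6 hwL (h3 w hwW w1)
    rw [sumOn_const (c := ψ 1) fun x hx => (h5.charOn.mem_ker.1 (zpowers_le.2
      (h5.charOn.mem_ker.2 ⟨hwL (mem_zpowers w), e⟩) hx)).2, nsmul_eq_mul, mul_eq_zero,
      or_iff_right (card_ne_zero_complex _)] at this
    exact h5.ne_zero this
  obtain ⟨m, hm, h10⟩ := deg_eq (sdprod_coprime (norms_cycle.2 hs.aR) hs.cop) hb.prime_a hs.cop
    (by rw [cent_cycle]; exact le_antisymm (fun x hx => (hs.cen x hx.1).1 (mem_cent1'.1 hx.2))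
          fun x hx => ⟨hx.1, mem_cent1'.2 (hs.ca hx)⟩) h5 h8
  obtain ⟨e1, θ, h11, -, h12, h13⟩ := h.deg hb hW hs hR hn n0
    (h5.charOn.mono (sup_le_sup_right h.le _)) h8 hwW h9
  obtain ⟨j, hj⟩ := h12.nat
  rw [Pi.sub_apply, hm, h13, sub_eq_iff_eq_add, ← Nat.cast_add, Nat.cast_inj] at hj
  have := Nat.one_lt_pow n0.ne' one_lt_two
  rw [hb.card_a] at h10
  have j0 : j = 0 := by omega
  have h14 := eq_zero_of_isChar_of_apply_one h12 (by
    change ψ 1 - θ 1 = 0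
    rw [hm, h13, hj, j0, zero_add, sub_self])
  have h15 : IrrOn Y ψ := by
    unfold IrrOn
    rw [funext fun y : Y => sub_eq_zero.1 (congrFun h14 ⟨y, mem_sup_left y.2⟩)]
    exact h11
  have hle : Y ⊔ zpowers c ≤ R ⊔ zpowers a := (sup_le h.le (zpowers_le.2 hc.1)).trans le_sup_left
  have h16 : IrrOn (Y ⊔ zpowers c) ψ :=
    Block.isIrr_of_isIrr_comp (h5.charOn.mono hle) (inclusion le_sup_left) h15
  have h17 := h16.central_norm (z := c) ⟨mem_sup_right (mem_zpowers c), by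
    rw [centY, cent_cycle]; exact ⟨hc.2, cent1id c⟩⟩
  exact h7 (apply_commutator_of_norm_eq h5.charOn (x := ⟨c, mem_sup_left hc.1⟩) h17
    ⟨a, mem_sup_right (mem_zpowers a)⟩)

/-- (Y') -/
theorem mem_mul (ht : t ∈ R) (hc : ∀ y ∈ Y, ⁅y, t⁆ ∈ W) : ∃ y ∈ Y, ∃ z ∈ 𝐙(R), t = y * z := by
  have hle : Y ⊔ zpowers t ≤ R := sup_le h.le (zpowers_le.2 ht)
  have hWn : ∀ x ∈ X, x ∈ 𝐍(W) := fun x hx => cent_sub W (centsC.1 hW.cX hx)
  have := BG4P.critical_extraspecial (pgroup_sub hle hs.p2) le_sup_left (h.extra hb hW hs hR) (by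
    rw [h.der_eq hb hW hs, commGC]
    refine commMG_le (fun x hx => hWn x (hR (h.le hx))) h.der (commg_le.2 fun x hx y hy => ?_)
      fun x hx => hWn x (hR (hle (mem_sup_right hx)))
    obtain ⟨i, rfl⟩ := (mem_powers_iff_mem_zpowers).2 hx
    change ⁅t ^ i, y⁆ ∈ W
    rw [commXg ((hs.cz ht (h.le hy)).2 t ht), hs.csymm ht (h.le hy)]
    exact pow_mem (hc y hy) i)
  obtain ⟨y, hy, z, hz, e⟩ := this.exists (mem_sup_right (mem_zpowers t))
  exact ⟨y, hy, z, h.cent_le hb hW hs hR ⟨hle hz.1, hz.2⟩, e.symm⟩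

end YY

/-- (L') -/
theorem Sp.exists_YY [Fact p.Prime] (hb : Base p r V X a) (hW : Cen V X W a) (hs : Sp R a)
    (hR : R ≤ X) (hk : k ∈ 𝐍(R)) (hka : Commute k a) (h2 : k * k ∈ 𝐂(R))
    (hZ : ∀ z ∈ 𝐙(R), z⁻¹ * (k * z * k⁻¹) ∈ W) (hn : k ∉ 𝐂(R)) :
    ∃ Y, YY W R Y a ∧ Y ≤ hs.mv k hk ∧ ∀ e ∈ Sp.fixm R k hk, ∃ y ∈ Y, ∃ z ∈ 𝐙(R), e = y * z := by
  have hle := comm_le (hs.norm_mv (hk := hk) hka)
  have hY : YY W R ⁅hs.mv k hk, zpowers a⁆ a := ⟨hle.trans hs.mv_le, norm_comm _ _,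
    hs.commid hs.mv_le (hs.norm_mv hka), fun e => hn (hs.cent_of_fixm hk hka fun t ht =>
      (hs.cen _ (hs.mv_le (hs.mem_mv_self (hk := hk) ht))).1
        (mem_cent1'.1 (comm_bot.1 e (hs.mem_mv_self ht)))),
    commg_le.2 fun x hx y hy => hs.comm_mv_fixm hka hZ (hle hx) (hs.mv_le_fixm h2 (hle hy))⟩
  exact ⟨_, hY, hle, fun e he => hY.mem_mul hb hW hs hR he.1 fun y hy =>
    hs.comm_mv_fixm hka hZ (hle hy) he⟩

end Cfsg.Agent.FP
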