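import Cfsg.Agent.Lib.FT.Main

/-! Fixed point free actions of a group of prime order: definitions (see `docs/FPF_PLAN.md`). -/

open Subgroup

namespace Cfsg.Agent.FP

open FT Tr

universe u

variable {G : Type u} [Group G]

/-- `X⟨a⟩` acts on the elementary abelian group `V`, `X` faithfully and `a` without fixed points. -/
structure Base (p r : ℕ) (V X : Subgroup G) (a : G) : Prop where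
  p2 : p ≠ 2
  rp : r.Prime
  r2 : r ≠ 2
  ab : Abelem p V
  XV : X ≤ 𝐍(V)
  aV : a ∈ 𝐍(V)
  aX : a ∈ 𝐍(X)
  ord : orderOf a = r
  rX : ¬ r ∣ #|X|
  rV : ¬ r ∣ #|V|
  fpf : V ⊓ 𝐂[a] = ⊥
  faith : X ⊓ 𝐂(V) = ⊥

/-- The structure of `R = [R, a]`. -/
structure Sp (R : Subgroup G) (a : G) : Prop where
  p2 : IsPGroup 2 R
  aR : a ∈ 𝐍(R)
  cop : (#|R|).Coprime #|zpowers a|
  comm : ⁅R, zpowers a⁆ = R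
  cen : ∀ x ∈ R, Commute x a ↔ x ∈ 𝐙(R)
  der : ⁅R, R⁆ = 𝐙(R)
  sq : ∀ x ∈ R, x * x ∈ 𝐙(R)
  two : ∀ z ∈ 𝐙(R), z * z = 1
  star : ∀ B ≤ R, a ∈ 𝐍(B) → IsMulCommutative B → B ≤ 𝐂[a]

/-- `W` is a group of central involutions of `X` which invert `V`. -/
structure Cen (V X W : Subgroup G) (a : G) : Prop where
  le : W ≤ X
  cX : W ≤ 𝐂(X)
  ca : W ≤ 𝐂[a]
  two : ∀ w ∈ W, w * w = 1
  inv : ∀ w ∈ W, w ≠ 1 → ∀ v ∈ V, w * v * w⁻¹ = v⁻¹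

/-- The invariant subgroups `Y = [Y, a] ≠ 1` of `R` with `Y' ≤ W`. -/
structure YY (W R Y : Subgroup G) (a : G) : Prop where
  le : Y ≤ R
  aY : a ∈ 𝐍(Y)
  comm : ⁅Y, zpowers a⁆ = Y
  ne : Y ≠ ⊥
  der : ⁅Y, Y⁆ ≤ W

/-- The quasisimple configuration. -/
structure QS (p r : ℕ) (V X W R : Subgroup G) (a : G) : Prop where
  base : Base p r V X a
  cen : Cen V X W a
  allW : ∀ w ∈ X, w ∈ 𝐂(X) → w * w = 1 → w ∈ W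
  sp : Sp R a
  le : R ≤ X
  ne : R ≠ ⊥
  nrm : ∀ N ≤ X, X ≤ 𝐍(N) → a ∈ 𝐍(N) → N ≤ 𝐂(X) ∨ N = X
  ctl : ∀ H ≤ X, H ≠ X → a ∈ 𝐍(H) → R ≤ H → H ≤ 𝐍(R)
  dec : ∀ g ∈ X, g ∈ 𝐍(R) → ∃ t ∈ R, ∃ k ∈ X, Commute k a ∧ g = t * k
  p'N : ¬ p ∣ #|X ⊓ 𝐍(R)|
  syl : ∃ T, IsSylowIn 2 T X ∧ T ≤ 𝐍(R)
  perf : ⁅X, X⁆ = X
  comm : ⁅X, zpowers a⁆ = X

/-- `X` acts on `V` as a `p`-closed group. -/
def PC (p : ℕ) (V X : Subgroup G) : Prop :=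
  ∀ x ∈ X, ∀ y ∈ X, PiElt {p} x → PiElt {p} y → ∃ n : ℕ, (x * y) ^ p ^ n ∈ 𝐂(V)

/-- Row K. -/
def KStmt : Prop :=
  ∀ (G : Type u) [Group G] [Finite G] (p r : ℕ) [Fact p.Prime] (V X : Subgroup G) (a : G),
    p ≠ 2 → r.Prime → IsPGroup p V → X ≤ 𝐍(V) → a ∈ 𝐍(V) → a ∈ 𝐍(X) → a ^ r = 1 → ¬ r ∣ #|X| →
    V ⊓ X = ⊥ → V ⊓ 𝐂[a] = ⊥ → ¬ p ∣ #|X ⊓ 𝐂[a]| → PC p V X

/-- Row A. -/
def AStmt : Prop :=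
  ∀ (G : Type u) [Group G] [Finite G] (p r : ℕ) [Fact p.Prime] (V X : Subgroup G) (a x : G),
    p ≠ 2 → r.Prime → Abelem p V → X ≤ 𝐍(V) → a ∈ 𝐍(V) → a ∈ 𝐍(X) → a ^ r = 1 → ¬ r ∣ #|X| →
    X ⊓ 𝐂(V) = ⊥ → V ⊓ 𝐂[a] = ⊥ → ¬ p ∣ #|X| → x ∈ X → x ≠ 1 →
    (∀ u ∈ ⁅V, zpowers x⁆, ∀ v ∈ ⁅V, zpowers x⁆, u ≠ 1 → v ≠ 1 →
      ∃ n : ℕ, x ^ n * u * (x ^ n)⁻¹ = v) → False

/-- Row QS. -/
def QSStmt : Prop :=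
  ∀ (G : Type u) [Group G] [Finite G] (p r : ℕ) [Fact p.Prime] (V X W R : Subgroup G) (a : G),
    QS p r V X W R a → False

end Cfsg.Agent.FP
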