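import Cfsg.Agent.Lib.FP.Defs
import Cfsg.Agent.Lib.Fus.Sylow

/-! Row F, group-theoretic part: rows K and A in the holomorph. -/

set_option autoImplicit false

open Subgroup

namespace Cfsg.Agent.FP

open FT

universe u

section Hol

variable {U : Type u} [Group U]

/-- The holomorph. -/
abbrev Hol (U : Type u) [Group U] : Type u := U ⋊[MonoidHom.id (MulAut U)] MulAut U

/-- `U` inside the holomorph. -/
abbrev holV (U : Type u) [Group U] : Subgroup (Hol U) :=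
  (SemidirectProduct.inl : U →* Hol U).range

/-- The automorphisms inside the holomorph. -/
abbrev holR (U : Type u) [Group U] : MulAut U →* Hol U := SemidirectProduct.inr

instance hol_finite [Finite U] : Finite (Hol U) :=
  Finite.of_equiv _ SemidirectProduct.equivProd.symm

theorem hol_conj (β : MulAut U) (x : U) :
    holR U β * SemidirectProduct.inl x * (holR U β)⁻¹ = SemidirectProduct.inl (β x) := by
  rw [← map_inv]
  exact (SemidirectProduct.inl_aut (φ := MonoidHom.id (MulAut U)) β x).symm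

theorem holV_normal : (holV U).Normal := by
  rw [holV, SemidirectProduct.range_inl_eq_ker_rightHom]
  infer_instance

theorem le_norm_holV (H : Subgroup (Hol U)) : H ≤ 𝐍(holV U) := by
  have := holV_normal (U := U)
  rw [normalizer_eq_top]
  exact le_top

theorem holR_inj : Function.Injective (holR U) := SemidirectProduct.inr_injective

theorem eq_one_of_cent {β : MulAut U} (h : holR U β ∈ 𝐂(holV U)) : β = 1 := by
  ext x
  have h1 := h (SemidirectProduct.inl x) ⟨x, rfl⟩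
  have h2 := hol_conj β x
  rw [← h1, mul_inv_cancel_right] at h2
  simpa using (SemidirectProduct.inl_injective h2).symm

theorem holV_inf_cent {a : MulAut U} (hfix : ∀ x, a x = x → x = 1) :
    holV U ⊓ 𝐂[holR U a] = ⊥ := by
  refine eq_bot_iff.2 ?_
  rintro _ ⟨⟨x, rfl⟩, h⟩
  have h1 := h (holR U a) rfl
  have h2 := hol_conj a x
  rw [h1, mul_inv_cancel_right] at h2
  rw [hfix x (SemidirectProduct.inl_injective h2).symm]
  simp

theorem holR_norm {a : MulAut U} {X : Subgroup (MulAut U)} (h : a ∈ 𝐍(X)) :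
    holR U a ∈ 𝐍(X.map (holR U)) := le_normalizer_map (holR U) ⟨a, h, rfl⟩

theorem card_map_holR (X : Subgroup (MulAut U)) : #|X.map (holR U)| = #|X| :=
  card_map_of_injective holR_inj

theorem map_inf_cent (X : Subgroup (MulAut U)) (a : MulAut U) :
    X.map (holR U) ⊓ 𝐂[holR U a] = (X ⊓ 𝐂[a]).map (holR U) := by
  ext g
  constructor
  · rintro ⟨⟨x, hx, rfl⟩, h⟩
    refine ⟨x, ⟨hx, mem_centralizer_singleton_iff.2 (holR_inj ?_)⟩, rfl⟩
    rw [map_mul, map_mul]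
    exact mem_centralizer_singleton_iff.1 h
  · rintro ⟨x, ⟨hx, h⟩, rfl⟩
    refine ⟨⟨x, hx, rfl⟩, mem_centralizer_singleton_iff.2 ?_⟩
    rw [← map_mul, ← map_mul, mem_centralizer_singleton_iff.1 h]

end Hol

theorem piElt_of_pow {G : Type*} [Group G] {p : ℕ} (hp : p.Prime) {x : G} {k : ℕ}
    (h : x ^ p ^ k = 1) : PiElt {p} x := fun q hq hd =>
  (Nat.prime_dvd_prime_iff_eq hq hp).1 (hq.dvd_of_dvd_pow (hd.trans (orderOf_dvd_of_pow_eq_one h)))

theorem coprime_zpowers {G : Type*} [Group G] {r : ℕ} (hr : r.Prime) {a : G} (ha : a ^ r = 1)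
    {n : ℕ} (hn : ¬ r ∣ n) : n.Coprime #|zpowers a| := by
  rw [Nat.card_zpowers]
  exact ((hr.coprime_iff_not_dvd.2 hn).symm).coprime_dvd_right (orderOf_dvd_of_pow_eq_one ha)

theorem holK (hK : KStmt.{u}) {U : Type u} [Group U] [Finite U] {p r : ℕ} [Fact p.Prime]
    (hp : p ≠ 2) (hr : r.Prime) (hU : IsPGroup p (⊤ : Subgroup U)) {X A : Subgroup (MulAut U)}
    {a : MulAut U} (haX : a ∈ 𝐍(X)) (haA : a ∈ 𝐍(A)) (har : a ^ r = 1) (hrX : ¬ r ∣ #|X|)
    (hA : Fus.IsSylowIn p A X) (hfix : ∀ x, a x = x → x = 1)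
    (hfixA : ∀ β ∈ A, β * a = a * β → β = 1) : ∀ g ∈ X, ∀ k ∈ A, g * k * g⁻¹ ∈ A := by
  have hp' : p.Prime := Fact.out
  have hs : Solv.IsSylowIn p A X := ⟨hA.le, hA.isPGroup, hA.not_dvd_relIndex⟩
  have h1 := sol_coprime_Sylow_cent (A := zpowers a) (zpowers_le_of_mem haX)
    (coprime_zpowers hr har hrX) (Or.inl (Group.isSolvable_of_comm fun x y => mul_comm' x y)) hs
    (zpowers_le_of_mem haA)
  have hc : 𝐂(zpowers a) = 𝐂[a] := by
    rw [zpowers_eq_closure, centralizer_closure]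
  rw [hc] at h1
  have h2 : A ⊓ 𝐂[a] = ⊥ := eq_bot_iff.2 fun β hβ =>
    hfixA β hβ.1 (mem_centralizer_singleton_iff.1 hβ.2)
  have h3 := h1.not_dvd
  rw [h2, relIndex_bot_left] at h3
  have hV : IsPGroup p (holV U) := by
    rw [holV, MonoidHom.range_eq_map]
    exact hU.map _
  have hPC := hK (Hol U) p r (holV U) (X.map (holR U)) (holR U a) hp hr hV (le_norm_holV _)
    (le_norm_holV ⊤ trivial) (holR_norm haX) (by rw [← map_pow, har, map_one])
    (by rwa [card_map_holR]) (eq_bot_iff.2 ?_) (holV_inf_cent hfix)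
    (by rwa [map_inf_cent, card_map_holR])
  swap
  · rintro _ ⟨⟨x, rfl⟩, β, -, e⟩
    have h4 := congrArg SemidirectProduct.left e
    simp only [SemidirectProduct.left_inr, SemidirectProduct.left_inl] at h4
    rw [← h4]
    simp
  let B : Subgroup (MulAut U) :=
    { carrier := {x | x ∈ X ∧ ∃ k, x ^ p ^ k = 1}
      one_mem' := ⟨X.one_mem, 0, one_pow _⟩
      inv_mem' := fun ⟨h, k, e⟩ => ⟨X.inv_mem h, k, by rw [inv_pow, e, inv_one]⟩
      mul_mem' := fun {x y} ⟨hx, k, e⟩ ⟨hy, l, e'⟩ => ⟨X.mul_mem hx hy, by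
        obtain ⟨n, hn⟩ := hPC _ ⟨x, hx, rfl⟩ _ ⟨y, hy, rfl⟩ ((piElt_of_pow hp' e).map _)
          ((piElt_of_pow hp' e').map _)
        rw [← map_mul, ← map_pow] at hn
        exact ⟨n, eq_one_of_cent hn⟩⟩ }
  have hA' : ∀ k ∈ A, ∃ n, k ^ p ^ n = 1 := fun k hk => by
    obtain ⟨n, hn⟩ := hA.isPGroup ⟨k, hk⟩
    exact ⟨n, congrArg Subtype.val hn⟩
  have hB : B = A := hA.eq_of_le (fun ⟨x, hx, k, e⟩ => ⟨k, Subtype.ext e⟩)
    (fun k hk => ⟨hA.le hk, hA' k hk⟩) fun x hx => hx.1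
  intro g hg k hk
  rw [← hB]
  obtain ⟨n, hn⟩ := hA' k hk
  exact ⟨X.mul_mem (X.mul_mem hg (hA.le hk)) (X.inv_mem hg), n, by rw [conj_pow, hn]; simp⟩

theorem holA (hA : AStmt.{u}) {T : Type u} [Group T] [Finite T] {p r : ℕ} [Fact p.Prime]
    (hp : p ≠ 2) (hr : r.Prime) (hc : ∀ x y : T, x * y = y * x) (he : ∀ x : T, x ^ p = 1)
    {X : Subgroup (MulAut T)} {a : MulAut T} (haX : a ∈ 𝐍(X)) (har : a ^ r = 1)
    (hrX : ¬ r ∣ #|X|) (hpX : ¬ p ∣ #|X|) (hfix : ∀ x, a x = x → x = 1) {β : MulAut T}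
    (hβ : β ∈ X) (hβ1 : β ≠ 1)
    (ht : ∀ u v : T, u ∈ closure {y : T | ∃ ψ ∈ zpowers β, ∃ t : T, y = ψ t * t⁻¹} →
      v ∈ closure {y : T | ∃ ψ ∈ zpowers β, ∃ t : T, y = ψ t * t⁻¹} → u ≠ 1 → v ≠ 1 →
      ∃ ψ ∈ zpowers β, ψ u = v) : False := by
  have hle : ⁅holV T, zpowers (holR T β)⁆ ≤
      (closure {y : T | ∃ ψ ∈ zpowers β, ∃ t : T, y = ψ t * t⁻¹}).map SemidirectProduct.inl := by
    refine commutator_le.2 ?_
    rintro _ ⟨t, rfl⟩ _ ⟨n, rfl⟩
    refine ⟨((β ^ n) t * t⁻¹)⁻¹, inv_mem (subset_closure ⟨β ^ n, ⟨n, rfl⟩, t, rfl⟩), ?_⟩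
    have h1 := hol_conj (β ^ n) t
    rw [map_zpow] at h1
    rw [map_inv, map_mul, ← h1, map_inv, commutatorElement_def]
    group
  refine hA (Hol T) p r (holV T) (X.map (holR T)) (holR T a) (holR T β) hp hr ⟨?_, ?_⟩
    (le_norm_holV _) (le_norm_holV ⊤ trivial) (holR_norm haX) (by rw [← map_pow, har, map_one])
    (by rwa [card_map_holR]) (eq_bot_iff.2 ?_) (holV_inf_cent hfix) (by rwa [card_map_holR])
    ⟨β, hβ, rfl⟩ (fun e => hβ1 (holR_inj (by rw [e, map_one]))) fun u hu v hv hu1 hv1 => ?_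
  · refine ⟨⟨?_⟩⟩
    rintro ⟨_, x, rfl⟩ ⟨_, y, rfl⟩
    refine Subtype.ext ?_
    show (SemidirectProduct.inl x * SemidirectProduct.inl y : Hol T) =
      SemidirectProduct.inl y * SemidirectProduct.inl x
    rw [← map_mul, ← map_mul, hc]
  · rintro _ ⟨x, rfl⟩
    rw [← map_pow, he, map_one]
  · rintro _ ⟨⟨x, -, rfl⟩, h⟩
    rw [eq_one_of_cent h]
    simp
  · obtain ⟨u, hu', rfl⟩ := hle hu
    obtain ⟨v, hv', rfl⟩ := hle hv
    obtain ⟨ψ, hψ, e⟩ := ht u v hu' hv' (fun e => hu1 (by rw [e, map_one]))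
      fun e => hv1 (by rw [e, map_one])
    obtain ⟨n, rfl⟩ := mem_powers_iff_mem_zpowers.2 hψ
    exact ⟨n, by rw [← map_pow, hol_conj, ← e]⟩

end Cfsg.Agent.FP
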