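import Cfsg.Agent.Lib.FP.F1
import Cfsg.Agent.Lib.ZJ.WkCl
import Cfsg.Agent.Lib.ZJ.Quot
import Cfsg.Agent.Lib.Fus.Normal

/-! Row F: a fusion system with a fixed point free automorphism of prime order. -/

set_option autoImplicit false

namespace Cfsg.Agent.FP

open Cfsg Cfsg.FusionSystem Cfsg.Agent.Fus2 Cfsg.Agent.ZJF

universe u

section

variable {Ω Ω' : Type*} [Group Ω] [Group Ω'] {S : Subgroup Ω} {F : FusionSystem S} {p r : ℕ}

omit [Group Ω'] in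
theorem iter_rel {P : Subgroup Ω} {f : Ω → Ω} {g : Ω' → Ω'} {t : Ω → Ω'} (hf : ∀ x ∈ P, f x ∈ P)
    (e : ∀ x ∈ P, g (t x) = t (f x)) (n : ℕ) : ∀ x ∈ P, g^[n] (t x) = t (f^[n] x) := by
  induction n with
  | zero => exact fun _ _ => rfl
  | succ n ih =>
    intro x hx
    rw [Function.iterate_succ_apply, Function.iterate_succ_apply, e x hx, ih _ (hf x hx)]

theorem iter_mem {P : Subgroup Ω} {f : Ω → Ω} (hf : ∀ x ∈ P, f x ∈ P) (n : ℕ) :
    ∀ x ∈ P, f^[n] x ∈ P := by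
  induction n with
  | zero => exact fun _ h => h
  | succ n ih => exact fun x hx => ih _ (hf x hx)

theorem afn_pow_iter {P : Subgroup Ω} (α : MulAut P) (n : ℕ) (x : Ω) :
    afn (α ^ n) x = (afn α)^[n] x := by
  induction n generalizing x with
  | zero => rw [pow_zero, afn_one]; rfl
  | succ n ih => rw [pow_succ, afn_mul, ih, Function.iterate_succ_apply]

/-- No automorphism in the system has order divisible by `r`. -/
def Cop (F : FusionSystem S) (r : ℕ) (P : Subgroup Ω) : Prop :=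
  ∀ f, M F P f → (∀ x ∈ P, f x ∈ P) → ∃ n, ¬ r ∣ n ∧ ∀ x ∈ P, f^[n] x = x

theorem Cop.not_dvd [Finite S] {P : Subgroup Ω} (h : Cop F r P) (hr : r.Prime) (hP : P ≤ S) :
    ¬ r ∣ Nat.card (F.autGroup P) := fun hd => by
  have := finite_of_le hP
  have := Fact.mk hr
  obtain ⟨β, hβ⟩ := exists_prime_orderOf_dvd_card' r hd
  obtain ⟨n, hn, e⟩ := h _ ((mem_autGroup_iff hP).1 β.2) fun x hx => afn_mem _ hx
  refine hn (hβ ▸ orderOf_dvd_of_pow_eq_one (Subtype.ext (aut_ext fun x hx => ?_)))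
  rw [Subgroup.coe_pow, afn_pow_iter, e x hx, Subgroup.coe_one, afn_one]

theorem cop_of_not_dvd [Finite S] {P : Subgroup Ω} (h : ¬ r ∣ Nat.card (F.autGroup P)) :
    Cop F r P := fun f hf hfP => by
  obtain ⟨α, hα, e⟩ := hf.exists_aut' hfP
  refine ⟨_, h, fun x hx => ?_⟩
  have h1 : α ^ Nat.card (F.autGroup P) = 1 :=
    congrArg Subtype.val (pow_card_eq_one' (x := (⟨α, hα⟩ : F.autGroup P)))
  have h2 := iter_rel (t := fun x => x) hfP e (Nat.card (F.autGroup P)) x hx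
  rw [← h2, ← afn_pow_iter, h1, afn_one]

theorem Cop.of_conj {P : Subgroup Ω} {φ : Ω → Ω} (hφ : M F P φ) (h : Cop F r (img P φ)) :
    Cop F r P := fun f hf hfP => by
  obtain ⟨g, hg, -, h1, h2, -⟩ := hφ.inv' rfl
  obtain ⟨n, hn, e⟩ := h (fun y => φ (f (g y)))
    ((hg.comp hf h2).comp hφ fun y hy => hfP _ (h2 y hy))
    fun y hy => mem_img_of_mem φ (hfP _ (h2 y hy))
  refine ⟨n, hn, fun x hx => hφ.inj _ (iter_mem hfP n x hx) _ hx ?_⟩
  rw [← iter_rel (g := fun y => φ (f (g y))) (t := φ) hfP (fun x hx => by rw [h1 x hx]) n x hx,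
    e _ (mem_img_of_mem φ hx)]

theorem cop_of_cr [Finite S] [Fact p.Prime] (hS : IsPGroup p S) (hF : F.IsSaturated p)
    (hcr : ∀ R : Subgroup Ω, F.IsCentric R → F.IsRadical p R → ¬ r ∣ Nat.card (F.autGroup R))
    (n : ℕ) : ∀ P, P ≤ S → Nat.card S - Nat.card P = n → Cop F r P := by
  induction n using Nat.strong_induction_on with
  | _ n IH =>
  intro P0 hP0 hn
  obtain ⟨φ, hφ, hP⟩ := sat_exists_normalizer_map hS hF hP0
  have hφ' := hφ.mono (Fus.le_normalizerIn hP0)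
  refine Cop.of_conj hφ' ?_
  rw [← hφ'.card_img] at hn
  generalize img P0 φ = P at hP hn
  have hO := Fus.autCore_le_autInducedBy (Fus.sat_automized hS hF hP)
  by_cases hN : normK S P (Fus.autCore F p P) ≤ P
  · refine cop_of_not_dvd (hcr P (Fus.isCentric_of_isFullyCentralized (Fus.sat_centralized hS hF hP)
      ((centralizerIn_le_normK _).trans hN)) ((Fus.isRadical_iff hS hP.1).2 fun β hβ => ?_))
    obtain ⟨g, hg, e⟩ := mem_autInducedBy_iff.1 (hO hβ)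
    exact mem_Inn_iff.2 ⟨g, hN (mem_normK.2 ⟨hg, β, hβ, e⟩), e⟩
  intro f hf hfP
  obtain ⟨α, hα, e⟩ := hf.exists_aut' hfP
  obtain ⟨k, hk, ek⟩ := ext_of_normalizes (Fus.sat_receptive hS hF hP) hO hα
    (fun a ha => Fus.conj_mem_autCore hα ha) (normK_le_normalizerIn _)
    fun g hg => (mem_normK_iff_conjAut.1 hg).2
  have hkP : ∀ x ∈ P, k x ∈ P := fun x hx => ek x hx ▸ afn_mem α hx
  have hlt := lt_sup_of_not_le hN
  have := finite_of_le hk.le
  have h1 := card_lt_of_lt hlt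
  have h2 : Nat.card (P ⊔ normK S P (Fus.autCore F p P) : Subgroup Ω) ≤ Nat.card S :=
    Fus.card_le_of_le' le_rfl hk.le
  obtain ⟨m, hm, em⟩ := IH _ (by omega) _ hk.le rfl k hk (hk.homOn.mem_of_sup
    (fun x hx => Subgroup.mem_sup_left (hkP x hx)) fun x hx => Subgroup.mem_sup_right
      (mem_normK_of_normal (fun g hg k hk => Fus.conj_mem_autCore hg hk) hk le_sup_left
        ((hk.mono le_sup_left).img_eq_self hkP) (Subgroup.mem_sup_right hx) hx))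
  refine ⟨m, hm, fun x hx => ?_⟩
  rw [← iter_rel (g := k) (t := fun x => x) hfP (fun x hx => (ek x hx).trans (e x hx)) m x hx]
  exact em x (Subgroup.mem_sup_left hx)

/-- `a` is a fixed point free automorphism of order dividing `r` of the system. -/
structure Ctx (F : FusionSystem S) (r : ℕ) (a : Ω → Ω) : Prop where
  rp : r.Prime
  hom : HomOn S a
  mem : ∀ x ∈ S, a x ∈ S
  ord : ∀ x ∈ S, a^[r] x = x
  fpf : ∀ x ∈ S, a x = x → x = 1
  mor : ∀ P f, M F P f → ∃ f', M F (img P a) f' ∧ ∀ x ∈ P, f' (a x) = a (f x)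
  cop : ∀ P, P ≤ S → Cop F r P

namespace Ctx

variable {a : Ω → Ω} (h : Ctx F r a)
include h

theorem inj : ∀ x ∈ S, ∀ y ∈ S, a x = a y → x = y := fun x hx y hy e => by
  obtain ⟨n, hn⟩ := Nat.exists_eq_add_one_of_ne_zero h.rp.ne_zero
  rw [← h.ord x hx, ← h.ord y hy, hn, Function.iterate_succ_apply, Function.iterate_succ_apply, e]

theorem img_eq [Finite S] {U : Subgroup Ω} (hU : U ≤ S) (ha : ∀ x ∈ U, a x ∈ U) : img U a = U := by
  have := finite_of_le hU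
  exact eq_of_le_of_card_le (img_le_iff.2 ha)
    ((h.hom.mono hU).card_img fun x hx y hy => h.inj x (hU hx) y (hU hy)).ge

theorem mem_of [Finite S] {C : Subgroup Ω} (hC : C ≤ S) (ha : ∀ x ∈ C, a x ∈ C) {s : Ω}
    (hs : s ∈ S) (e : s⁻¹ * a s ∈ C) : s ∈ C := by
  have := finite_of_le hC
  let t : C → C := fun y => ⟨y * (a y)⁻¹, C.mul_mem y.2 (C.inv_mem (ha _ y.2))⟩
  have ht : Function.Injective t := fun y z e' => by
    have e1 : (y : Ω) * (a y)⁻¹ = z * (a z)⁻¹ := congrArg Subtype.val e'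
    have h1 := h.fpf ((z : Ω)⁻¹ * y) (hC (C.mul_mem (C.inv_mem z.2) y.2)) (by
      rw [h.hom.map_mul (hC (C.inv_mem z.2)) (hC y.2), h.hom.map_inv (hC z.2)]
      calc (a z)⁻¹ * a y = (z : Ω)⁻¹ * (z * (a z)⁻¹) * a y := by group
        _ = _ := by rw [← e1]; group)
    exact Subtype.ext (inv_mul_eq_one.1 h1).symm
  obtain ⟨y, hy⟩ := Finite.surjective_of_injective ht ⟨_, e⟩
  have e1 : (y : Ω) * (a y)⁻¹ = s⁻¹ * a s := congrArg Subtype.val hy
  have h1 := h.fpf (s * y) (S.mul_mem hs (hC y.2)) (by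
    rw [h.hom.map_mul hs (hC y.2)]
    calc a s * a y = s * (s⁻¹ * a s) * a y := by group
      _ = _ := by rw [← e1]; group)
  rw [eq_inv_of_mul_eq_one_left h1]
  exact C.inv_mem y.2

theorem exists_aut [Finite S] {U : Subgroup Ω} (hU : U ≤ S) (ha : ∀ x ∈ U, a x ∈ U) :
    ∃ α : MulAut U, (∀ x ∈ U, afn α x = a x) ∧ α ^ r = 1 ∧ (∀ x, α x = x → x = 1) ∧
      α ∈ Subgroup.normalizer (F.autGroup U : Set (MulAut U)) := by
  have := finite_of_le hU
  have hi := h.img_eq hU ha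
  let α : MulAut U := (h.hom.mono hU).equiv (fun x hx y hy => h.inj x (hU hx) y (hU hy)) hi
  have e : ∀ x ∈ U, afn α x = a x := fun x hx => by
    rw [afn_apply α hx]
    exact HomOn.equiv_apply _ _ _ _
  refine ⟨α, e, aut_ext fun x hx => ?_, fun x hx => Subtype.ext (h.fpf x (hU x.2) ?_),
    Fus.mem_normalizer_of_conj_mem fun β hβ => ?_⟩
  · rw [afn_pow_iter, afn_one, iter_rel (t := fun x => x) ha e r x hx, h.ord x (hU hx)]
  · rw [← e x x.2, afn_coe, hx]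
  · obtain ⟨f, hf, ef⟩ := h.mor U _ ((mem_autGroup_iff hU).1 hβ)
    rw [hi] at hf
    refine hf.mem_autGroup fun x hx => ?_
    have hx' := afn_mem α⁻¹ hx
    rw [afn_mul, afn_mul, e _ (afn_mem β hx'), ← ef _ hx', ← e _ hx', afn_afn_inv]

theorem sub [Finite S] {U : Subgroup Ω} (hU : U ≤ S) (ha : ∀ x ∈ U, a x ∈ U)
    (hn : S ≤ Subgroup.normalizer (U : Set Ω)) {D : FusionSystem S}
    (hD : IsNK F U (autInducedBy S U) D) : Ctx D r a := by
  refine ⟨h.rp, h.hom, h.mem, h.ord, h.fpf, fun P f hf => ?_,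
    fun P hP f hf => h.cop P hP f (IsNK.toM hD _ _ hf)⟩
  obtain ⟨-, g, hg, e, κ, hκ, eκ⟩ := (hD.2 P f).1 hf
  obtain ⟨s, hs, es⟩ := mem_autInducedBy_iff.1 hκ
  obtain ⟨g', hg', e'⟩ := h.mor _ g hg
  have hi := h.img_eq hU ha
  rw [(h.hom.mono hg.le).img_sup, hi] at hg'
  refine ⟨g', (hD.2 _ _).2 ⟨hD.1 ▸ le_sup_left.trans hg'.le, g', hg', fun _ _ => rfl,
    Fus.conjAut U (a s) (hn (h.mem s hs)), Fus.conjAut_mem_autInducedBy (h.mem s hs) _,
    fun y hy => ?_⟩, fun x hx => by rw [e' x (Subgroup.mem_sup_left hx), e x hx]⟩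
  obtain ⟨x, hx, rfl⟩ := (h.hom.mono hU).mem_img.1 (hi.symm ▸ hy : y ∈ img U a)
  rw [afn_conjAut _ hy, e' x (Subgroup.mem_sup_right hx), eκ x hx, es x hx,
    h.hom.map_conj hs (hU hx)]

theorem quot [Finite S] {S' : Subgroup Ω'} {D : FusionSystem S'} {θ : S →* Ω'}
    (hθ : SurjM F D θ) (ha : ∀ x ∈ preimageAlong θ ⊥, a x ∈ preimageAlong θ ⊥) :
    ∃ a', Ctx D r a' := by
  obtain ⟨a', e⟩ := exists_induced (θ := θ) (P := S) (f := a) fun x hx y hy e => by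
    rw [fn_eq_iff (h.mem x hx) (h.mem y hy), ← h.hom.map_inv hx, ← h.hom.map_mul (S.inv_mem hx) hy]
    exact ha _ ((fn_eq_iff hx hy).1 e)
  have hh : HomOn S' a' := fun x hx y hy => by
    obtain ⟨x, hx', rfl⟩ := hθ.surj hx
    obtain ⟨y, hy', rfl⟩ := hθ.surj hy
    rw [← (homOn_fn θ).map_mul hx' hy', e _ (S.mul_mem hx' hy'), h.hom.map_mul hx' hy',
      (homOn_fn θ).map_mul (h.mem x hx') (h.mem y hy'), e x hx', e y hy']
  refine ⟨a', h.rp, hh, fun y hy => ?_, fun y hy => ?_, fun y hy ey => ?_, fun P f hf => ?_,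
    fun P hP f hf hfP => ?_⟩
  · obtain ⟨x, hx, rfl⟩ := hθ.surj hy
    exact e x hx ▸ hθ.mem (h.mem x hx)
  · obtain ⟨x, hx, rfl⟩ := hθ.surj hy
    rw [iter_rel h.mem e r x hx, h.ord x hx]
  · obtain ⟨x, hx, rfl⟩ := hθ.surj hy
    rw [e x hx] at ey
    exact (mem_pre_bot.1 (h.mem_of (pre_le θ ⊥) ha hx
      ((fn_eq_iff hx (h.mem x hx)).1 ey.symm))).2
  · obtain ⟨g, hg, eg⟩ := hθ.lift P f hf
    obtain ⟨g1, hg1, e1⟩ := h.mor _ g hg
    obtain ⟨g2, hg2, e2⟩ := hθ.push _ g1 hg1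
    refine ⟨g2, hg2.mono (img_le_iff.2 fun y hy => ?_), fun y hy => ?_⟩
    · obtain ⟨x, hx, rfl⟩ := hθ.exists_pre hf.le y hy
      rw [e x (pre_le θ P hx)]
      exact mem_img_of_mem _ (mem_img_of_mem a hx)
    · obtain ⟨x, hx, rfl⟩ := hθ.exists_pre hf.le y hy
      rw [e x (pre_le θ P hx), e2 _ (mem_img_of_mem a hx), e1 x hx, eg x hx, e _ (hg.mem hx)]
  · obtain ⟨g, hg, eg, hgP⟩ := exists_lift_norm hθ hf le_rfl hfP
    obtain ⟨n, hn, en⟩ := h.cop _ hg.le g hg hgP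
    refine ⟨n, hn, fun y hy => ?_⟩
    obtain ⟨x, hx, rfl⟩ := hθ.exists_pre hP y hy
    rw [iter_rel hgP eg n x hx, en x hx]

end Ctx

/-- `Ω₁(Z(S))`. -/
def omZ (p : ℕ) (S : Subgroup Ω) : Subgroup Ω where
  carrier := {x | x ∈ ZJ.Zc S ∧ x ^ p = 1}
  one_mem' := ⟨one_mem _, one_pow _⟩
  inv_mem' := fun h => ⟨inv_mem h.1, by rw [inv_pow, h.2, inv_one]⟩
  mul_mem' := fun {x y} hx hy => ⟨mul_mem hx.1 hy.1, by
    rw [Commute.mul_pow (Zc_comm x hx.1 y hy.1), hx.2, hy.2, one_mul]⟩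

theorem omZ_le : omZ p S ≤ ZJ.Zc S := fun _ h => h.1

theorem mem_omZ_of {f : Ω → Ω} (hf : HomOn S f) (hi : img S f = S) :
    ∀ x ∈ omZ p S, f x ∈ omZ p S := fun x hx => by
  have hxS := (mem_Zc.1 hx.1).1
  refine ⟨mem_Zc.2 ⟨hi ▸ mem_img_of_mem f hxS, fun s hs => ?_⟩, by
    rw [← hf.map_pow hxS, hx.2, hf.map_one]⟩
  obtain ⟨y, hy, rfl⟩ := hf.mem_img.1 (hi.symm ▸ hs : s ∈ img S f)
  rw [← hf.map_mul hy hxS, (mem_Zc.1 hx.1).2 y hy, hf.map_mul hxS hy]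

theorem omZ_ne_bot [Finite S] [Fact p.Prime] (hS : IsPGroup p S) (h0 : S ≠ ⊥) : omZ p S ≠ ⊥ := by
  have := (Subgroup.nontrivial_iff_ne_bot S).2 h0
  have := hS.center_nontrivial
  obtain ⟨n, hn, e⟩ := (hS.to_subgroup (Subgroup.center S)).nontrivial_iff_card.1 this
  obtain ⟨z, hz⟩ := exists_prime_orderOf_dvd_card' (G := Subgroup.center S) p
    (e ▸ dvd_pow_self p hn.ne')
  have h1 : ((z : S) : Ω) ∈ omZ p S := ⟨mem_Zc.2 ⟨z.1.2, fun s hs =>
    congrArg Subtype.val (Subgroup.mem_center_iff.1 z.2 ⟨s, hs⟩)⟩, by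
      rw [← hz, ← Subgroup.coe_pow, ← Subgroup.coe_pow, pow_orderOf_eq_one]; rfl⟩
  intro e'
  rw [e', Subgroup.mem_bot] at h1
  have h2 : z = 1 := Subtype.ext (Subtype.ext h1)
  rw [h2, orderOf_one] at hz
  exact (Fact.out : p.Prime).one_lt.ne hz

end

theorem Ctx.autS_normal (hK : KStmt.{u}) {Ω : Type u} [Group Ω] {S : Subgroup Ω} [Finite S]
    {F : FusionSystem S} {p r : ℕ} [Fact p.Prime] (hp : p ≠ 2) (hS : IsPGroup p S)
    (hF : F.IsSaturated p) {a : Ω → Ω} (h : Ctx F r a) {U : Subgroup Ω} (hU : U ≤ S)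
    (ha : ∀ x ∈ U, a x ∈ U) (hn : S ≤ Subgroup.normalizer (U : Set Ω)) :
    ∀ g ∈ F.autGroup U, ∀ k ∈ autInducedBy S U, g * k * g⁻¹ ∈ autInducedBy S U := by
  have := finite_of_le hU
  obtain ⟨α, e, h1, h2, h3⟩ := h.exists_aut hU ha
  have hc : ∀ β : MulAut U, ∀ s ∈ S, (∀ x ∈ U, afn β x = s * x * s⁻¹) →
      ∀ x ∈ U, afn (α * β * α⁻¹) x = a s * x * (a s)⁻¹ := fun β s hs es x hx => by
    have hx' := afn_mem α⁻¹ hx
    rw [afn_mul, afn_mul, e _ (afn_mem β hx'), es _ hx', h.hom.map_conj hs (hU hx'), ← e _ hx',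
      afn_afn_inv]
  refine holK hK hp h.rp ((Fus.isPGroup_of_le hS hU).to_subgroup ⊤) h3
    (Fus.mem_normalizer_of_conj_mem fun β hβ => ?_) h1 ((h.cop U hU).not_dvd h.rp hU)
    (Fus.sat_sylow hS hF (Fus.isFullyNormalized_of_normal hU hn)) h2 fun β hβ eβ => ?_
  · obtain ⟨s, hs, es⟩ := mem_autInducedBy_iff.1 hβ
    exact mem_autInducedBy_iff.2 ⟨a s, h.mem s hs, hc β s hs es⟩
  obtain ⟨s, hs, es⟩ := mem_autInducedBy_iff.1 hβ
  have h4 := hc β s hs es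
  rw [← eβ, mul_inv_cancel_right] at h4
  have h5 : s ∈ centralizerIn S U := h.mem_of (Fus.centralizerIn_le U) (fun x hx =>
    ⟨h.mem x hx.1, h.img_eq hU ha ▸ h.hom.mem_centralizer hU hx.1 hx.2⟩) hs
    ⟨S.mul_mem (S.inv_mem hs) (h.mem s hs), fun x hx => by
      have h6 := (es x hx).symm.trans (h4 x hx)
      calc x * (s⁻¹ * a s) = s⁻¹ * (s * x * s⁻¹) * a s := by group
        _ = s⁻¹ * a s * x := by rw [h6]; group⟩
  refine aut_ext fun x hx => ?_
  rw [es x hx, afn_one, ← h5.2 x hx, mul_inv_cancel_right]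

theorem Ctx.isNormal (hK : KStmt.{u}) (hA : AStmt.{u}) {p r : ℕ} [Fact p.Prime] (hp : p ≠ 2)
    (n : ℕ) : ∀ {Ω : Type u} [Group Ω] {S : Subgroup Ω} [Finite S] (F : FusionSystem S)
      (a : Ω → Ω), Nat.card S = n → IsPGroup p S → F.IsSaturated p → Ctx F r a →
      F.IsNormal S := by
  induction n using Nat.strong_induction_on with
  | _ n IH =>
  intro Ω _ S _ F a hn hS hF h
  by_cases h0 : S = ⊥
  · subst h0
    exact isNormal_bot F
  obtain ⟨E, hE⟩ := exists_normSys F (le_refl S) (T := S)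
    (inf_eq_left.2 Subgroup.le_normalizer).symm
  have htop : ∀ f, M F S f → M E S f := fun f hf =>
    IsNK.M_of hE hf le_rfl Subgroup.le_normalizer fun x hx => hf.mem hx
  have key : ∀ U, U ≠ ⊥ → U ≤ S → S ≤ Subgroup.normalizer (U : Set Ω) → (∀ x ∈ U, a x ∈ U) →
      Good F E U := fun U hU0 hU hUn ha => by
    obtain ⟨D, hD, hDs, hDn, hDp, -, -⟩ := exists_cSys hS hF hU hUn
    obtain ⟨Ω', _, S', D', θ, hθ, hk⟩ := exists_quot hDn
    have := hθ.finite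
    obtain ⟨a', ha'⟩ := (h.sub hU ha hUn hD).quot hθ (hk ▸ ha)
    have hN := IH _ (hn ▸ card_lt_of_surjM hθ (hk ▸ hU0)) D' a' rfl (hθ.isPGroup hS)
      (hθ.saturated hS hDs) ha'
    have hDE := le_of_quot (E := E) hS hDs hθ (hk ▸ hDn) (hk ▸ hDp) le_rfl fun E' hE' =>
      (hE' S' le_rfl Subgroup.le_normalizer (hθ.pre_top.symm ▸
        good_top fun f hf => htop f (IsNK.toM hD _ _ hf))).le_of_normal hN
    refine good_of_frattini hS hF (Fus.isFullyNormalized_of_normal hU hUn)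
      (Fus.autInducedBy_le_autGroup hU) (h.autS_normal hK hp hS hF hU ha hUn) ?_
      fun P k hk' hUP _ ⟨κ, hκ, e⟩ => hDE P k ((hD.2 P k).2 ⟨hD.1 ▸ hk'.le, k,
        (sup_eq_left.2 hUP).symm ▸ hk', fun _ _ => rfl, κ, hκ, e⟩)
    rw [← hD.1, sup_eq_right.2 hU]
    exact good_top htop
  have hT : omZ p S ≤ ZJ.Zc S := omZ_le
  have hTS : omZ p S ≤ S := hT.trans inf_le_left
  have haS := h.img_eq le_rfl h.mem
  have haT := mem_omZ_of (p := p) h.hom haS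
  have hJ := key (ZJ.J S) ((jFun p).w_ne_bot hS h0) (ZJ.J_le S) ((jFun p).le_normalizer hS)
    fun x hx => by
      have h1 := (jFun p).img_w hS h.hom h.inj haS
      rw [jFun_w] at h1
      exact h1 ▸ mem_img_of_mem a hx
  have hW : F.WeaklyClosed (omZ p S) := by
    refine weaklyClosed_iff.2 ⟨hTS, img_eq_of_not_sing hp _ F rfl hS hF hT (fun f hf hf' => ?_)
      fun β hβ hs => ?_⟩
    · obtain ⟨-, g, hg, e, hi⟩ := NK_top_iff.1 ((hE.2 _ _).1
        (hJ _ f hf le_rfl Subgroup.le_normalizer hf'))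
      have hTJ := hT.trans (ZJ.Zc_le_J S)
      refine (hf.mono hTJ).img_eq_self fun x hx => ?_
      rw [← e x (hTJ hx)]
      exact mem_omZ_of (hg.mono le_sup_right).homOn hi x hx
    have := finite_of_le hTS
    have hcm : ∀ x y : omZ p S, x * y = y * x := fun x y =>
      Subtype.ext (Zc_comm _ x.2.1 _ y.2.1)
    have : IsMulCommutative (omZ p S) := ⟨⟨hcm⟩⟩
    obtain ⟨α, -, h1, h2, h3⟩ := h.exists_aut hTS haT
    have hc := card_autGroup_coprime hS hF hT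
    exact holA hA hp h.rp hcm (fun x => Subtype.ext x.2.2) h3 h1 ((h.cop _ hTS).not_dvd h.rp hTS)
      ((Nat.Prime.coprime_iff_not_dvd Fact.out).1 hc.symm) h2 hβ hs.1 fun u v =>
        hs.trans_comm (Fus.isPGroup_of_le hS hTS)
          (hc.coprime_dvd_left (Subgroup.card_dvd_of_le (Subgroup.zpowers_le_of_mem hβ)))
  have hN : F.IsNormal (omZ p S) := Fus.isNormal_of_weaklyClosed_of_le_essential hS hF hW
    fun R hR x hx => Fus.IsCentric_centralizerIn_le hR.1 ⟨hTS hx, fun y hy =>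
      (mem_Zc.1 (hT hx)).2 y (hR.1.1 hy)⟩
  have hFE := (key _ (omZ_ne_bot hS h0) hTS (le_normalizer_of_le_Zc hT) haT).le_of_normal hN
  rw [fusionSystem_ext (F := F) (E := E) fun P => Hom_eq_iff.2 fun f => ⟨hFE P f, IsNK.toM hE P f⟩]
  exact IsNK.isNormal_top hE le_rfl

theorem s5277_of (hK : KStmt.{u}) (hA : AStmt.{u}) {Ω : Type u} [Group Ω] {S : Subgroup Ω}
    [Finite S] (p : ℕ) [Fact p.Prime] (hS : IsPGroup p S) (F : FusionSystem S)
    (hF : F.IsSaturated p) (hp : p ≠ 2) (α : S ≃* S) (hfix : ∀ x : S, α x = x → x = 1)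
    (hmor : F.IsMorphism F (S.subtype.comp α.toMonoidHom)) (r : ℕ) (hr : r.Prime)
    (hord : orderOf α = r)
    (hcr : ∀ R : Subgroup Ω, F.IsCentric R → F.IsRadical p R → ¬ r ∣ Nat.card (F.autGroup R)) :
    F.IsNormal S := by
  have e : ∀ x ∈ S, fn (S.subtype.comp α.toMonoidHom) x = afn α x := fun x hx => by
    rw [fn_apply _ hx, afn_apply _ hx]
    rfl
  refine Ctx.isNormal hK hA hp _ F (afn α) rfl hS hF ⟨hr, homOn_afn α, fun x hx => afn_mem α hx,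
    fun x _ => ?_, fun x hx ex => ?_, fun P f hf => ?_, fun P hP => cop_of_cr hS hF hcr _ P hP rfl⟩
  · rw [← afn_pow_iter, ← hord, pow_orderOf_eq_one, afn_one]
  · rw [afn_apply _ hx] at ex
    exact congrArg Subtype.val (hfix ⟨x, hx⟩ (Subtype.ext ex))
  · obtain ⟨f', hf', e'⟩ := (isMorphism_iff.1 hmor).2 P f hf
    rw [img_congr fun x hx => e x (hf.le hx)] at hf'
    exact ⟨f', hf', fun x hx => by rw [← e x (hf.le hx), e' x hx, e _ (hf.mem hx)]⟩

end Cfsg.Agent.FP
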