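import Cfsg.Agent.Lib.FP.CaseA

/-! Row K: the minimal counterexample. -/

open Subgroup
open scoped commutatorElement

set_option linter.unusedSectionVars false
set_option linter.style.haveILetI false

namespace Cfsg.Agent.FP

open FT Tr

universe u

variable {G : Type u} [Group G] [Finite G] {p r : ℕ} {V X H K N P Q R T W : Subgroup G} {a g x y : G}

theorem iota_syl {q : ℕ} [hq : Fact q.Prime] (ha : a ∈ 𝐍(H)) (hc : (#|H|).Coprime #|zpowers a|)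
    (hQ : IsSylowIn q Q H) (haQ : a ∈ 𝐍(Q)) : 𝐂[a].relIndex Q ∣ 𝐂[a].relIndex H ∧
      ∀ k, q ^ k ∣ 𝐂[a].relIndex H → q ^ k ∣ 𝐂[a].relIndex Q := by
  have h1 := sol_coprime_Sylow_cent (norms_cycle.2 ha) hc (zsol _ _) hQ (norms_cycle.2 haQ)
  rw [cent_cycle] at h1
  have h2 := Lagrange_index (inf_le_left : Q ⊓ 𝐂[a] ≤ Q) hQ.le
  rw [← Lagrange_index h1.le inf_le_left, indexgI, indexgI] at h2
  obtain ⟨j, hj⟩ := (p_natP hq.out (indexg_ne0 _ _)).1 (pnat_relIndex_of_isPGroup hQ.pgroup 𝐂[a])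
  refine ⟨Nat.Coprime.dvd_of_dvd_mul_left ?_ (h2 ▸ dvd_mul_right _ _), fun k hk =>
    Nat.Coprime.dvd_of_dvd_mul_right ?_ (h2 ▸ hk.mul_left _)⟩
  · rw [hj]; exact ((Nat.Prime.coprime_iff_not_dvd hq.out).2 h1.not_dvd).pow_left j
  · exact ((Nat.Prime.coprime_iff_not_dvd hq.out).2 hQ.not_dvd).pow_left k

theorem gen_mulEq (hH : H ≤ K) (ha : a ∈ 𝐍(K)) (haH : a ∈ 𝐍(H)) (hc : (#|K|).Coprime #|zpowers a|)
    (h : ∀ q : ℕ, q.Prime → ∃ Q, IsSylowIn q Q K ∧ a ∈ 𝐍(Q) ∧ ⁅Q, zpowers a⁆ ≤ H) :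
    MulEq H (K ⊓ 𝐂[a]) K := by
  refine mulEq_of_relIndex hH inf_le_left ?_
  rw [indexgI, ← indexgI H, ← inf_assoc, inf_eq_left.2 hH, indexgI]
  refine le_antisymm (relIndex_le_of_le_right hH (indexg_ne0 _ _)) (Nat.le_of_dvd (indexg_gt0 _ _)
    ((Nat.dvd_iff_prime_pow_dvd_dvd _ _).2 fun q k hq hk => ?_))
  haveI := Fact.mk hq
  obtain ⟨Q, h1, h2, h3⟩ := h q hq
  have hcH := hc.coprime_dvd_left (cardSg hH)
  obtain ⟨Q₁, h4, h5, h6⟩ := sol_coprime_Sylow_subset (norms_cycle.2 haH) hcH (zsol _ _) h3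
    (pgroup_sub (comm_le h2) h1.pgroup) (commg_normr _ _)
  have h7 := (iota_syl ha hc h1 h2).2 k hk
  have h8 := (coprime_cent_prod (norms_cycle.2 h2) (hc.coprime_dvd_left (cardSg h1.le))
    (zsol _ _)).relIndex_eq
  rw [cent_cycle, indexgI, ← indexgI ⁅Q, zpowers a⁆, ← inf_assoc, inf_eq_left.2 (comm_le h2),
    indexgI] at h8
  refine dvd_trans ?_ (iota_syl haH hcH h4 (h5 (mem_zpowers a))).1
  obtain ⟨j, hj⟩ := (p_natP hq (indexg_ne0 _ _)).1 (pnat_relIndex_of_isPGroup h4.pgroup 𝐂[a])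
  have h9 := (Nat.le_of_dvd (indexg_gt0 _ _) (h8 ▸ h7)).trans
    (relIndex_le_of_le_right h6 (indexg_ne0 _ _))
  rw [hj] at h9 ⊢
  exact pow_dvd_pow q ((Nat.pow_le_pow_iff_right hq.one_lt).1 h9)

theorem MulEq.comm_eq (h : MulEq H (K ⊓ 𝐂[a]) K) : ⁅K, zpowers a⁆ = ⁅H, zpowers a⁆ :=
  le_antisymm (commg_le.2 fun g hg b hb => by
    obtain ⟨x, hx, c, hc, rfl⟩ := h.exists hg
    convert mem_commg hx hb using 1
    calc _ = x * (c * b * c⁻¹) * x⁻¹ * b⁻¹ := by group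
      _ = _ := by rw [(comm_zpow (mem_cent1'.1 hc.2) hb).mul_inv_cancel]) (commSg _ h.left_le)

/-- A minimal counterexample to row K. -/
structure KM (p r : ℕ) (V X : Subgroup G) (a : G) : Prop where
  base : Base p r V X a
  irr : ∀ U ≤ V, X ≤ 𝐍(U) → a ∈ 𝐍(U) → U = ⊥ ∨ U = V
  ca : ¬ p ∣ #|X ⊓ 𝐂[a]|
  pd : p ∣ #|X|
  ih : ∀ H ≤ X, H ≠ X → a ∈ 𝐍(H) → ∀ x ∈ H, ∀ y ∈ H, PiElt {p} x → PiElt {p} y → PiElt {p} (x * y)

namespace KM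

variable [hp : Fact p.Prime] (h : KM p r V X a)
include h

theorem ne : X ≠ ⊥ := fun e => hp.out.not_dvd_one (by simpa [e] using h.pd)

theorem op (hP : P ≤ X) (h1 : IsPGroup p P) (h2 : X ≤ 𝐍(P)) (ha : a ∈ 𝐍(P)) : P = ⊥ := by
  have hV : V ≠ ⊥ := fun e => h.ne (by rw [← h.base.faith, e, cent1T, inf_top_eq])
  have h3 := (h.irr (V ⊓ 𝐂(P)) inf_le_left (norms_subcent h.base.XV h2)
    (norms_subcent (norms_cycle.2 h.base.aV) (norms_cycle.2 ha) (mem_zpowers a))).resolve_left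
    (pgroup_fix_ne_bot h1 (abelem_pgroup h.base.ab) (hP.trans h.base.XV) hV)
  exact le_bot_iff.1 (h.base.faith ▸ le_inf hP (centsC.1 (inf_eq_left.1 h3)))

theorem mem_core (hH : H ≤ X) (hne : H ≠ X) (ha : a ∈ 𝐍(H)) (hx : x ∈ H) (h1 : PiElt {p} x) :
    x ∈ core {p} H := by
  let O : Subgroup G :=
    { carrier := {x | x ∈ H ∧ PiElt {p} x}
      one_mem' := ⟨one_mem _, p_elt1⟩
      mul_mem' := fun {x y} hx hy => ⟨mul_mem hx.1 hy.1, h.ih H hH hne ha x hx.1 y hy.1 hx.2 hy.2⟩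
      inv_mem' := fun {x} hx => ⟨inv_mem hx.1, hx.2.inv⟩ }
  exact pcore_max (N := O) (pgroup_of_forall_elt fun x hx => hx.2) ⟨fun x hx => hx.1,
    norms_of_conj_mem fun g hg x hx => ⟨mul_mem (mul_mem hg hx.1) (inv_mem hg), p_eltJ.2 hx.2⟩⟩
    ⟨hx, h1⟩

theorem p'_of (hH : H ≤ X) (hne : H ≠ X) (ha : a ∈ 𝐍(H)) (h0 : core {p} H = ⊥) : ¬ p ∣ #|H| :=
  fun e => by
  obtain ⟨x, hx, h1⟩ := Cauchy hp.out e
  have := h.mem_core hH hne ha hx (p_eltE.2 ⟨1, by rw [h1, pow_one]⟩)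
  rw [h0, mem_bot] at this
  exact hp.out.ne_one (by rw [← h1, this, orderOf_one])

theorem nrm_p' (hN : N ≤ X) (hne : N ≠ X) (hn : X ≤ 𝐍(N)) (ha : a ∈ 𝐍(N)) : ¬ p ∣ #|N| :=
  h.p'_of hN hne ha (h.op ((pcore_sub _ _).trans hN) (pcore_isPGroup p N) (norms_pcore _ hn)
    (pcore_char _ _ ha))

theorem comm : ⁅X, zpowers a⁆ = X := by
  by_contra hne
  have h1 := (h.base.prod le_rfl h.base.aX).card
  rcases hp.out.dvd_mul.1 (h1 ▸ h.pd.mul_right _) with e | e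
  · exact h.nrm_p' (comm_le h.base.aX) hne (commg_norml _ _) (norm_comm _ _) e
  · exact h.ca e

theorem syl (q : ℕ) [Fact q.Prime] (hH : H ≤ X) (ha : a ∈ 𝐍(H)) :
    ∃ Q, IsSylowIn q Q H ∧ a ∈ 𝐍(Q) := by
  obtain ⟨Q, h1, h2⟩ := sol_coprime_Sylow_exists q (zsol _ _) (norms_cycle.2 ha) (h.base.cop hH)
  exact ⟨Q, h1, h2 (mem_zpowers a)⟩

theorem gen (hK : K ≤ X) (ha : a ∈ 𝐍(K)) (hH : H ≤ K) (haH : a ∈ 𝐍(H)) (hP : IsSylowIn p P K)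
    (haP : a ∈ 𝐍(P)) (h1 : P ≤ H) (hT : IsSylowIn 2 T K) (haT : a ∈ 𝐍(T))
    (h2 : ⁅T, zpowers a⁆ ≤ H) : MulEq H (K ⊓ 𝐂[a]) K :=
  gen_mulEq hH ha haH (h.base.cop hK) fun q hq => by
    by_cases q2 : q = 2
    · exact ⟨T, q2 ▸ hT, haT, h2⟩
    by_cases qp : q = p
    · exact ⟨P, qp ▸ hP, haP, (comm_le haP).trans h1⟩
    haveI := Fact.mk hq
    obtain ⟨Q, h3, h4⟩ := h.syl q hK ha
    exact ⟨Q, h3, h4, (comm_bot.2 (h.base.oddq q2 qp (h3.le.trans hK) h4 h3.pgroup)).le.trans bot_le⟩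

variable (hT : IsSylowIn 2 T X) (haT : a ∈ 𝐍(T))
include hT haT

theorem nop (hP : P ≤ X) (h1 : IsPGroup p P) (ha : a ∈ 𝐍(P)) (hn : ⁅T, zpowers a⁆ ≤ 𝐍(P)) :
    P = ⊥ := by
  by_contra hne
  obtain ⟨Q, ⟨h2, h3, h4, h5, h6⟩, hm⟩ := exists_maximal_of_wellFoundedGT
    (fun P : Subgroup G => P ≤ X ∧ IsPGroup p P ∧ a ∈ 𝐍(P) ∧ ⁅T, zpowers a⁆ ≤ 𝐍(P) ∧ P ≠ ⊥)
    ⟨P, hP, h1, ha, hn, hne⟩
  have h7 : X ⊓ 𝐍(Q) ≠ X := fun e => h6 (h.op h2 h3 (inf_eq_left.1 e) h4)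
  have h8 := normsI (norms_cycle.2 h.base.aX) (norms_norm (norms_cycle.2 h4)) (mem_zpowers a)
  have h9 := le_inf ((comm_le haT).trans hT.le) h5
  have h10 : Q ≤ core {p} (X ⊓ 𝐍(Q)) := pcore_max' h3 (subnorm_normal h2)
  have h11 := hm ⟨(pcore_sub _ _).trans inf_le_left, pcore_isPGroup p _, pcore_char _ _ h8,
    h9.trans (pcore_norm _ _), fun e => h6 (le_bot_iff.1 (e ▸ h10))⟩ h10
  have h12 : IsSylowIn p Q X := Sylow_subnorm.1 (max_pgroup_Sylow (subnorm_normal h2).le h3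
    fun U _ h13 h14 x hx => h11 (h.mem_core inf_le_left h7 h8 (h13 hx) (mem_p_elt' h14 hx)))
  have h13 := MulEq.comm_eq (h.gen le_rfl h.base.aX inf_le_left h8 h12 h4 (subnorm_normal h2).le
    hT haT h9)
  exact h7 (le_antisymm inf_le_left ((h.comm.symm.trans h13).le.trans (comm_le h8)))

theorem over_p' (hH : H ≤ X) (hne : H ≠ X) (ha : a ∈ 𝐍(H)) (h1 : ⁅T, zpowers a⁆ ≤ H) :
    ¬ p ∣ #|H| :=
  h.p'_of hH hne ha (h.nop hT haT ((pcore_sub _ _).trans hH) (pcore_isPGroup p H)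
    (pcore_char _ _ ha) (h1.trans (pcore_norm _ _)))

theorem above (hH : H ≤ X) (hne : H ≠ X) (ha : a ∈ 𝐍(H)) (h1 : ⁅T, zpowers a⁆ ≤ H) :
    MulEq ⁅T, zpowers a⁆ (H ⊓ 𝐂[a]) H := by
  have h2 := pgroup_sub (comm_le haT) hT.pgroup
  obtain ⟨T₁, h3, h4, h5⟩ := sol_coprime_Sylow_subset (norms_cycle.2 ha) (h.base.cop hH) (zsol _ _)
    h1 h2 (commg_normr _ _)
  obtain ⟨T₂, h6, h7, h8⟩ := sol_coprime_Sylow_subset (norms_cycle.2 h.base.aX) (h.base.cop le_rfl)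
    (zsol _ _) (h3.le.trans hH) h3.pgroup h4
  obtain ⟨c, hc, rfl⟩ := sol_coprime_Sylow_trans (zsol _ _) (norms_cycle.2 h.base.aX)
    (h.base.cop le_rfl) hT (norms_cycle.2 haT) h6 h7
  refine h.gen hH ha h1 (norm_comm _ _) (Sylow1.2 (h.over_p' hT haT hH hne ha h1)) (norms1 ⊤ trivial)
    bot_le h3 (h4 (mem_zpowers a)) ((commSg _ h8).trans (eq_of_le_of_card_ge ?_ ?_).ge)
  · rw [← h.base.commid hT.le haT]; exact commSg _ (h5.trans h8)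
  · rw [← cj_eq_of_mem_centralizer hc.2, ← cj_commutator, card_cj, cj_eq_of_mem_centralizer hc.2]

theorem comm_ne : ⁅T, zpowers a⁆ ≠ ⊥ := fun e => by
  obtain ⟨P, h1, h2⟩ := h.syl p le_rfl h.base.aX
  exact Sylow_ne_bot h1 h.pd (h.nop hT haT h1.le h1.pgroup h2 (e ▸ bot_le))

end KM

end Cfsg.Agent.FP
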