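import Cfsg.Agent.Lib.FP.K1

/-! Row K: there is no minimal counterexample. -/

open Subgroup
open scoped commutatorElement

set_option linter.unusedSectionVars false
set_option linter.style.haveILetI false

namespace Cfsg.Agent.FP

open FT Tr

universe u

variable {G : Type u} [Group G] [Finite G] {p r : ℕ} {V X H K N P Q R T W : Subgroup G} {a g x y : G}

/-- The central involutions. -/
def Wd (X : Subgroup G) : Subgroup G where
  carrier := {w | w ∈ X ∧ w ∈ 𝐂(X) ∧ w * w = 1}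
  one_mem' := ⟨one_mem _, one_mem _, one_mul _⟩
  mul_mem' := fun {x y} hx hy => ⟨mul_mem hx.1 hy.1, mul_mem hx.2.1 hy.2.1, by
    rw [mul_assoc, ← mul_assoc y, hx.2.1 y hy.1, mul_assoc, hy.2.2, mul_one, hx.2.2]⟩
  inv_mem' := fun {x} hx => ⟨inv_mem hx.1, inv_mem hx.2.1, by rw [← mul_inv_rev, hx.2.2, inv_one]⟩

namespace KM

variable [hp : Fact p.Prime] (h : KM p r V X a)
include h

theorem two_p' (h2 : IsPGroup 2 H) : PiG {p}ᶜ H := pgroup_p'group h2 h.base.p2.symm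

theorem cen : Cen V X (Wd X) a := by
  have hca : Wd X ≤ 𝐂[a] := h.base.star (fun _ hx => hx.1) (mem_normalizer_of_forall fun x hx =>
    ⟨(memJ_norm h.base.aX).2 hx.1, (memJ_norm (cent_norm X h.base.aX)).2 hx.2.1, by
      rw [conj_mul, hx.2.2]; group⟩) (abelianP.2 fun x hx y hy => hy.2.1 x hx.1)
    (h.two_p' (isPGroup_iff_forall_mem.2 fun z hz => ⟨1, by rw [pow_one, pow_two, hz.2.2]⟩))
  refine ⟨fun _ hx => hx.1, fun _ hx => hx.2.1, hca, fun _ hx => hx.2.2, fun w hw w1 v hv => ?_⟩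
  have h1 := (h.irr (V ⊓ 𝐂[w]) inf_le_left (normsI h.base.XV (normsG (sub_cent1.2 hw.2.1)))
    (QS.norm_cent h.base.aV (mem_cent1'.1 (hca hw)))).resolve_right fun e =>
      w1 (mem_bot.1 (h.base.faith ▸ (⟨hw.1, sub_cent1.1 (inf_eq_left.1 e)⟩ : w ∈ X ⊓ 𝐂(V))))
  have h2 := (memJ_norm (h.base.XV hw.1)).2 hv
  have h3 : v * (w * v * w⁻¹) ∈ V ⊓ 𝐂[w] := ⟨mul_mem hv h2, cent1_conj'.2 (by
    calc _ = w * v * w⁻¹ * (w * w * v * (w * w)⁻¹) := by group
      _ = _ := by rw [hw.2.2, abelianP.1 (abelem_abelian h.base.ab) v hv _ h2]; group)⟩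
  rw [h1, mem_bot] at h3
  exact eq_inv_of_mul_eq_one_right h3

theorem cent_of_ca (hn : X ≤ 𝐍(N)) (hc : N ≤ 𝐂[a]) : N ≤ 𝐂(X) := by
  have := three_subgroup (A := X) (B := N) (C := zpowers a)
    (comm_bot.2 ((commg_subr.2 hn).trans hc)) (by rw [comm_bot.2 hc, commutator_bot_left])
  rw [commGC (zpowers a), h.comm] at this
  exact centsC.1 (commG1P.1 this)

variable (hP : IsSylowIn p P X) (haP : a ∈ 𝐍(P))
include hP haP

theorem cent_of_syl (hn : X ≤ 𝐍(N)) (ha : a ∈ 𝐍(N)) (hc : P ≤ 𝐂(N)) : N ≤ 𝐂(X) := by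
  refine centsC.1 (inf_eq_left.1 (by_contra fun e => h.nrm_p' inf_le_left e
    (norms_subcent (normG X) hn) (norms_subcent (norms_cycle.2 h.base.aX) (norms_cycle.2 ha)
      (mem_zpowers a)) (((Sylow_dvd_iff hP).2 h.pd).trans (cardSg (le_inf hP.le hc)))))

theorem cent_of_sup (hN : N ≤ X) (h2 : IsPGroup 2 N) (hn : X ≤ 𝐍(N)) (ha : a ∈ 𝐍(N))
    (hne : N ⊔ P ≠ X) : N ≤ 𝐂(X) := by
  have hH := sup_le hN hP.le
  refine h.cent_of_syl hP haP hn ha (le_trans (fun x hx => h.mem_core hH hne (normsY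
    (norms_cycle.2 ha) (norms_cycle.2 haP) (mem_zpowers a)) (mem_sup_right hx)
    (mem_p_elt' hP.pgroup hx)) (commG_TI (((pcore_sub _ _).trans hH).trans hn)
      (le_sup_left.trans (pcore_norm _ _)) (TI_pgroup_p'group (pcore_isPGroup p _) (h.two_p' h2))))

theorem solv (hQ : Q ≤ X) (h2 : IsPGroup 2 Q) (hn : X ≤ 𝐍(Q)) (ha : a ∈ 𝐍(Q)) (hX : Q ⊔ P = X)
    (hc : ¬ Q ≤ 𝐂[a]) : False := by
  have hb := h.base
  have hQP := TI_pgroup_p'group hP.pgroup (h.two_p' h2)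
  have key : ∀ N < Q, X ≤ 𝐍(N) → a ∈ 𝐍(N) → N ≤ 𝐂(X) := fun N h1 h3 h4 =>
    h.cent_of_sup hP haP (h1.le.trans hQ) (pgroup_sub h1.le h2) h3 h4 fun e => h1.ne (by
      have := group_modl (hP.le.trans h3) h1.le
      rwa [hQP, sup_bot_eq, e, inf_eq_right.2 hQ] at this)
  have nab : ¬ IsMulCommutative Q := fun e => hc (hb.star hQ ha e (h.two_p' h2))
  have hZ : 𝐙(Q) ≤ 𝐂(X) := key _ (lt_of_le_of_ne inf_le_left fun e =>
    nab (abelianE.2 (inf_eq_left.1 e))) (norms_center hn) (center_norm Q ha)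
  have hΦ : Phi Q ≤ 𝐂(X) := key _ (Phi_proper fun e => hc (e ▸ bot_le)) (hn.trans (Phi_char Q))
    (Phi_char Q ha)
  have hD : ⁅Q, Q⁆ ≤ 𝐂(X) := (der1_sub_Phi h2).trans hΦ
  have hW : ⁅Q, Q⁆ ≤ Wd X := commg_le.2 fun x hx y hy => by
    have h1 := mem_commg hx hy
    refine ⟨hQ (der_sub Q h1), hD h1, ?_⟩
    rw [← pow_two, ← commutatorElement_def, ← commXg (hD h1 x (hQ hx)),
      commutatorElement_eq_one_iff_mul_comm]
    exact (hΦ (pow_mem_Phi h2 hx) y (hQ hy)).symm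
  have hR := comm_le ha
  have sp := hb.sp (hR.trans hQ) (pgroup_sub hR h2) (norm_comm _ _) (hb.commid hQ ha)
  have hY : YY (Wd X) ⁅Q, zpowers a⁆ ⁅Q, zpowers a⁆ a :=
    ⟨le_rfl, sp.aR, sp.comm, mt comm_bot.1 hc, (dergS hR).trans hW⟩
  obtain ⟨n, n0, h3, h4⟩ := hY.card hb h.cen sp (hR.trans hQ)
  have h5 := (hY.extra hb h.cen sp (hR.trans hQ)).card
  have hm := hb.prod hQ ha
  have hZa : 𝐙(Q) ≤ 𝐂[a] := hb.star (inf_le_left.trans hQ) (center_norm Q ha) (center_abelian Q)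
    (h.two_p' (pgroup_sub inf_le_left h2))
  -- `C_Q(P) = Z(Q)`
  have h6 : Q ⊓ 𝐂(P) = 𝐙(Q) := by
    refine le_antisymm (le_inf inf_le_left (centsS hQ (key _ (lt_of_le_of_ne inf_le_left fun e =>
      nab (abelianE.2 (centsS hQ (h.cent_of_syl hP haP hn ha (centsC.1 (inf_eq_left.1 e))))))
      (hX ▸ sup_le (sub_der1_norm (le_inf (der_sub Q) (centsS hP.le hD)) inf_le_left)
        (cents_norm (centsC.1 inf_le_right)))
      (norms_subcent (norms_cycle.2 ha) (norms_cycle.2 haP) (mem_zpowers a)))))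
      (le_inf inf_le_left (centsS hP.le hZ))
  have hF := (prime_FrobeniusP (Sylow_ne_bot hP h.pd) hb.prime_a).2
    ⟨sdprod_coprime (norms_cycle.2 haP) (hb.cop hP.le), by
      rw [cent_cycle]
      exact trivg_pgroup_p'group (pgroup_sub inf_le_left hP.pgroup)
        ((p'group_of_not_dvd h.ca).of_le (inf_le_inf_right _ hP.le))⟩
  have h7 := (BG2c.proof.Frobenius_Wielandt_fixpoint hF (sup_le (hP.le.trans hn) (norms_cycle.2 ha))
    (coprime_pgroup_p'group h2 ((pgroup_p'group hP.pgroup hb.p2).sup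
      ((prime_piG hb.prime_a).2 (hb.card_a ▸ hb.r2)) (norms_cycle.2 haP))) (pgroup_sol h2)).1
  rw [centY, ← inf_assoc, h6, cent_cycle, inf_eq_left.2 hZa, hb.card_a] at h7
  have h8 := hm.card
  rw [← inf_assoc, inf_eq_left.2 hR, ← cent_cycle, hY.cent_a sp, cent_cycle, h3, h5] at h8
  have h9 := Lagrange (le_inf inf_le_left hZa : 𝐙(Q) ≤ Q ⊓ 𝐂[a])
  have h10 : ¬ 𝐙(Q).relIndex (Q ⊓ 𝐂[a]) ∣ 2 := fun e => by
    have h11 : IsMulCommutative ↥(Q ⊓ 𝐂[a]) := by_contra fun e' =>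
      index_center_not_dvd_prime e' Nat.prime_two ((indexgS _ (le_inf (le_inf inf_le_left hZa)
        (centsS inf_le_left inf_le_right))).trans e)
    have h12 := three_subgroup (A := ⁅Q, zpowers a⁆) (B := Q ⊓ 𝐂[a]) (C := zpowers a)
      (comm_bot.2 (((commgSS hR inf_le_left).trans hW).trans h.cen.ca))
      (by rw [comm_bot.2 inf_le_right, commutator_bot_left])
    rw [commGC (zpowers a), sp.comm] at h12
    have h13 : Q ⊓ 𝐂[a] ≤ 𝐙(Q) := le_inf inf_le_left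
      ((centsY (centsC.1 (commG1P.1 h12)) (abelianE.1 h11)).trans (centS hm.sup.ge))
    rw [indexg_eq1.2 h13, mul_one] at h9
    rw [← h9] at h7 h8
    have h14 := Nat.eq_of_mul_eq_mul_left (pow_pos Nat.card_pos r) h7
    rw [h14, mul_comm, pow_succ] at h8
    have := Nat.eq_of_mul_eq_mul_left Nat.card_pos h8
    have := Nat.one_lt_two_pow (n := 2 * n) (by omega)
    omega
  obtain ⟨e, he⟩ := (p_natP Nat.prime_two (indexg_ne0 _ _)).1
    (pnat_relIndex_of_isPGroup (pgroup_sub (inf_le_left : Q ⊓ 𝐂[a] ≤ Q) h2) 𝐙(Q))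
  rw [he] at h9 h10
  have e2 : 2 ≤ e := by
    by_contra! e'
    exact h10 (by simpa using pow_dvd_pow 2 (show e ≤ 1 by omega))
  rw [← h9] at h7 h8
  rw [mul_pow, mul_assoc] at h7
  rw [Nat.eq_of_mul_eq_mul_left (pow_pos Nat.card_pos r) h7, mul_comm #|𝐙(Q)|, ← mul_assoc,
    ← pow_add, ← pow_mul, mul_right_comm, ← pow_succ] at h8
  have h11 := Nat.pow_right_injective le_rfl (Nat.eq_of_mul_eq_mul_right Nat.card_pos h8)
  have := Nat.lt_two_pow_self (n := n)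
  rw [← h4] at h11
  nlinarith

omit hP haP in
theorem false : False := by
  obtain ⟨P, hP, haP⟩ := h.syl p le_rfl h.base.aX
  obtain ⟨T, hT, haT⟩ := h.syl 2 le_rfl h.base.aX
  have hb := h.base
  have nrm : ∀ N ≤ X, X ≤ 𝐍(N) → a ∈ 𝐍(N) → N ≤ 𝐂(X) ∨ N = X := fun N hN hn ha => by
    refine or_iff_not_imp_right.2 fun hne => h.cent_of_ca hn (by_contra fun hc => ?_)
    obtain ⟨S, h1, h2⟩ := h.syl 2 hN ha
    have h3 := MulEq.comm_eq (h.gen hN ha ((comm_le h2).trans h1.le) (norm_comm _ _)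
      (Sylow1.2 (h.nrm_p' hN hne hn ha)) (norms1 ⊤ trivial) bot_le h1 h2 le_rfl)
    rw [hb.commid (h1.le.trans hN) h2] at h3
    have h4 : ⁅N, zpowers a⁆ ≤ core {2} N := pcore_max' (h3 ▸ pgroup_sub (comm_le h2) h1.pgroup)
      (commg_normal_l (norms_cycle.2 ha))
    have h5 := (pcore_sub {2} N).trans hN
    have h6 : ¬ core {2} N ≤ 𝐂[a] := fun e => hc (comm_bot.1 (by
      rw [← hb.commid hN ha]; exact comm_bot.2 (h4.trans e)))
    refine h.solv hP haP h5 (pcore_isPGroup 2 N) (norms_pcore _ hn) (pcore_char _ _ ha)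
      (by_contra fun e => h6 (hb.star h5 (pcore_char _ _ ha) (abelianE.2 (centsS h5
        (h.cent_of_sup hP haP h5 (pcore_isPGroup 2 N) (norms_pcore _ hn) (pcore_char _ _ ha) e)))
        (h.two_p' (pcore_isPGroup 2 N)))) h6
  have hR := (comm_le haT).trans hT.le
  have h2 := pgroup_sub (comm_le haT) hT.pgroup
  have sp := hb.sp hR h2 (norm_comm _ _) (hb.commid hT.le haT)
  have hne := h.comm_ne hT haT
  have hA : X ⊓ 𝐍(⁅T, zpowers a⁆) ≠ X := fun e => by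
    rcases nrm _ hR (inf_eq_left.1 e) sp.aR with h1 | h1
    · exact hne (sp.comm ▸ comm_bot.2 (sp.star _ le_rfl sp.aR (abelianE.2 (centsS hR h1))))
    · exact (h.two_p' h2).not_dvd' hp.out rfl (h1.symm ▸ h.pd)
  have haA := normsI (norms_cycle.2 hb.aX) (norms_norm (norms_cycle.2 sp.aR)) (mem_zpowers a)
  refine qsstmt G p r V X (Wd X) _ a ⟨hb, h.cen, fun w h1 h2 h3 => ⟨h1, h2, h3⟩, sp, hR, hne, nrm,
    fun H h1 h3 h4 h5 => ?_, fun g hg hn => ?_,
    h.over_p' hT haT inf_le_left hA haA (subnorm_normal hR).le, ⟨T, hT, commg_norml _ _⟩, ?_, h.comm⟩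
  · rw [← sp.comm, ← MulEq.comm_eq (h.above hT haT h1 h3 h4 h5)]; exact commg_norml _ _
  · obtain ⟨t, ht, k, hk, e⟩ := (h.above hT haT inf_le_left hA haA (subnorm_normal hR).le).exists
      ⟨hg, hn⟩
    exact ⟨t, ht, k, hk.1.1, mem_cent1'.1 hk.2, e.symm⟩
  · refine (nrm _ (der_sub X) (der_norm X) (der_char X hb.aX)).resolve_left fun e => ?_
    exact Sylow_ne_bot hP h.pd (h.op hP.le hP.pgroup (nilpotent_Sylow_normal
      (quotient_center_nil.1 (abelian_nil (sub_der1_abelian (le_inf (der_sub X) e)))) hP).nz haP)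

end KM

end Cfsg.Agent.FP
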