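import Cfsg.Agent.Lib.FP.K2

/-! Row K. -/

open Subgroup
open scoped commutatorElement

set_option linter.unusedSectionVars false
set_option linter.style.haveILetI false

namespace Cfsg.Agent.FP

open FT Tr

universe u

theorem cst_pow_r {G : Type u} [Group G] {N : Subgroup G} {a : G} {r : ℕ} (ha : a ∈ 𝐍(N))
    (h : a ^ r = 1) : cst N a ^ r = 1 := by rw [← cst_pow ha, h, cst_one]

theorem cst_norm {G : Type u} [Group G] {N A : Subgroup G} {a : G} (h : a ∈ 𝐍(A)) :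
    cst N a ∈ 𝐍(A /c N) := quotient_norm N A (mem_quotient N h)

theorem pc_qt {G : Type u} [Group G] [Finite G] {p : ℕ} {N V X : Subgroup G} (hV : V ≤ 𝐍(N))
    (hX : X ≤ 𝐍(N)) (h : PC p (V /c N) (X /c N)) {x y : G} (hx : x ∈ X) (hy : y ∈ X)
    (h1 : PiElt {p} x) (h2 : PiElt {p} y) :
    ∃ n : ℕ, ∀ v ∈ V, v * (x * y) ^ p ^ n * v⁻¹ * ((x * y) ^ p ^ n)⁻¹ ∈ N := by
  obtain ⟨n, hn⟩ := h _ (mem_quotient N hx) _ (mem_quotient N hy) (h1.cst N) (h2.cst N)
  refine ⟨n, fun v hv => (commute_cst (hV hv) (pow_mem (hX (mul_mem hx hy)) _)).1 ?_⟩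
  rw [cst_pow (hX (mul_mem hx hy)), cst_mul (hX hx) (hX hy)]
  exact hn _ (mem_quotient N hv)

theorem kstmt : KStmt.{u} := by
  intro G _ _ p r hp V X a p2 hr
  induction hn : #|V| + #|X| using Nat.strong_induction_on generalizing G with
  | _ n ih =>
  intro hV XV aV aX ar rX VX fpf ca
  rcases eq_or_ne V ⊥ with rfl | V1
  · exact fun x _ y _ _ _ => ⟨0, by rw [cent1T]; trivial⟩
  haveI := Fact.mk hr
  have ord : orderOf a = r := orderOf_eq_prime ar fun e => V1 (by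
    rwa [e, cent1_one, inf_top_eq] at fpf)
  have rV : ¬ r ∣ #|V| := fun e => by
    obtain rfl := eq_of_dvd_card_pgroup hV hr e
    refine pgroup_fix_ne_bot (P := zpowers a) (p_elt_iff_isPGroup.1 (p_eltE.2 ⟨1, by
      rw [ord, pow_one]⟩)) hV (norms_cycle.2 aV) V1 (by rwa [cent_cycle])
  have cop : ∀ {N K : Subgroup G}, ¬ r ∣ #|K| → N ≤ K → (#|N|).Coprime (orderOf a) :=
    fun h1 h2 => ord ▸ ((Nat.Prime.coprime_iff_not_dvd hr).2 fun e => h1 (e.trans (cardSg h2))).symm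
  by_cases hf : X ⊓ 𝐂(V) = ⊥
  swap
  · set N := X ⊓ 𝐂(V) with hN
    have h1 : V ≤ 𝐍(N) := cents_norm (centsC.1 inf_le_right)
    have h2 : X ≤ 𝐍(N) := norms_subcent (normG X) XV
    have h3 : a ∈ 𝐍(N) := norms_subcent (norms_cycle.2 aX) (norms_cycle.2 aV) (mem_zpowers a)
    have h4 : N ⊓ V = ⊥ := le_bot_iff.1 (VX ▸ le_inf inf_le_right (inf_le_left.trans inf_le_left))
    have := ih _ (hn ▸ add_lt_add_of_le_of_lt (Nat.le_of_dvd Nat.card_pos (dvdn_quotient V N))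
      (ltn_quotient hf inf_le_left)) (Coset N) (V /c N) (X /c N) (cst N a) rfl
      ((quotient_pgroup N (piG_of_isPGroup hV)).isPGroup) (quotient_norms N XV) (cst_norm aV)
      (cst_norm aX) (cst_pow_r h3 ar) (fun e => rX (e.trans (dvdn_quotient X N)))
      (by rw [← quotientIG _ inf_le_left, VX, quotient1])
      (by rw [← coprime_norm_quotient_cent1 aV h3 (cop rX inf_le_left), fpf, quotient1])
      (by
        rw [← coprime_norm_quotient_cent1 aX h3 (cop rX inf_le_left)]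
        exact fun e => ca (e.trans (dvdn_quotient _ N)))
    intro x hx y hy h5 h6
    obtain ⟨m, hm⟩ := pc_qt h1 h2 this hx hy h5 h6
    refine ⟨m, fun v hv => ?_⟩
    have h7 : v * (x * y) ^ p ^ m * v⁻¹ * ((x * y) ^ p ^ m)⁻¹ ∈ N ⊓ V := ⟨hm v hv, by
      simpa [mul_assoc] using mul_mem hv
        ((memJ_norm (XV (pow_mem (mul_mem hx hy) (p ^ m)))).2 (inv_mem hv))⟩
    rwa [h4, mem_bot, mul_inv_eq_one, mul_inv_eq_iff_eq_mul] at h7
  by_cases hU : ∃ U < V, U ≠ ⊥ ∧ V ≤ 𝐍(U) ∧ X ≤ 𝐍(U) ∧ a ∈ 𝐍(U)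
  · obtain ⟨U, h0, U1, h1, h2, h3⟩ := hU
    have i1 := ih _ (hn ▸ add_lt_add_of_lt_of_le (proper_card h0) le_rfl) G U X a rfl
      (pgroup_sub h0.le hV) h2 h3 aX ar rX (le_bot_iff.1 (VX ▸ inf_le_inf_right _ h0.le))
      (le_bot_iff.1 (fpf ▸ inf_le_inf_right _ h0.le)) ca
    have i2 := ih _ (hn ▸ add_lt_add_of_lt_of_le (ltn_quotient U1 h0.le)
      (Nat.le_of_dvd Nat.card_pos (dvdn_quotient X U))) (Coset U) (V /c U) (X /c U) (cst U a) rfl
      ((quotient_pgroup U (piG_of_isPGroup hV)).isPGroup) (quotient_norms U XV) (cst_norm aV)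
      (cst_norm aX) (cst_pow_r h3 ar) (fun e => rX (e.trans (dvdn_quotient X U)))
      (by rw [← quotientGI h0.le, VX, quotient1])
      (by rw [← coprime_norm_quotient_cent1 aV h3 (cop rV h0.le), fpf, quotient1])
      (by
        rw [← coprime_norm_quotient_cent1 aX h3 (cop rV h0.le)]
        exact fun e => ca (e.trans (dvdn_quotient _ U)))
    intro x hx y hy h5 h6
    obtain ⟨m, hm⟩ := pc_qt h1 h2 i2 hx hy h5 h6
    obtain ⟨l, hl⟩ := i1 x hx y hy h5 h6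
    obtain ⟨j, k, hk, e⟩ := Nat.exists_eq_pow_mul_and_not_dvd (orderOf_pos (x * y)).ne' p
      hp.out.ne_one
    refine ⟨m + l + j, zpowers_le.1 (coprime_stable_cent (N := U) (commg_le.2 fun v hv b hb => ?_)
      (zpowers_le.2 ?_) ?_)⟩
    · have h7 : zpowers ((x * y) ^ p ^ (m + l + j)) ≤ qpre U 𝐂[cst U v] := zpowers_le.2 (by
        rw [add_assoc, pow_add, pow_mul]
        have := pow_mem (h2 (mul_mem hx hy)) (p ^ m)
        exact pow_mem (mem_qpre.2 ⟨this, mem_cent1.2 ((commute_cst (h1 hv) this).2 (hm v hv)).symm⟩) _)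
      obtain ⟨h8, h9⟩ := mem_qpre.1 (h7 hb)
      exact (commute_cst (h1 hv) h8).1 (mem_cent1.1 h9).symm
    · rw [add_comm m, add_assoc, pow_add, pow_mul]; exact pow_mem hl _
    · rw [card_cycle]
      obtain ⟨i, hi⟩ := card_pgroup (pgroup_sub h0.le hV)
      rw [hi]
      refine (((Nat.Prime.coprime_iff_not_dvd hp.out).2 hk).coprime_dvd_right
        (orderOf_dvd_of_pow_eq_one ?_)).pow_left i
      rw [← pow_mul, pow_add, mul_assoc, ← e, mul_comm, pow_mul, pow_orderOf_eq_one, one_pow]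
  push Not at hU
  have ab : Abelem p V := (trivg_Phi hV).1 (by_contra fun e => hU _ (Phi_proper V1) e
    (Phi_normal V).nz (XV.trans (Phi_char V)) (Phi_char V aV))
  by_cases pd : p ∣ #|X|
  swap
  · intro x hx y hy h1 h2
    have := p'group_of_not_dvd pd
    rw [eq_one_of_p_elt h1 (mem_p_elt this hx), eq_one_of_p_elt h2 (mem_p_elt this hy)]
    exact ⟨0, by simp [one_mem]⟩
  exfalso
  by_cases r2 : r = 2
  · subst r2
    have a2 : a * a = 1 := by rw [← pow_two, ar]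
    have inv : ∀ v ∈ V, a * v * a⁻¹ = v⁻¹ := fun v hv => by
      have h2 := (memJ_norm aV).2 hv
      have h3 : v * (a * v * a⁻¹) ∈ V ⊓ 𝐂[a] := ⟨mul_mem hv h2, cent1_conj'.2 (by
        calc _ = a * v * a⁻¹ * (a * a * v * (a * a)⁻¹) := by group
          _ = _ := by rw [a2, abelianP.1 (abelem_abelian ab) v hv _ h2]; group)⟩
      rw [fpf, mem_bot] at h3
      exact eq_inv_of_mul_eq_one_right h3
    refine ca (by
      rwa [inf_eq_left.2 fun x hx => cent1_conj'.2 ?_])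
    have h4 : x⁻¹ * (a * x * a⁻¹) ∈ X ⊓ 𝐂(V) := mem_inf.2 ⟨mul_mem (inv_mem hx)
      ((memJ_norm aX).2 hx), fun v hv => by
        have h5 := inv _ ((memJ_norm (XV hx)).2 (inv_mem hv))
        have h6 := inv _ (inv_mem hv)
        calc _ = x⁻¹ * (x * v⁻¹ * x⁻¹)⁻¹ * (a * x * a⁻¹) := by group
          _ = x⁻¹ * (a * x * a⁻¹) * (a * v⁻¹ * a⁻¹) := by rw [← h5]; group
          _ = _ := by rw [h6, inv_inv]⟩
    rw [hf, mem_bot, inv_mul_eq_one] at h4
    exact h4.symm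
  refine KM.false ⟨⟨p2, hr, r2, ab, XV, aV, aX, ord, rX, rV, fpf, hf⟩, fun U h1 h2 h3 => ?_, ca, pd,
    fun H h1 h2 h3 x hx y hy h4 h5 => ?_⟩
  · by_contra! e
    exact hU U (lt_of_le_of_ne h1 e.2) e.1 (cents_norm (centsS h1 (abelianE.1 (abelem_abelian ab))))
      h2 h3
  · obtain ⟨m, hm⟩ := ih _ (hn ▸ add_lt_add_of_le_of_lt le_rfl (proper_card (lt_of_le_of_ne h1 h2)))
      G V H a rfl hV (h1.trans XV) aV h3 ar (fun e => rX (e.trans (cardSg h1)))
      (le_bot_iff.1 (VX ▸ inf_le_inf_left _ h1))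
      fpf (fun e => ca (e.trans (cardSg (inf_le_inf_right _ h1)))) x hx y hy h4 h5
    exact p_elt_exp.2 ⟨m, mem_bot.1 (hf ▸ (⟨pow_mem (h1 (mul_mem hx hy)) _, hm⟩ : _ ∈ X ⊓ 𝐂(V)))⟩

end Cfsg.Agent.FP
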