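import Cfsg.Agent.Lib.FP.Ch

/-! The configuration `QS`: pairs of points, the TI property and (S1). -/

open Subgroup
open scoped commutatorElement

set_option linter.unusedSectionVars false

namespace Cfsg.Agent.FP

open FT Tr

universe u

variable {G : Type u} [Group G] [Finite G] {p r : ℕ} {V X H R R' W Y : Subgroup G}
  {a a' g k s t z : G}

/-- `Z(R) W` -/
def Zh (W R : Subgroup G) : Subgroup G := 𝐙(R) ⊔ W

theorem W_le_Zh : W ≤ Zh W R := le_sup_right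

theorem Z_le_Zh : 𝐙(R) ≤ Zh W R := le_sup_left

theorem Base.exists_conj (h : Base p r V X a) (h' : Base p r V X a') (hH : H ≤ X) (ha : a ∈ 𝐍(H))
    (ha' : a' ∈ 𝐍(H)) (hm : a' * a⁻¹ ∈ H) : ∃ g ∈ H, a' = g * a * g⁻¹ := by
  have e : H ⊔ zpowers a' = H ⊔ zpowers a := le_antisymm
    (sup_le le_sup_left (zpowers_le.2 (by
      simpa using mul_mem (mem_sup_left hm) (mem_sup_right (mem_zpowers a) : a ∈ H ⊔ _))))
    (sup_le le_sup_left (zpowers_le.2 (by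
      simpa using mul_mem (mem_sup_left (inv_mem hm))
        (mem_sup_right (mem_zpowers a') : a' ∈ H ⊔ _))))
  obtain ⟨g, hg, e2⟩ := SchurZassenhaus_trans (sdprod_coprime (norms_cycle.2 ha) (h.cop hH))
    (e ▸ sdprod_coprime (norms_cycle.2 ha') (h'.cop hH)) (h.cop hH) (zsol _ _)
  refine ⟨g, hg, ?_⟩
  have h1 : g * a * g⁻¹ * a'⁻¹ ∈ H ⊓ zpowers a' := mem_inf.2 ⟨by
    have := mul_mem (mul_mem hg ((memJ_norm ha).2 (inv_mem hg))) (inv_mem hm)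
    convert this using 1; group,
    mul_mem (e2 ▸ conj_mem_cj.2 (mem_zpowers a)) (inv_mem (mem_zpowers a'))⟩
  rw [coprime_TIg (h'.cop hH), mem_bot, mul_inv_eq_one] at h1
  exact h1.symm

namespace Cen

variable (h : Cen V X W a)
include h

theorem cm {w x : G} (hw : w ∈ W) (hx : x ∈ X) : x * w = w * x := h.cX hw x hx

theorem nrm {x : G} (hx : x ∈ X) : x ∈ 𝐍(W) := cent_sub W (centsC.1 h.cX hx)

theorem conj (hg : g ∈ X) : Cen V X W (g * a * g⁻¹) :=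
  { h with ca := by rw [cent1J, le_cj_iff_cj_inv_le, cj_eq_of_mem_normalizer (inv_mem (h.nrm hg))]
                    exact h.ca }

end Cen

namespace QS

variable (h : QS p r V X W R a)
include h

theorem mem_Zh : z ∈ Zh W R ↔ ∃ c ∈ 𝐙(R), ∃ w ∈ W, c * w = z :=
  mem_join_norm (cents_norm (centsS (inf_le_left.trans h.le) h.cen.cX))

theorem Zh_le : Zh W R ≤ X := sup_le (inf_le_left.trans h.le) h.cen.le

theorem Zh_cent : Zh W R ≤ 𝐂(R) := sup_le inf_le_right (centsS h.le h.cen.cX)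

theorem Zh_ca (hz : z ∈ Zh W R) : Commute z a :=
  mem_cent1'.1 ((sup_le (fun _ hx => mem_cent1'.2 (h.sp.ca hx)) h.cen.ca : Zh W R ≤ 𝐂[a]) hz)

theorem Zh_comm {z' : G} (hz : z ∈ Zh W R) (hz' : z' ∈ Zh W R) : Commute z z' :=
  (centsP.1 (centsY (centsS inf_le_left h.Zh_cent) (centsC.1 (centsS h.Zh_le h.cen.cX))) z hz z' hz')

theorem Zh_two (hz : z ∈ Zh W R) : z * z = 1 := by
  obtain ⟨c, hc, w, hw, rfl⟩ := h.mem_Zh.1 hz
  rw [mul_assoc, ← mul_assoc w, ← h.cen.cm hw (h.le hc.1), mul_assoc, h.cen.two w hw, mul_one,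
    h.sp.two c hc]

theorem Zh_inv (hz : z ∈ Zh W R) : z⁻¹ = z := inv_eq_of_mul_eq_one_right (h.Zh_two hz)

theorem norm_Zh (hg : g ∈ X) (hn : g ∈ 𝐍(R)) : g ∈ 𝐍(Zh W R) :=
  normsY (norms_cycle.2 (center_norm R hn)) (norms_cycle.2 (h.cen.nrm hg)) (mem_zpowers g)

theorem a_norm_Zh : a ∈ 𝐍(Zh W R) := cent_sub _ fun _ hz => h.Zh_ca hz

theorem Zh_pgroup : IsPGroup 2 (Zh W R) :=
  isPGroup_iff_forall_mem.2 fun z hz => ⟨1, by rw [pow_one, pow_two, h.Zh_two hz]⟩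

theorem nonab : ¬ IsMulCommutative R := fun e =>
  h.ne (h.sp.comm ▸ comm_bot.2 (h.sp.star R le_rfl h.sp.aR e))

theorem not_norm : ¬ X ≤ 𝐍(R) := fun e => by
  rcases h.nrm R h.le e h.sp.aR with h1 | h1
  · exact h.nonab (abelianE.2 (centsS h.le h1))
  · exact (sol_der1_proper (pgroup_sol h.sp.p2) h.ne).ne (h1 ▸ h1.symm ▸ h.perf)

theorem comm_le_R (hH : H ≤ X) (hn : H ≤ 𝐍(R)) : ⁅H, zpowers a⁆ ≤ R := commg_le.2 fun g hg b hb => by
  obtain ⟨t, ht, k, -, hk, rfl⟩ := h.dec g (hH hg) (hn hg)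
  have h1 : Commute k b := by obtain ⟨n, rfl⟩ := hb; exact hk.zpow_right n
  have := mul_mem ht ((memJ_norm (norms_cycle.2 h.sp.aR hb)).2 (inv_mem ht))
  convert this using 1
  calc _ = t * (k * b * k⁻¹) * t⁻¹ * b⁻¹ := by group
    _ = _ := by rw [h1.mul_inv_cancel]; group

theorem conj (hg : g ∈ X) : QS p r V X W (cj g R) (g * a * g⁻¹) := by
  have eX := cj_eq_of_mem hg
  have eX' := cj_eq_of_mem (inv_mem hg)
  refine ⟨h.base.conj (h.base.XV hg) (normG X hg), h.cen.conj hg, h.allW, h.sp.conj g,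
    cj_le_of_mem h.le hg, mt cj_eq_bot.1 h.ne, fun N h1 h2 h3 => h.nrm N h1 h2 ?_,
    fun H h1 h2 h3 h4 => ?_, fun x hx hn => ?_, by rw [normJ, ← eX, ← cj_inf, card_cj]; exact h.p'N,
    ?_, h.perf, by rw [← cj_zpowers, ← eX, ← cj_commutator, h.comm]⟩
  · exact (memJ_norm (normG _ (h2 hg))).1 h3
  · rw [normJ, le_cj_iff_cj_inv_le]
    exact h.ctl _ (cj_le_of_mem h1 (inv_mem hg)) (fun e => h2 (cj_inj.1 (e.trans eX'.symm)))
      (by rw [normJ, mem_cj_inv]; exact h3) (cj_le_iff_le_cj_inv.1 h4)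
  · rw [normJ, mem_cj] at hn
    obtain ⟨t, ht, k, hk, hc, e⟩ := h.dec _ (mul_mem (mul_mem (inv_mem hg) hx) hg) hn
    refine ⟨_, conj_mem_cj.2 ht, g * k * g⁻¹, mul_mem (mul_mem hg hk) (inv_mem hg),
      hc.conj g, ?_⟩
    rw [conj_mul, ← e]; group
  · obtain ⟨T, h1, h2⟩ := h.syl
    exact ⟨cj g T, (SylowJ hg).2 h1, by rw [normJ]; exact cj_mono g h2⟩

theorem conj' (hg : g ∈ X) (hn : g ∈ 𝐍(R)) : QS p r V X W R (g * a * g⁻¹) := by
  have := h.conj hg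
  rwa [cj_eq_of_mem_normalizer hn] at this

theorem cent_ne (hz : z ∈ Zh W R) (hW : z ∉ W) : X ⊓ 𝐂[z] ≠ X := fun e =>
  hW (h.allW z (h.Zh_le hz) (sub_cent1.1 (inf_eq_left.1 e)) (h.Zh_two hz))

theorem le_cent (hz : z ∈ Zh W R) : R ≤ X ⊓ 𝐂[z] := le_inf h.le (sub_cent1.2 (h.Zh_cent hz))

omit h in
theorem norm_cent (ha : a ∈ 𝐍(X)) (hz : Commute z a) : a ∈ 𝐍(X ⊓ 𝐂[z]) :=
  normsIG' (norms_cycle.2 ha) (zpowers_le.2 (mem_cent1'.2 hz.symm))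
where normsIG' (h1 : zpowers a ≤ 𝐍(X)) (h2 : zpowers a ≤ 𝐂[z]) : a ∈ 𝐍(X ⊓ 𝐂[z]) :=
  normsI h1 (normsG h2) (mem_zpowers a)

theorem cent_norm (hz : z ∈ Zh W R) (hW : z ∉ W) (hg : g ∈ X) (hc : Commute g z) : g ∈ 𝐍(R) :=
  h.ctl _ inf_le_left (h.cent_ne hz hW) (norm_cent h.base.aX (h.Zh_ca hz)) (h.le_cent hz)
    ⟨hg, mem_cent1'.2 hc⟩

end QS

/-- Two points. -/
structure Pr (p r : ℕ) (V X W R : Subgroup G) (a : G) (R' : Subgroup G) (a' : G) : Prop where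
  q : QS p r V X W R a
  q' : QS p r V X W R' a'
  mem : a' * a⁻¹ ∈ X
  cj : ∃ g ∈ X, R' = cj g R

theorem QS.pr (h : QS p r V X W R a) (hg : g ∈ X) :
    Pr p r V X W R a (cj g R) (g * a * g⁻¹) :=
  ⟨h, h.conj hg, by
    have := mul_mem hg ((memJ_norm h.base.aX).2 (inv_mem hg))
    convert this using 1; group, g, hg, rfl⟩

namespace Pr

variable (h : Pr p r V X W R a R' a')
include h

theorem symm : Pr p r V X W R' a' R a :=
  ⟨h.q', h.q, by simpa using inv_mem h.mem, by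
    obtain ⟨g, hg, e⟩ := h.cj
    exact ⟨g⁻¹, inv_mem hg, by rw [e, cj_inv_cj]⟩⟩

theorem right (hg : g ∈ X) (hn : g ∈ 𝐍(R')) : Pr p r V X W R a R' (g * a' * g⁻¹) :=
  ⟨h.q, h.q'.conj' hg hn, by
    have := mul_mem (mul_mem hg ((memJ_norm h.q'.base.aX).2 (inv_mem hg))) h.mem
    convert this using 1; group, h.cj⟩

theorem left (hg : g ∈ X) (hn : g ∈ 𝐍(R)) : Pr p r V X W R (g * a * g⁻¹) R' a' :=
  (h.symm.right hg hn).symm

theorem card_Zh : #|Zh W R'| = #|Zh W R| := by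
  obtain ⟨g, hg, rfl⟩ := h.cj
  rw [Zh, centerJ, ← cj_eq_of_mem_normalizer (h.q.cen.nrm hg), ← cj_sup, card_cj,
    cj_eq_of_mem_normalizer (h.q.cen.nrm hg), Zh]

/-- (Syl2) -/
theorem eq_of_le (hH : H ≤ X) (hne : H ≠ X) (ha : a ∈ 𝐍(H)) (ha' : a' ∈ 𝐍(H)) (hm : a' * a⁻¹ ∈ H)
    (h1 : R ≤ H) (h2 : R' ≤ H) : R = R' := by
  have h3 := h.q.ctl H hH hne ha h1
  obtain ⟨g, hg, rfl⟩ := h.q.base.exists_conj h.q'.base hH ha ha' hm
  have h4 := (h.q.conj' (hH hg) (h3 hg)).comm_le_R h.q'.le (h2.trans h3)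
  rw [h.q'.sp.comm] at h4
  obtain ⟨x, -, e⟩ := h.cj
  exact (eq_of_le_of_card_ge h4 (by rw [e, card_cj])).symm

/-- (TI) -/
theorem ti (hz : z ∈ Zh W R) (hz' : z ∈ Zh W R') (hW : z ∉ W) : R = R' :=
  h.eq_of_le inf_le_left (h.q.cent_ne hz hW) (QS.norm_cent h.q.base.aX (h.q.Zh_ca hz))
    (QS.norm_cent h.q'.base.aX (h.q'.Zh_ca hz'))
    ⟨h.mem, mem_cent1'.2 ((h.q'.Zh_ca hz').mul_right (h.q.Zh_ca hz).inv_right).symm⟩
    (h.q.le_cent hz) (h.q'.le_cent hz')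

theorem mem_W (hne : R ≠ R') (hz : z ∈ Zh W R) (hz' : z ∈ Zh W R') : z ∈ W :=
  by_contra fun e => hne (h.ti hz hz' e)

end Pr

theorem Zh_cj (hg : g ∈ 𝐍(W)) : Zh W (cj g R) = cj g (Zh W R) := by
  rw [Zh, Zh, centerJ, cj_sup, cj_eq_of_mem_normalizer hg]

/-- (TI'): an element which normalizes `z W` normalizes `R`. -/
theorem QS.norm_of (h : QS p r V X W R a) (hz : z ∈ Zh W R) (hW : z ∉ W) (hg : g ∈ X)
    (hc : ⁅g, z⁆ ∈ W) : g ∈ 𝐍(R) := by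
  have h1 : g * z * g⁻¹ ∈ Zh W R := by
    simpa [commutatorElement_def] using mul_mem (W_le_Zh hc) hz
  refine cj_eq_iff.1 ((h.pr hg).ti h1 ?_ fun e => hW ((memJ_norm (h.cen.nrm hg)).1 e)).symm
  rw [Zh_cj (h.cen.nrm hg)]; exact conj_mem_cj.2 hz

end Cfsg.Agent.FP
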