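import Cfsg.Agent.Lib.FP.Loc1

/-! The configuration `QS`: (S1). -/

open Subgroup
open scoped commutatorElement

set_option linter.unusedSectionVars false

namespace Cfsg.Agent.FP

open FT Tr

universe u

variable {G : Type u} [Group G] [Finite G] {p r : ℕ} [Fact p.Prime] {V X H R R' W Y : Subgroup G}
  {a a' g k s t y z : G}

theorem QS.norm_of' (h : QS p r V X W R a) (hz : z ∈ Zh W R) (hW : z ∉ W) (hg : g ∈ X)
    (hc : g⁻¹ * (z * g * z⁻¹) ∈ W) : g ∈ 𝐍(R) :=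
  (𝐍(R)).inv_mem_iff.1 (h.norm_of hz hW (inv_mem hg) (by
    simpa [commutatorElement_def, mul_assoc] using hc))

theorem QS.sq_cent (h : QS p r V X W R a) (hz : z ∈ Zh W R) (H : Subgroup G) : z * z ∈ H := by
  rw [h.Zh_two hz]; exact one_mem _

namespace Pr

variable (h : Pr p r V X W R a R' a) (hne : R ≠ R') (hs : s ∈ Zh W R') (hW : s ∉ W) (hn : s ∈ 𝐍(R))
include h hne hs hW

theorem s1_cent : s ∉ 𝐂(R) := fun e =>
  hne (h.eq_of_le inf_le_left (h.q'.cent_ne hs hW) (QS.norm_cent h.q.base.aX (h.q'.Zh_ca hs))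
    (QS.norm_cent h.q.base.aX (h.q'.Zh_ca hs)) (by rw [mul_inv_cancel]; exact one_mem _)
    (le_inf h.q.le (sub_cent1.2 e)) (h.q'.le_cent hs))

include hn

theorem s1_fixm : ⁅Sp.fixm R s hn, zpowers a⁆ ≤ ⁅R ⊓ R', zpowers a⁆ := by
  have h1 := h.q.sp.norm_fixm (hk := hn) (h.q'.Zh_ca hs)
  have h2 := (comm_le h1).trans Sp.fixm_le
  rw [← h.q.sp.commid Sp.fixm_le h1]
  refine commSg _ (le_inf h2 ?_)
  rw [← h.q.sp.commid Sp.fixm_le h1]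
  exact h.q'.comm_le_R (h2.trans h.q.le) fun x hx => h.q'.cent_norm hs hW (h.q.le (h2 hx))
    (mem_cent1'.1 (h.q.sp.comm_fixm (h.q'.Zh_ca hs) hx))

theorem s1_dec (ht : t ∈ R) :
    ∃ y ∈ ⁅R ⊓ R', zpowers a⁆, ∃ z ∈ 𝐙(R), t⁻¹ * (s * t * s⁻¹) = y * z := by
  obtain ⟨y, hy, e⟩ := h.q.sp.dec Sp.fixm_le (h.q.sp.norm_fixm (hk := hn) (h.q'.Zh_ca hs))
    (h.q.sp.mv_le_fixm (h.q'.sq_cent hs _) (h.q.sp.mem_mv_self ht))
  exact ⟨y, h.s1_fixm hne hs hW hn hy, e⟩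

omit hs hW hn hne in
theorem s1_le : ⁅R ⊓ R', zpowers a⁆ ≤ R ⊓ R' :=
  comm_le (normsI (norms_cycle.2 h.q.sp.aR) (norms_cycle.2 h.q'.sp.aR) (mem_zpowers a))

theorem s1_YY : YY W R ⁅R ⊓ R', zpowers a⁆ a := by
  have hD := normsI (norms_cycle.2 h.q.sp.aR) (norms_cycle.2 h.q'.sp.aR) (mem_zpowers a)
  refine ⟨h.s1_le.trans inf_le_left, norm_comm _ _, h.q.sp.commid inf_le_left hD, fun e => ?_,
    commg_le.2 fun x hx y hy => h.mem_W hne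
      (Z_le_Zh (h.q.sp.cz (h.s1_le hx).1 (h.s1_le hy).1))
      (Z_le_Zh (h.q'.sp.cz (h.s1_le hx).2 (h.s1_le hy).2))⟩
  refine h.s1_cent hne hs hW (h.q.sp.cent_of_fixm hn (h.q'.Zh_ca hs) fun t ht => ?_)
  obtain ⟨y, hy, z, hz, e'⟩ := h.s1_dec hne hs hW hn ht
  rw [e, mem_bot] at hy
  rwa [e', hy, one_mul]

theorem s1_comm (ht : t ∈ R) (hy : y ∈ ⁅R ⊓ R', zpowers a⁆) : ⁅t, y⁆ ∈ Zh W R ⊓ 𝐍(R') := by
  have hY := h.s1_YY hne hs hW hn
  have hz := h.q.sp.cz ht (hY.le hy)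
  obtain ⟨y', hy', z', hz', e⟩ := h.s1_dec hne hs hW hn ht
  refine ⟨Z_le_Zh hz, h.q'.norm_of' hs hW (h.q.le hz.1) ?_⟩
  have e1 : s * y * s⁻¹ = y := by rw [← h.q'.Zh_cent hs y (h.s1_le hy).2, mul_inv_cancel_right]
  rw [conjugate_commutatorElement, e1, ← mul_inv_cancel_left t (s * t * s⁻¹), e,
    h.q.sp.cmul ht (mul_mem (hY.le hy') hz'.1) (hY.le hy), inv_mul_cancel_left,
    h.q.sp.cmulZ (hY.le hy') hz' (hY.le hy)]
  exact hY.der (commutator_mem_commutator hy' hy)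

theorem s1_mv (ht : t ∈ R) : t⁻¹ * (s * t * s⁻¹) ∈ ⁅R ⊓ R', zpowers a⁆ ⊔ Zh W R ⊓ 𝐍(R') := by
  obtain ⟨y, hy, z, hz, e⟩ := h.s1_dec hne hs hW hn ht
  have hy' := h.s1_le hy
  rw [e]
  refine mul_mem (mem_sup_left hy) (mem_sup_right ⟨Z_le_Zh hz,
    h.q'.norm_of' hs hW (h.q.le hz.1) ?_⟩)
  have e1 : s * y * s⁻¹ = y := by rw [← h.q'.Zh_cent hs y hy'.2, mul_inv_cancel_right]
  have e2 : y * (s * z * s⁻¹) = z⁻¹ * y⁻¹ := by
    rw [← mul_inv_rev, ← e, ← e1, conj_mul, ← e, h.q'.Zh_inv hs]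
    simp only [mul_inv_rev, inv_inv, h.q'.Zh_inv hs, ← mul_assoc, h.q'.Zh_two hs, one_mul]
    rw [mul_assoc _ s s, h.q'.Zh_two hs, mul_one]
  have := inv_mem (h.mem_W hne (Z_le_Zh (h.q.sp.sq y hy'.1)) (Z_le_Zh (h.q'.sp.sq y hy'.2)))
  convert this using 1
  rw [← inv_mul_cancel_left y (s * z * s⁻¹), e2, inv_eq_of_mul_eq_one_right (h.q.sp.two z hz),
    ← mul_assoc y⁻¹, hz.2 _ (inv_mem hy'.1), ← mul_assoc, ← mul_assoc, h.q.sp.two z hz]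
  group

theorem s1_ex : ∃ z ∈ Zh W R, z ∉ W ∧ z ∈ 𝐍(R') := by
  by_contra! hc
  have hY := h.s1_YY hne hs hW hn
  refine h.s1_cent hne hs hW (h.q.sp.cent_of_fixm hn (h.q'.Zh_ca hs) fun t ht => ?_)
  obtain ⟨y, hy, z, hz, rfl⟩ := hY.mem_mul h.q.base h.q.cen h.q.sp h.q.le ht fun y hy => by
    have := h.s1_comm hne hs hW hn ht hy
    rw [h.q.sp.csymm (hY.le hy) ht]
    exact by_contra fun e => hc _ this.1 e this.2
  have e1 : s * y * s⁻¹ = y := by rw [← h.q'.Zh_cent hs y (h.s1_le hy).2, mul_inv_cancel_right]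
  rw [← conj_mul, e1, mul_inv_rev, mul_assoc, inv_mul_cancel_left]
  exact mul_mem (inv_mem hz) ((memJ_norm (center_norm R hn)).2 hz)

theorem s1_norm : R ≤ 𝐍(⁅R ⊓ R', zpowers a⁆ ⊔ (Zh W R ⊓ 𝐍(R') ⊔ Zh W R' ⊓ 𝐍(R))) := fun t ht => by
  refine mem_normalizer_of_cj_le ?_
  rw [cj_sup, cj_sup]
  refine sup_le (cj_le_iff.2 fun y hy => ?_) (sup_le (cj_le_iff.2 fun y hy => ?_)
    (cj_le_iff.2 fun y hy => ?_))
  · simpa [commutatorElement_def] using mul_mem (mem_sup_right (mem_sup_left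
      (h.s1_comm hne hs hW hn ht hy))) (mem_sup_left hy)
  · rw [h.q.Zh_cent hy.1 t ht, mul_inv_cancel_right]
    exact mem_sup_right (mem_sup_left hy)
  · by_cases e : y ∈ W
    · rw [h.q.cen.cm e (h.q.le ht), mul_inv_cancel_right]
      exact mem_sup_right (mem_sup_right hy)
    · have := mul_mem ((sup_le_sup_left le_sup_left _ : _ ≤ _ ⊔ (_ ⊔ Zh W R' ⊓ 𝐍(R)))
        (h.s1_mv hne hy.1 e hy.2 (inv_mem ht))) (mem_sup_right (mem_sup_right hy))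
      convert this using 1; group

theorem s1_false : False := by
  obtain ⟨z, hz, hzW, hzn⟩ := h.s1_ex hne hs hW hn
  have h1 := h.s1_norm hne hs hW hn
  have h2 := h.symm.s1_norm hne.symm hz hzW hzn
  rw [inf_comm R', sup_comm (Zh W R' ⊓ 𝐍(R))] at h2
  have hY := h.s1_YY hne hs hW hn
  set M := ⁅R ⊓ R', zpowers a⁆ ⊔ (Zh W R ⊓ 𝐍(R') ⊔ Zh W R' ⊓ 𝐍(R))
  have ha : zpowers a ≤ 𝐍(M) := normsY (commg_normr _ _) (normsY
    (normsI (norms_cycle.2 h.q.a_norm_Zh) (norms_norm (norms_cycle.2 h.q'.sp.aR)))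
    (normsI (norms_cycle.2 h.q'.a_norm_Zh) (norms_norm (norms_cycle.2 h.q.sp.aR))))
  have haH := normsI (norms_cycle.2 h.q.base.aX) (norms_norm ha) (mem_zpowers a)
  refine hne (h.eq_of_le inf_le_left (fun e => ?_) haH haH
    (by rw [mul_inv_cancel]; exact one_mem _) (le_inf h.q.le h1) (le_inf h.q'.le h2))
  rcases h.q.nrm M (sup_le (hY.le.trans h.q.le) (sup_le (inf_le_left.trans h.q.Zh_le)
    (inf_le_left.trans h.q'.Zh_le))) (inf_eq_left.1 e) (ha (mem_zpowers a)) with h3 | h3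
  · exact hY.nonab h.q.sp (abelianE.2 (centSS le_sup_left (hY.le.trans h.q.le) h3))
  · exact h.q.not_norm (h3 ▸ sup_le (normsG' hY.le) (sup_le
      (inf_le_left.trans (cents_norm h.q.Zh_cent)) inf_le_right))
where normsG' {A B : Subgroup G} (h : A ≤ B) : A ≤ 𝐍(B) := normsG h

end Pr

/-- (S1) -/
theorem Pr.s1 (h : Pr p r V X W R a R' a') (hs : s ∈ Zh W R') (hW : s ∉ W) (hn : s ∈ 𝐍(R))
    (ht : t ∈ R) (hc : Commute s (t * a * t⁻¹)) : R = R' := by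
  by_contra hne
  have h1 := h.left (h.q.le ht) (normG R ht)
  obtain ⟨g, hg, e⟩ := h.q'.base.exists_conj h1.q.base inf_le_left
    (QS.norm_cent h.q'.base.aX (h.q'.Zh_ca hs)) (QS.norm_cent h1.q.base.aX hc)
    ⟨h1.symm.mem, mem_cent1'.2 (hc.mul_right (h.q'.Zh_ca hs).inv_right).symm⟩
  have h2 := h1.right hg.1 (h.q'.cent_norm hs hW hg.1 (mem_cent1'.1 hg.2))
  rw [← e] at h2
  exact h2.s1_false hne hs hW hn

end Cfsg.Agent.FP
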