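import Cfsg.Agent.Lib.FP.Loc2

/-! The configuration `QS`: tools for the strong closure. -/

open Subgroup
open scoped commutatorElement

set_option linter.unusedSectionVars false

namespace Cfsg.Agent.FP

open FT Tr

universe u

variable {G : Type u} [Group G] [Finite G] {p r : ℕ} [Fact p.Prime] {V X H R R' W Y : Subgroup G}
  {a a' b c g k s t y z : G}

theorem comm_zpow (h : Commute k a) (hb : b ∈ zpowers a) : Commute k b := by
  obtain ⟨n, rfl⟩ := hb; exact h.zpow_right n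

theorem exists_fixed {A B : Subgroup G} (hA : IsPGroup 2 A) (hy : PiElt {2} y) (h1 : y ∈ 𝐍(A))
    (h2 : y ∈ 𝐍(B)) (h3 : A ≤ 𝐍(B)) (h : ¬ A ≤ B) : ∃ w ∈ A, w ∉ B ∧ ⁅y, w⁆ ∈ B := by
  obtain ⟨w, h4, h5, h6⟩ := exists_central_mod' (pgroup_nil (isPGroup_sup hA
    (p_elt_iff_isPGroup.1 hy) (norms_cycle.2 h1))) ⟨le_sup_left, sup_le (normG A)
      (norms_cycle.2 h1)⟩ (sup_le h3 (norms_cycle.2 h2)) h
  exact ⟨w, h4, h5, h6 y (mem_sup_right (mem_zpowers y))⟩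

namespace Sp

variable (h : Sp R a)
include h

theorem conj_mem (hb : b ∈ zpowers a) (ht : t ∈ R) : b * t * b⁻¹ ∈ R :=
  (memJ_norm (norms_cycle.2 h.aR hb)).2 ht

theorem conj_Z (hb : b ∈ zpowers a) (hz : z ∈ 𝐙(R)) : b * z * b⁻¹ = z :=
  (comm_zpow (h.ca hz) hb).symm.mul_inv_cancel

theorem exists_y (ho : Odd (orderOf a)) (ht : t ∈ R) (hc : c ∈ zpowers a) (hk : Commute t k)
    (hka : Commute k a) : ∃ y ∈ R, Commute y t ∧ Commute y k ∧ y * y = ⁅c * t * c⁻¹, t⁆ := by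
  obtain ⟨b, hb, rfl⟩ : ∃ b ∈ zpowers a, b * b = c := by
    obtain ⟨m, hm⟩ := ho
    refine ⟨c ^ (m + 1), pow_mem hc _, ?_⟩
    rw [← pow_add, show m + 1 + (m + 1) = orderOf a + 1 by omega, pow_succ,
      orderOf_dvd_iff_pow_eq_one.1 (orderOf_dvd_of_mem_zpowers hc), one_mul]
  have hu := h.conj_mem hb ht
  have hv := h.conj_mem (inv_mem hb) ht
  have hkb := (comm_zpow hka hb).symm
  refine ⟨_, mul_mem hu hv, commutatorElement_eq_one_iff_commute.1 ?_,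
    ((hkb.mul_left hk).mul_left hkb.inv_left).mul_left
      ((hkb.inv_left.mul_left hk).mul_left hkb.inv_left.inv_left), ?_⟩
  · rw [h.cmul hu hv ht, ← h.conj_Z hb (h.cz hv ht), conjugate_commutatorElement,
      show b * (b⁻¹ * t * b⁻¹⁻¹) * b⁻¹ = t by group, h.csymm ht hu, h.two _ (h.cz hu ht)]
  · rw [h.sq_mul hu hv, conj_mul, conj_mul, h.conj_Z hb (h.sq t ht),
      h.conj_Z (inv_mem hb) (h.sq t ht), h.two _ (h.sq t ht), one_mul,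
      ← h.conj_Z hb (h.cz hu hv), conjugate_commutatorElement]
    congr 1 <;> group

theorem sm (hW : W ≤ 𝐂[a]) (ht : t ∈ R) (hZ : t ∉ 𝐙(R)) (hk : Commute t k) (hka : Commute k a)
    (hc : ∀ c ∈ zpowers a, ⁅c * t * c⁻¹, t⁆ ∈ W) :
    ∃ Y, YY W R Y a ∧ Y ≤ 𝐂[k] ∧ ∃ y ∈ Y, ∃ z ∈ 𝐙(R), t = y * z := by
  let B := closure {x | ∃ c ∈ zpowers a, c * t * c⁻¹ = x}
  have hB : B ≤ R := (closure_le _).2 (by rintro _ ⟨c, hc, rfl⟩; exact h.conj_mem hc ht)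
  have ha : a ∈ 𝐍(B) := norms_gen (A := zpowers a) (by
    rintro b hb _ ⟨c, hc, rfl⟩; exact ⟨b * c, mul_mem hb hc, by group⟩) (mem_zpowers a)
  have hd : ∀ x ∈ B, ∀ y ∈ B, ⁅x, y⁆ ∈ W := fun x hx y hy => by
    induction hx, hy using closure_induction₂ with
    | mem x y hx hy =>
      obtain ⟨c, hc', rfl⟩ := hx
      obtain ⟨d, hd, rfl⟩ := hy
      have := hc _ (mul_mem (inv_mem hd) hc')
      rw [← (comm_zpow (mem_cent1'.1 (hW this)) hd).symm.mul_inv_cancel,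
        conjugate_commutatorElement] at this
      convert this using 2; group
    | one_left => rw [commutatorElement_one_left]; exact one_mem _
    | one_right => rw [commutatorElement_one_right]; exact one_mem _
    | mul_left x y z hx hy hz h1 h2 => rw [h.cmul (hB hx) (hB hy) (hB hz)]; exact mul_mem h1 h2
    | mul_right y z x hy hz hx h1 h2 => rw [h.cmul' (hB hy) (hB hz) (hB hx)]; exact mul_mem h1 h2
    | inv_left x y hx hy h1 => rwa [h.cinvl (hB hx) (hB hy)]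
    | inv_right x y hx hy h1 =>
      rwa [h.csymm (hB hx) (inv_mem (hB hy)), h.cinvl (hB hy) (hB hx), h.csymm (hB hy) (hB hx)]
  obtain ⟨y, hy, z, hz, e⟩ := h.dec hB ha (x := t) (subset_closure ⟨1, one_mem _, by group⟩)
  refine ⟨_, ⟨(comm_le ha).trans hB, norm_comm _ _, h.commid hB ha, fun e' => hZ ?_,
    commg_le.2 fun x hx y hy => hd x (comm_le ha hx) y (comm_le ha hy)⟩,
    (comm_le ha).trans ((closure_le _).2 ?_), y, hy, z, hz, e⟩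
  · rw [e', mem_bot] at hy
    rwa [e, hy, one_mul]
  · rintro _ ⟨c, hc, rfl⟩
    have := (comm_zpow hka hc).symm
    exact mem_cent1'.2 ((this.mul_left hk).mul_left this.inv_left)

end Sp

theorem QS.odd (h : QS p r V X W R a) : Odd (orderOf a) :=
  h.base.ord ▸ h.base.rp.odd_of_ne_two h.base.r2

namespace Pr

variable (h : Pr p r V X W R a R' a')
include h

theorem dec0 (hs : s ∈ Zh W R') (hn : s ∈ 𝐍(R)) : ∃ t ∈ R, ∃ k ∈ X, k ∈ 𝐍(R) ∧ Commute k a ∧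
    Commute t k ∧ s = t * k ∧ k * k ∈ 𝐙(R) := by
  obtain ⟨t, ht, k, hk, hka, e⟩ := h.q.dec s (h.q'.Zh_le hs) hn
  have hkn : k ∈ 𝐍(R) := by simpa [e] using mul_mem (inv_mem (normG R ht)) hn
  have e1 : k * k = (t * (k * t * k⁻¹))⁻¹ := by
    rw [eq_comm, inv_eq_iff_mul_eq_one, ← h.q'.Zh_two hs, e]; group
  have h1 : k * k ∈ 𝐙(R) := (h.q.sp.cen _ (e1 ▸ inv_mem (mul_mem ht ((memJ_norm hkn).2 ht)))).1
    (hka.mul_left hka)
  obtain ⟨z, hz, hc⟩ := h.q.sp.exists_commute hkn hka ht (by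
    have := mul_mem (inv_mem (h.q.sp.sq t ht)) (inv_mem h1)
    rw [e1] at this
    convert this using 1; group)
  refine ⟨_, mul_mem ht hz.1, z⁻¹ * k, mul_mem (inv_mem (h.q.le hz.1)) hk,
    mul_mem (inv_mem (normG R hz.1)) hkn, (h.q.sp.ca hz).inv_left.mul_left hka,
    (Commute.inv_right (hz.2 _ (mul_mem ht hz.1))).mul_right hc, by rw [e]; group, ?_⟩
  have := mul_mem (mul_mem (inv_mem hz) ((memJ_norm (center_norm R hkn)).2 (inv_mem hz))) h1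
  convert this using 1; group

theorem not_mv (hne : R ≠ R') (hs : t * k ∈ Zh W R') (hW : t * k ∉ W) (hk : k ∈ 𝐍(R))
    (hka : Commute k a) : t ∉ h.q.sp.mv k hk := fun hm => by
  have ht := h.q.sp.mv_le hm
  obtain ⟨u, hu, e⟩ := hm
  refine hne (h.s1 hs hW (mul_mem (normG R ht) hk) (inv_mem hu) ?_)
  set z := t⁻¹ * (u⁻¹ * (k * u * k⁻¹)) with hz
  have hz' := (memJ_norm' (center_norm R hk)).2 (inv_mem e)
  have e1 : t * k = u⁻¹ * (k * (k⁻¹ * z⁻¹ * k)) * u⁻¹⁻¹ := by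
    rw [inv_inv, mul_assoc, mul_assoc, ← hz'.2 u hu, hz]; group
  rw [e1]
  exact (hka.mul_left (h.q.sp.ca hz')).conj u⁻¹

variable (hne : R ≠ R')
include hne

theorem comm_mem (hs : s ∈ Zh W R' ⊓ 𝐍(R)) (hz : z ∈ Zh W R) : ⁅s, z⁆ ∈ Zh W R ⊓ 𝐍(R') := by
  have h1 : ⁅s, z⁆ ∈ Zh W R :=
    mul_mem ((memJ_norm (h.q.norm_Zh (h.q'.Zh_le hs.1) hs.2)).2 hz) (inv_mem hz)
  refine ⟨h1, ?_⟩
  by_cases e : s ∈ W
  · rw [commutatorElement_eq_one_iff_mul_comm.2 (h.q.cen.cm e (h.q.Zh_le hz)).symm]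
    exact one_mem _
  refine h.q'.cent_norm hs.1 e (h.q.Zh_le h1) (mem_cent1'.1 (cent1_conj'.2 ?_))
  refine Eq.trans ?_ (h.q.Zh_inv h1)
  simp only [commutatorElement_def, mul_inv_rev, inv_inv, h.q'.Zh_inv hs.1, ← mul_assoc,
    h.q'.Zh_two hs.1, one_mul]

omit hne in
theorem W_nrm : W ⊴ Zh W R ⊓ 𝐍(R') :=
  ⟨le_inf W_le_Zh (cents_norm (centsS h.q'.le h.q.cen.cX)),
    fun _ hx => h.q.cen.nrm (h.q.Zh_le hx.1)⟩

theorem cnt (hz : z ∈ Zh W R) (hn : z ∉ 𝐍(R')) :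
    #|Zh W R' ⊓ 𝐍(R)| ≤ #|Zh W R ⊓ 𝐍(R')| ∧ (#|Zh W R ⊓ 𝐍(R')| ≤ #|Zh W R' ⊓ 𝐍(R)| →
      ∀ n ∈ Zh W R ⊓ 𝐍(R'), ∃ s ∈ Zh W R' ⊓ 𝐍(R), ⁅s, z⁆⁻¹ * n ∈ W) := by
  have n1 := h.W_nrm
  have n2 := h.symm.W_nrm
  have hzn := h.q.cen.nrm (h.q.Zh_le hz)
  let f : ↥((Zh W R' ⊓ 𝐍(R)) /c W) → ↥((Zh W R ⊓ 𝐍(R')) /c W) := fun x => ⟨⁅x.1, cst W z⁆, by
    obtain ⟨s, hs, e⟩ := (mem_qt_of_le n2.nz).1 x.2
    rw [← e, ← cst_commutator (n2.nz hs) hzn]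
    exact mem_quotient W (h.comm_mem hne hs hz)⟩
  have hf : Function.Injective f := fun x x' e => by
    obtain ⟨s, hs, e1⟩ := (mem_qt_of_le n2.nz).1 x.2
    obtain ⟨s', hs', e2⟩ := (mem_qt_of_le n2.nz).1 x'.2
    have e3 : ⁅x.1, cst W z⁆ = ⁅x'.1, cst W z⁆ := congrArg Subtype.val e
    refine Subtype.ext ?_
    rw [← e1, ← e2] at e3 ⊢
    have hm := mul_mem (inv_mem hs) hs'
    refine (cst_eq_iff (n2.nz hs) (n2.nz hs')).2 (by_contra fun hW =>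
      hn (h.q'.norm_of hm.1 hW (h.q.Zh_le hz) ((commute_cst hzn (n2.nz hm)).1 ?_)))
    rw [cst_mul (inv_mem (n2.nz hs)) (n2.nz hs'), cst_inv]
    simp only [commutatorElement_def, mul_left_inj] at e3
    calc _ = (cst W s)⁻¹ * (cst W s * cst W z * (cst W s)⁻¹) * cst W s' := by group
      _ = _ := by rw [e3]; group
  have p0 : 0 < #|W| := Nat.card_pos
  rw [← card_quotient_mul n1, ← card_quotient_mul n2]
  refine ⟨Nat.mul_le_mul_left _ (Nat.card_le_card_of_injective f hf), fun hle n hn' => ?_⟩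
  obtain ⟨x, hx⟩ := ((Nat.bijective_iff_injective_and_card f).2 ⟨hf, le_antisymm
    (Nat.card_le_card_of_injective f hf) (Nat.le_of_mul_le_mul_left hle p0)⟩).2
    ⟨_, mem_quotient W hn'⟩
  obtain ⟨s, hs, e⟩ := (mem_qt_of_le n2.nz).1 x.2
  refine ⟨s, hs, (cst_eq_iff (n1.nz (h.comm_mem hne hs hz)) (n1.nz hn')).1 ?_⟩
  rw [cst_commutator (n2.nz hs) hzn, e]
  exact congrArg Subtype.val hx

theorem proper (hz : z ∈ Zh W R) (hn : z ∉ 𝐍(R')) : ¬ Zh W R' ≤ 𝐍(R) := fun e => by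
  have h1 := (h.cnt hne hz hn).1
  rw [inf_eq_left.2 e, h.card_Zh] at h1
  exact hn (inf_eq_left.1 (eq_of_le_of_card_ge inf_le_left h1) hz)

theorem sq_mem (hz : z ∈ Zh W R) (hn : z ∉ 𝐍(R')) (hy : y ∈ R) (hyn : y ∈ 𝐍(R')) : y * y ∈ W := by
  have hyX := h.q.le hy
  obtain ⟨w, hw, h1, h2⟩ := exists_fixed (B := Zh W R' ⊓ 𝐍(R)) h.q'.Zh_pgroup
    (mem_p_elt' h.q.sp.p2 hy) (h.q'.norm_Zh hyX hyn)
    (normsI (norms_cycle.2 (h.q'.norm_Zh hyX hyn)) (normsG (zpowers_le.2 (normG R hy)))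
      (mem_zpowers y))
    (cents_norm (centsP.2 fun x hx y hy => h.q'.Zh_comm hx hy.1))
    fun e => h.proper hne hz hn (e.trans inf_le_right)
  have h3 : w ∉ 𝐍(R) := fun e => h1 ⟨hw, e⟩
  obtain ⟨n, hn', h4⟩ := (h.symm.cnt hne.symm hw h3).2 (h.cnt hne hz hn).1 _ h2
  by_contra hW
  refine h3 (h.q.cent_norm (Z_le_Zh (h.q.sp.sq y hy)) hW (h.q'.Zh_le hw) ?_)
  have hc : y * n = n * y := h.q.Zh_cent hn'.1 y hy
  set v := ⁅n, w⁆⁻¹ * ⁅y, w⁆ with hv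
  have hu := mul_mem (inv_mem (h.q.Zh_le hn'.1)) hyX
  have e1 : n⁻¹ * y * w * (n⁻¹ * y)⁻¹ = w * v := by
    calc _ = w * ((w * n)⁻¹ * (v * (w * n))) := by
          rw [hv]; simp only [commutatorElement_def]; group
      _ = _ := by
        rw [← h.q.cen.cm h4 (mul_mem (h.q'.Zh_le hw) (h.q.Zh_le hn'.1)), inv_mul_cancel_left]
  have e2 : n⁻¹ * y * (n⁻¹ * y) = y * y := by
    rw [h.q.Zh_inv hn'.1, mul_assoc, ← mul_assoc y, hc, ← mul_assoc, ← mul_assoc,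
      h.q.Zh_two hn'.1, one_mul]
  refine mem_cent1'.1 (cent1_conj'.2 ?_)
  rw [← e2]
  calc _ = n⁻¹ * y * (n⁻¹ * y * w * (n⁻¹ * y)⁻¹) * (n⁻¹ * y)⁻¹ := by group
    _ = n⁻¹ * y * w * (n⁻¹ * y)⁻¹ * (n⁻¹ * y * v * (n⁻¹ * y)⁻¹) := by
      rw [conj_mul, e1]
    _ = w := by
      rw [e1, h.q.cen.cm h4 hu, mul_inv_cancel_right, mul_assoc, h.q.cen.two v h4, mul_one]

end Pr

end Cfsg.Agent.FP
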