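import Cfsg.Agent.Lib.FP.Loc3

/-! The configuration `QS`: `Z(R) W` is strongly closed (SC). -/

open Subgroup
open scoped commutatorElement

set_option linter.unusedSectionVars false

namespace Cfsg.Agent.FP

open FT Tr

universe u

variable {G : Type u} [Group G] [Finite G] {p r : ℕ} [Fact p.Prime] {V X H R R' W Y : Subgroup G}
  {a a' b c g k s t y z : G}

theorem YY.eq_of_le {Y' : Subgroup G} (hb : Base p r V X a) (hW : Cen V X W a) (hs : Sp R a)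
    (hR : R ≤ X) (h : YY W R Y a) (h' : YY W R Y' a) (hle : Y' ≤ Y) : Y' = Y := by
  obtain ⟨n, -, h1, h2⟩ := h.card hb hW hs hR
  obtain ⟨m, -, h3, h4⟩ := h'.card hb hW hs hR
  obtain rfl : n = m := Nat.pow_right_injective le_rfl (show 2 ^ n = 2 ^ m by omega)
  exact eq_of_le_of_card_ge hle (by rw [h1, h3])

theorem Sp.exists_fix (h : Sp R a) (hk : k ∈ 𝐍(R)) (hka : Commute k a) (hy : y ∈ R)
    (hc : Commute y k) (h2 : k * k ∈ 𝐂(R)) (ht : t ∈ R) :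
    ∃ z ∈ 𝐙(R), Commute (t⁻¹ * (k * t * k⁻¹) * z) (y * k) := by
  have hm := h.mv_le_fixm h2 (h.mem_mv_self (hk := hk) ht)
  obtain ⟨z, hz, e⟩ := h.exists_commute hk hka hm.1 hm.2
  have hc' := h.cz ht hy
  have hc2 := (memJ_norm (center_norm R hk)).2 hc'
  have he := mul_mem hc' hc2
  refine ⟨_, mul_mem hz hc', mem_cent1'.1 (cent1_conj.2 ?_)⟩
  have e1 : ⁅t⁻¹ * (k * t * k⁻¹) * z, y⁆ = ⁅t, y⁆ * (k * ⁅t, y⁆ * k⁻¹) := by
    rw [h.cmulZ hm.1 hz hy, h.cmul (inv_mem ht) ((memJ_norm hk).2 ht) hy, h.cinvl ht hy,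
      conjugate_commutatorElement, hc.symm.mul_inv_cancel]
  have e2 : ⁅t, y⁆ * (y * k) * ⁅t, y⁆⁻¹ = ⁅t, y⁆ * (k * ⁅t, y⁆ * k⁻¹) * (y * k) := by
    rw [h.cinv ht hy, mul_assoc ⁅t, y⁆ (k * _ * _), ← mul_assoc (k * _ * _) y k, ← hc2.2 y hy]
    group
  set u := t⁻¹ * (k * t * k⁻¹) * z
  set w := ⁅t, y⁆ * (k * ⁅t, y⁆ * k⁻¹)
  calc _ = u * (⁅t, y⁆ * (y * k) * ⁅t, y⁆⁻¹) * u⁻¹ := by simp only [u]; group
    _ = u * w * u⁻¹ * ⁅u, y⁆ * y * (u * k * u⁻¹) := by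
      rw [e2]; simp only [commutatorElement_def]; group
    _ = _ := by
      rw [e1, e.mul_inv_cancel, he.2 u (mul_mem hm.1 hz.1), mul_inv_cancel_right, h.two w he,
        one_mul]

theorem Sp.sq_comm (h : Sp R a) (hW : ∀ x ∈ H, x * x ∈ W) (hH : H ≤ R) {x : G} (hx : x ∈ H)
    (hy : y ∈ H) : ⁅x, y⁆ ∈ W := by
  have := mul_mem (inv_mem (mul_mem (hW x hx) (hW y hy))) (hW _ (mul_mem hx hy))
  rwa [h.sq_mul (hH hx) (hH hy), inv_mul_cancel_left] at this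

namespace Pr

variable (h : Pr p r V X W R a R' a')
include h

theorem le_norm (hne : R ≠ R') (hs : s ∈ Zh W R') (hW : s ∉ W) (hn : s ∈ 𝐍(R)) :
    Zh W R ≤ 𝐍(R') := fun z hz => by
  by_contra hzn
  have sp := h.q.sp
  obtain ⟨t, ht, k, hk, hkn, hka, htk, rfl, -⟩ := h.dec0 hs hn
  obtain ⟨Y, hY, hYk, y, hy, z₁, hz₁, rfl⟩ := sp.sm h.q.cen.ca ht
    (fun e => h.not_mv hne hs hW hkn hka (sp.center_le_mv e)) htk hka fun c hc => by
      obtain ⟨y, hy, h1, h2, e⟩ := sp.exists_y h.q.odd ht hc htk hka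
      exact e ▸ h.sq_mem hne hz hzn hy (h.q'.cent_norm hs hW (h.q.le hy) (h1.mul_right h2))
  rw [mul_assoc] at hs hW
  have hka' := (sp.ca hz₁).mul_left hka
  have hkn' := mul_mem (normG R hz₁.1) hkn
  have hYk' : ∀ u ∈ Y, Commute u (z₁ * k) := fun u hu =>
    Commute.mul_right (hz₁.2 u (hY.le hu)) (mem_cent1'.1 (hYk hu))
  have hkX := mul_mem (h.q.le hz₁.1) hk
  generalize z₁ * k = k at *
  have hk2 : k * k ∈ 𝐂(R) := by
    have := h.q'.Zh_two hs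
    rw [(hYk' y hy).symm.mul_mul_mul_comm, mul_eq_one_iff_eq_inv'] at this
    exact this ▸ inv_mem (sp.sq y (hY.le hy)).2
  have hD : ∀ d ∈ R ⊓ 𝐍(R'), d ∈ Y ⊔ 𝐙(R) := fun d hd => by
    obtain ⟨y', hy', z', hz', rfl⟩ := hY.mem_mul h.q.base h.q.cen sp h.q.le hd.1 fun u hu =>
      sp.sq_comm (H := R ⊓ 𝐍(R')) (fun x hx => h.sq_mem hne hz hzn hx.1 hx.2) inf_le_left
        ⟨hY.le hu, h.q'.norm_of hs hW (h.q.le (hY.le hu)) (by
          convert hY.der (commutator_mem_commutator hu hy) using 1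
          simp only [commutatorElement_def]
          rw [← mul_assoc, mul_inv_rev, mul_assoc _ k, ← (hYk' u hu).inv_left.eq]; group)⟩ hd
    exact mul_mem (mem_sup_left hy') (mem_sup_right hz')
  have hmv : sp.mv k hkn' ≤ Y ⊔ 𝐙(R) := by
    rintro x ⟨u, hu, e⟩
    obtain ⟨z', hz', hc⟩ := sp.exists_fix hkn' hka' (hY.le hy) (hYk' y hy) hk2 hu
    have hm := mul_mem (sp.mv_le (sp.mem_mv_self (hk := hkn') hu)) hz'.1
    have := mul_mem (hD _ ⟨hm, h.q'.cent_norm hs hW (h.q.le hm) hc⟩)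
      (mem_sup_right (inv_mem (mul_mem e hz')))
    convert this using 1; group
  have h1 := sp.norm_mv (hk := hkn') hka'
  have h2 : ⁅sp.mv k hkn', zpowers a⁆ ≤ Y := by
    refine (commSg _ hmv).trans ?_
    rw [commMG_cent (by rw [cent_cycle]; exact fun x hx => mem_cent1'.2 (sp.ca hx))
      (cents_norm (centsS hY.le inf_le_right)), hY.comm]
  by_cases e : ⁅sp.mv k hkn', zpowers a⁆ = ⊥
  · have h3 := sp.cent_of_fixm hkn' hka' fun u hu => (sp.cen _ (sp.mv_le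
      (sp.mem_mv_self (hk := hkn') hu))).1 (mem_cent1'.1 (comm_bot.1 e (sp.mem_mv_self hu)))
    refine hzn (h.q'.cent_norm hs hW (h.q.Zh_le hz) (Commute.mul_right
      (h.q.Zh_cent hz y (hY.le hy)).symm ?_))
    exact centsP.1 (centsC.1 (centsY (zpowers_le.2 (centS inf_le_left h3))
      (zpowers_le.2 (centsC.1 h.q.cen.cX hkX)))) z hz k (mem_zpowers k)
  · have h3 := hY.eq_of_le h.q.base h.q.cen sp h.q.le ⟨h2.trans hY.le, norm_comm _ _,
      sp.commid sp.mv_le h1, e, (dergS h2).trans hY.der⟩ h2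
    exact h.not_mv hne hs hW hkn' hka' (comm_le h1 (h3 ▸ hy))

theorem le_norm' (hne : R ≠ R') (hs : s ∈ Zh W R') (hW : s ∉ W) (hn : s ∈ 𝐍(R)) :
    Zh W R' ≤ 𝐍(R) := fun _ hz => by_contra fun e =>
  h.symm.proper hne.symm hz e (h.le_norm hne hs hW hn)

theorem dec1 (hne : R ≠ R') (hs : s ∈ Zh W R') (hW : s ∉ W) (hn : s ∈ 𝐍(R)) :
    ∃ t ∈ R, t ∉ 𝐙(R) ∧ ∃ k ∈ 𝐂(R), Commute k a ∧ s = t * k := by
  have h1 := h.le_norm hne hs hW hn
  obtain ⟨t, ht, k, hk, hkn, hka, htk, rfl, h2⟩ := h.dec0 hs hn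
  have h3 := h.not_mv hne hs hW hkn hka
  refine ⟨t, ht, fun e => h3 (h.q.sp.center_le_mv e), k, by_contra fun e => ?_, hka, rfl⟩
  obtain ⟨Y, -, h4, h5⟩ := h.q.sp.exists_YY h.q.base h.q.cen h.q.le hkn hka h2.2 (fun z hz => by
    have h6 := (memJ_norm (center_norm R hkn)).2 hz
    refine h.mem_W hne (Z_le_Zh (mul_mem (inv_mem hz) h6)) ?_
    have := mul_mem ((memJ_norm' (h.q'.norm_Zh (h.q.le hz.1) (h1 (Z_le_Zh hz)))).2 hs) (inv_mem hs)
    convert this using 1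
    rw [← mul_inv_cancel_right (k * z * k⁻¹) t, ← h6.2 t ht]; group) e
  obtain ⟨y, hy, z, hz, e'⟩ := h5 t ⟨ht, by rw [htk.symm.mul_inv_cancel, inv_mul_cancel]; exact one_mem _⟩
  exact h3 (e' ▸ mul_mem (h4 hy) (h.q.sp.center_le_mv hz))

theorem comm_Zh (hs : s ∈ Zh W R') (hW : s ∉ W) (hn : s ∈ 𝐍(R)) {z' : G} (hz : z ∈ Zh W R)
    (hz' : z' ∈ Zh W R') : Commute z z' := by
  by_cases hne : R = R'
  · exact h.q.Zh_comm hz (hne ▸ hz')
  by_cases e : z' ∈ W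
  · exact h.q.cen.cm e (h.q.Zh_le hz)
  obtain ⟨t, ht, -, k, hk, -, rfl⟩ := h.dec1 hne hz' e (h.le_norm' hne hs hW hn hz')
  have hkX : k ∈ X := by simpa using mul_mem (inv_mem (h.q.le ht)) (h.q'.Zh_le hz')
  exact Commute.mul_right (h.q.Zh_cent hz t ht).symm (centsP.1 (centsC.1 (centsY
    (zpowers_le.2 (centS inf_le_left hk)) (zpowers_le.2 (centsC.1 h.q.cen.cX hkX)))) z hz k
      (mem_zpowers k))

theorem pow_mem' (n : ℕ) : a ^ n * (a' ^ n)⁻¹ ∈ X := by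
  induction n with
  | zero => simp
  | succ n ih =>
    have := mul_mem ((memJ_norm h.q.base.aX).2 ih) h.symm.mem
    convert this using 1; group

/-- (NS) -/
theorem ns (hs : t * k ∈ Zh W R') (hW : t * k ∉ W) (ht : t ∈ R) (hZ : t ∉ 𝐙(R)) (hk : k ∈ 𝐂(R))
    (hka : Commute k a) (hc : ∀ c ∈ zpowers a, ⁅c * t * c⁻¹, t⁆ ∈ W) : False := by
  obtain ⟨Y, hY, -⟩ := h.q.sp.sm (W := ⊥) bot_le ht hZ (hk t ht) hka fun c hc' => by
    have hu := h.q.sp.conj_mem hc' ht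
    have e1 : ⁅c * t * c⁻¹ * k, t * k⁆ = ⁅c * t * c⁻¹, t⁆ := by
      calc _ = c * t * c⁻¹ * (k * (t * (c * t * c⁻¹)⁻¹) * k⁻¹) * t⁻¹ := by
            simp only [commutatorElement_def]; group
        _ = _ := by
          rw [← hk _ (mul_mem ht (inv_mem hu))]; simp only [commutatorElement_def]; group
    obtain ⟨n, rfl⟩ := (mem_powers_iff_mem_zpowers).2 hc'
    have hx := h.pow_mem' n
    have e2 : a ^ n * (a' ^ n)⁻¹ * (t * k) * (a ^ n * (a' ^ n)⁻¹)⁻¹ = a ^ n * t * (a ^ n)⁻¹ * k := by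
      calc _ = a ^ n * ((a' ^ n)⁻¹ * (t * k) * a' ^ n) * (a ^ n)⁻¹ := by group
        _ = a ^ n * t * (a ^ n)⁻¹ * (a ^ n * k * (a ^ n)⁻¹) := by
          rw [((h.q'.Zh_ca hs).pow_right n).symm.inv_mul_cancel]; group
        _ = _ := by rw [(hka.pow_right n).symm.mul_inv_cancel]
    have hxW := h.q.cen.nrm hx
    have h1 : a ^ n * t * (a ^ n)⁻¹ * k ∈ Zh W (Tr.cj (a ^ n * (a' ^ n)⁻¹) R') := by
      rw [← e2, Zh_cj hxW]; exact conj_mem_cj.2 hs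
    have h2 := (h.q'.pr hx).comm_Zh h1 (e2 ▸ mt (memJ_norm hxW).1 hW)
      (h.q'.norm_of hs hW ((h.q'.conj hx).Zh_le h1) (e1 ▸ hc _ hc')) hs h1
    exact mem_bot.2 (e1 ▸ commutatorElement_eq_one_iff_commute.2 h2.symm)
  exact hY.nonab h.q.sp (derG1P.1 (le_bot_iff.1 hY.der))

/-- (SC) -/
theorem sc (hs : s ∈ Zh W R') (hW : s ∉ W) (hn : s ∈ 𝐍(R)) : R = R' := by
  by_contra hne
  have h1 := h.le_norm hne hs hW hn
  have h2 := h.le_norm' hne hs hW hn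
  have sp := h.q'.sp
  obtain ⟨t, ht, hZ, k, hk, hka, rfl⟩ := h.dec1 hne hs hW hn
  obtain ⟨c, hc, h3⟩ : ∃ c ∈ zpowers a, ⁅c * t * c⁻¹, t⁆ ∉ W := by
    by_contra! e
    exact h.ns hs hW ht hZ hk hka e
  obtain ⟨y, hy, h4, h5, e⟩ := h.q.sp.exists_y h.q.odd ht hc (hk t ht) hka
  rw [← e] at h3
  have hz := Z_le_Zh (W := W) (h.q.sp.sq y hy)
  have hyn := h.q'.cent_norm hs hW (h.q.le hy) (h4.mul_right h5)
  have key : ¬ Commute (y * y) a' := fun e =>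
    hne (h.symm.s1 hz h3 (h1 hz) (one_mem _) (by simpa using e)).symm
  obtain ⟨u, hu, l, hl, hla, e1⟩ := h.q'.dec y (h.q.le hy) hyn
  have hln : l ∈ 𝐍(R') := by simpa [e1] using mul_mem (inv_mem (normG R' hu)) hyn
  have hm := mul_mem hu ((memJ_norm hln).2 hu)
  have e2 : y * y = u * (l * u * l⁻¹) * (l * l) := by rw [e1]; group
  have hll : l * l ∈ 𝐂(R') := by
    obtain ⟨t₀, ht₀, -, k₀, hk₀, -, e3⟩ := h.symm.dec1 (Ne.symm hne) hz h3 (h1 hz)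
    refine sp.cent_of_fixm (mul_mem hln hln) (hla.mul_left hla) fun x hx => ?_
    have := sp.cz (inv_mem hx) (mul_mem (inv_mem hm) ht₀)
    convert this using 1
    rw [← inv_mul_cancel_left (u * (l * u * l⁻¹)) (l * l), ← e2, e3, ← mul_assoc _ t₀,
      mul_assoc _ k₀, ← hk₀ x hx, commutatorElement_def]
    group
  have hZ' : u * (l * u * l⁻¹) ∉ 𝐙(R') := fun e =>
    key (e2 ▸ (sp.ca e).mul_left (hla.mul_left hla))
  obtain ⟨Y, hY, -, h6⟩ := sp.exists_YY h.q'.base h.q'.cen h.q'.le hln hla hll (fun z hz' => by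
    have h6 := (memJ_norm (center_norm R' hln)).2 hz'
    refine h.mem_W hne ?_ (Z_le_Zh (mul_mem (inv_mem hz') h6))
    have e3 : l * z * l⁻¹ = y * z * y⁻¹ := by
      rw [← mul_inv_cancel_right (l * z * l⁻¹) u, ← h6.2 u hu, e1]; group
    rw [e3]
    by_cases hzW : z ∈ W
    · rw [h.q.cen.cm hzW (h.q.le hy), mul_inv_cancel_right, inv_mul_cancel]; exact one_mem _
    obtain ⟨t₁, ht₁, -, k₁, hk₁, -, rfl⟩ := h.dec1 hne (Z_le_Zh hz') hzW (h2 (Z_le_Zh hz'))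
    have := h.q.sp.cz (inv_mem ht₁) hy
    refine Z_le_Zh ?_
    convert this using 1
    rw [hk₁ t₁ ht₁, ← mul_assoc y, hk₁ y hy, commutatorElement_def]
    group) fun e => hZ' (by rw [← e u hu, mul_inv_cancel_right]; exact sp.sq u hu)
  obtain ⟨v, hv, z, hz', e3⟩ := h6 (u * (l * u * l⁻¹)) (sp.mv_le_fixm hll (by
    have := mul_mem (sp.center_le_mv (sp.sq u hu)) (sp.mem_mv_self (hk := hln) hu)
    convert this using 1; group))
  refine h.symm.ns (e2 ▸ hz) (e2 ▸ h3) hm hZ' hll (hla.mul_left hla) fun d hd => ?_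
  have hv' := (memJ_norm (norms_cycle.2 hY.aY hd)).2 hv
  have hvz := mul_mem (hY.le hv) hz'.1
  rw [e3, ← conj_mul, sp.conj_Z hd hz', sp.cmulZ (hY.le hv') hz' hvz, sp.csymm (hY.le hv') hvz,
    sp.cmulZ (hY.le hv) hz' (hY.le hv')]
  exact hY.der (commutator_mem_commutator hv hv')

end Pr

end Cfsg.Agent.FP
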